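import Groth.Statements.S10147
import Mathlib
-- import your own Groth.Agent.* helpers here

set_option autoImplicit false
universe u v w
open LinTop

namespace Groth.Agent.S10147

/-- Let M be a topological module over a ring R whose additive group is a topological group, and let
(M_i) be a family of submodules of M forming a fundamental system of neighbourhoods of 0. For every
submodule N of M, the closure of N is the intersection over i of the submodules N + M_i. -/
theorem result
    {R : Type u} [Ring R] {M : Type v} [AddCommGroup M] [Module R M] [TopologicalSpace M]
    [IsTopologicalAddGroup M] {ι : Type w} (B : ι → Submodule R M)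
    (hB : (nhds (0 : M)).HasBasis (fun _ => True) (fun i => (B i : Set M)))
    (N : Submodule R M) :
    closure (N : Set M) = ⋂ i, ((N ⊔ B i : Submodule R M) : Set M) := by
  ext x
  simp only [Set.mem_iInter, SetLike.mem_coe]
  have hx : (nhds x).HasBasis (fun _ => True) (fun i => (x + ·) '' (B i : Set M)) := by
    rw [← map_add_left_nhds_zero x]; exact hB.map _
  rw [mem_closure_iff_nhds_basis hx]
  constructor
  · intro h i
    obtain ⟨y, hyN, b, hb, hxy⟩ := h i trivial
    have hxy' : x + b = y := hxy
    have h1 : x = y + (-b) := by rw [← hxy']; simp
    rw [h1]
    exact Submodule.add_mem_sup hyN ((B i).neg_mem hb)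
  · intro h i _
    obtain ⟨n, hn, b, hb, hnb⟩ := Submodule.mem_sup.mp (h i)
    exact ⟨n, hn, -b, (B i).neg_mem hb, by show x + -b = n; rw [← hnb]; simp⟩

end Groth.Agent.S10147
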