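import Groth.Statements.S10149
import Mathlib
-- import your own Groth.Agent.* helpers here

set_option autoImplicit false
universe u v
open LinTop

namespace Groth.Agent.S10149

/-- In a linearly topologized ring B the ideal of topologically nilpotent elements is closed. Moreover,
if φ : A → B is a continuous homomorphism of linearly topologized rings and I is an ideal of A
consisting of topologically nilpotent elements, then every element of the closure of the ideal φ(I)B
is topologically nilpotent. -/
theorem result
    (A : Type u) [CommRing A] [TopologicalSpace A] [IsTopologicalRing A] [IsLinearTopology A A]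
    (B : Type v) [CommRing B] [TopologicalSpace B] [IsTopologicalRing B] [IsLinearTopology B B] :
    IsClosed ((topologicalNilradical B : Ideal B) : Set B) ∧
      ∀ (φ : A →+* B), Continuous φ → ∀ I : Ideal A, (∀ f ∈ I, IsTopologicallyNilpotent f) →
        ∀ g ∈ (I.map φ).closure, IsTopologicallyNilpotent g := by
  have hcl : IsClosed ((topologicalNilradical B : Ideal B) : Set B) := by
    rw [← closure_subset_iff_isClosed]
    intro g hg
    rw [SetLike.mem_coe, IsTopologicallyNilpotent.mem_topologicalNilradical_iff]
    unfold IsTopologicallyNilpotent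
    rw [(IsLinearTopology.hasBasis_open_ideal (R := B)).tendsto_right_iff]
    intro J hJ
    have hnb : (fun x => g + x) '' (J : Set B) ∈ nhds g := by
      rw [← map_add_left_nhds_zero g]
      exact Filter.image_mem_map (hJ.mem_nhds J.zero_mem)
    obtain ⟨t, ⟨j, hj, hjt⟩, ht⟩ := mem_closure_iff_nhds.mp hg _ hnb
    have ht' : IsTopologicallyNilpotent t := IsTopologicallyNilpotent.mem_topologicalNilradical_iff.mp ht
    have hev := ht'.eventually (hJ.mem_nhds J.zero_mem)
    filter_upwards [hev] with n hn
    have hdvd : g - t ∣ g ^ n - t ^ n := sub_dvd_pow_sub_pow g t n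
    have hjt' : g + j = t := hjt
    have hgt : g - t ∈ J := by
      have h3 : g - t = -j := by rw [← hjt']; simp
      rw [h3]; exact J.neg_mem hj
    have h2 : g ^ n - t ^ n ∈ J := Ideal.mem_of_dvd J hdvd hgt
    have h4 : g ^ n = (g ^ n - t ^ n) + t ^ n := by ring
    rw [h4]; exact J.add_mem h2 hn
  refine ⟨hcl, ?_⟩
  intro φ hφ I hI g hg
  have hle : I.map φ ≤ topologicalNilradical B := by
    rw [Ideal.map_le_iff_le_comap]
    intro f hf
    rw [Ideal.mem_comap, IsTopologicallyNilpotent.mem_topologicalNilradical_iff]
    exact (hI f hf).map hφ
  have h5 : closure ((I.map φ : Ideal B) : Set B) ⊆ (topologicalNilradical B : Set B) := closure_minimal hle hcl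
  exact IsTopologicallyNilpotent.mem_topologicalNilradical_iff.mp (h5 hg)

end Groth.Agent.S10149
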