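import Groth.Statements.S10150
import Mathlib
import Groth.Agent.S10149
-- import your own Groth.Agent.* helpers here

set_option autoImplicit false
universe u v
open LinTop

namespace Groth.Agent.S10150

/-- Let φ : A → B be a continuous ring homomorphism between weakly pre-admissible linearly topologized
rings. Then φ is taut if and only if, for each weak ideal of definition I of A, the closure of the
ideal generated by φ(I) is again a weak ideal of definition, now of B, and every neighbourhood of 0
in B contains one of these closures. (The published statement takes A and B weakly admissible, that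
is, moreover Hausdorff and complete; completeness plays no role and this row omits it.) -/
theorem result
    (A : Type u) [CommRing A] [TopologicalSpace A] [IsTopologicalRing A] [IsLinearTopology A A]
    (B : Type v) [CommRing B] [TopologicalSpace B] [IsTopologicalRing B] [IsLinearTopology B B]
    (hA : LinTop.IsWeaklyPreadmissible A) (hB : LinTop.IsWeaklyPreadmissible B)
    (φ : A →+* B) (hφ : Continuous φ) :
    LinTop.IsTaut φ ↔
      ((∀ I : Ideal A, LinTop.IsWeakIdealOfDefinition A I →
          LinTop.IsWeakIdealOfDefinition B (I.map φ).closure) ∧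
        ∀ U ∈ nhds (0 : B), ∃ I : Ideal A, LinTop.IsWeakIdealOfDefinition A I ∧
          ((I.map φ).closure : Set B) ⊆ U) := by
  obtain ⟨_, I₀, hI₀o, hI₀n⟩ := hA
  have hinf : ∀ I : Ideal A, IsOpen (I : Set A) → LinTop.IsWeakIdealOfDefinition A (I ⊓ I₀) := by
    intro I hI
    exact ⟨hI.inter hI₀o, fun f hf => hI₀n f hf.2⟩
  have hmono : ∀ I : Ideal A, ((I ⊓ I₀).map φ).closure ≤ (I.map φ).closure := by
    intro I x hx
    have hsub : (((I ⊓ I₀).map φ : Ideal B) : Set B) ⊆ ((I.map φ : Ideal B) : Set B) :=
      Ideal.map_mono inf_le_left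
    exact closure_mono hsub hx
  constructor
  · rintro ⟨_, h2, h3⟩
    refine ⟨?_, ?_⟩
    · rintro I ⟨hIo, hIn⟩
      refine ⟨?_, ?_⟩
      · rw [Ideal.coe_closure]; exact h2 I hIo
      · exact (Groth.Agent.S10149.result A B).2 φ hφ I hIn
    · intro U hU
      obtain ⟨I, hI, hIU⟩ := h3 U hU
      refine ⟨I ⊓ I₀, hinf I hI, ?_⟩
      refine subset_trans (hmono I) ?_
      rw [Ideal.coe_closure]; exact hIU
  · rintro ⟨h1, h2⟩
    refine ⟨hφ, ?_, ?_⟩
    · intro I hI
      have h4 := (h1 _ (hinf I hI)).1
      have h6 := Submodule.isOpen_mono (hmono I) h4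
      rwa [Ideal.coe_closure] at h6
    · intro U hU
      obtain ⟨I, hI, hIU⟩ := h2 U hU
      refine ⟨I, hI.1, ?_⟩
      rw [← Ideal.coe_closure]; exact hIU

end Groth.Agent.S10150
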