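import Groth.Statements.S10151
import Mathlib
-- import your own Groth.Agent.* helpers here

set_option autoImplicit false
universe u v w
open LinTop

namespace Groth.Agent.S10151

/-- Given linearly topologized rings A, B, C and continuous ring maps ψ : B → C and φ : A → B, tautness
of the composite A → C implies that ψ is taut. -/
theorem result
    (A : Type u) [CommRing A] [TopologicalSpace A] [IsTopologicalRing A] [IsLinearTopology A A]
    (B : Type v) [CommRing B] [TopologicalSpace B] [IsTopologicalRing B] [IsLinearTopology B B]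
    (C : Type w) [CommRing C] [TopologicalSpace C] [IsTopologicalRing C] [IsLinearTopology C C]
    (φ : A →+* B) (ψ : B →+* C) (hφ : Continuous φ) (hψ : Continuous ψ)
    (h : LinTop.IsTaut (ψ.comp φ)) : LinTop.IsTaut ψ := by
  obtain ⟨_, h2, h3⟩ := h
  refine ⟨hψ, ?_, ?_⟩
  · intro J hJ
    have hI : IsOpen ((J.comap φ : Ideal A) : Set A) := hJ.preimage hφ
    have h4 := h2 _ hI
    have hle : ((J.comap φ).map (ψ.comp φ)).closure ≤ (J.map ψ).closure := by
      intro x hx
      have hsub : (((J.comap φ).map (ψ.comp φ) : Ideal C) : Set C) ⊆ ((J.map ψ : Ideal C) : Set C) := by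
        have h5 : (J.comap φ).map (ψ.comp φ) ≤ J.map ψ := by
          rw [← Ideal.map_map]
          exact Ideal.map_mono Ideal.map_comap_le
        exact h5
      exact closure_mono hsub hx
    have h6 := Submodule.isOpen_mono hle (by rw [Ideal.coe_closure]; exact h4)
    rwa [Ideal.coe_closure] at h6
  · intro U hU
    obtain ⟨I, hI, hIU⟩ := h3 U hU
    refine ⟨((I.map (ψ.comp φ)).closure).comap ψ, ?_, ?_⟩
    · have h7 : IsOpen (((I.map (ψ.comp φ)).closure : Ideal C) : Set C) := by
        rw [Ideal.coe_closure]; exact h2 I hI
      exact h7.preimage hψ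
    · refine subset_trans ?_ hIU
      have h8 : ((((I.map (ψ.comp φ)).closure).comap ψ).map ψ : Ideal C) ≤ (I.map (ψ.comp φ)).closure := Ideal.map_comap_le
      have h9 : closure (((((I.map (ψ.comp φ)).closure).comap ψ).map ψ : Ideal C) : Set C) ⊆ closure (((I.map (ψ.comp φ)).closure : Ideal C) : Set C) := closure_mono h8
      rw [Ideal.coe_closure, closure_closure] at h9
      exact h9

end Groth.Agent.S10151
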