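import Groth.Statements.S10152
import Mathlib
-- import your own Groth.Agent.* helpers here

set_option autoImplicit false
universe u v
open LinTop

namespace Groth.Agent.S10152

/-- Let φ : A → B be a taut homomorphism of linearly topologized rings. If A has a countable fundamental
system of open ideals, then so does B (equivalently, the neighbourhood filters of 0 are countably
generated). -/
theorem result
    (A : Type u) [CommRing A] [TopologicalSpace A] [IsTopologicalRing A] [IsLinearTopology A A]
    (B : Type v) [CommRing B] [TopologicalSpace B] [IsTopologicalRing B] [IsLinearTopology B B]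
    (φ : A →+* B) (hφ : LinTop.IsTaut φ) (hA : (nhds (0 : A)).IsCountablyGenerated) :
    (nhds (0 : B)).IsCountablyGenerated := by
  obtain ⟨hc, h2, h3⟩ := hφ
  obtain ⟨x, hx⟩ := (nhds (0 : A)).exists_antitone_basis
  have hch : ∀ k : ℕ, ∃ I : Ideal A, IsOpen (I : Set A) ∧ (I : Set A) ⊆ x k :=
    fun k => (IsLinearTopology.hasBasis_open_ideal (R := A)).mem_iff.mp (hx.1.mem_of_mem trivial)
  choose I hIo hIx using hch
  have hbasis : (nhds (0 : B)).HasBasis (fun _ : ℕ => True) (fun k => closure (((I k).map φ : Ideal B) : Set B)) := by
    rw [Filter.hasBasis_iff]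
    intro t
    constructor
    · intro ht
      obtain ⟨I', hI', hI't⟩ := h3 t ht
      obtain ⟨k, _, hk⟩ := hx.1.mem_iff.mp (hI'.mem_nhds I'.zero_mem)
      refine ⟨k, trivial, subset_trans ?_ hI't⟩
      have hle : I k ≤ I' := fun a ha => hk (hIx k ha)
      have hsub : (((I k).map φ : Ideal B) : Set B) ⊆ ((I'.map φ : Ideal B) : Set B) := Ideal.map_mono hle
      exact closure_mono hsub
    · rintro ⟨k, _, hk⟩
      exact Filter.mem_of_superset ((h2 (I k) (hIo k)).mem_nhds (subset_closure (Ideal.zero_mem _))) hk
  exact hbasis.isCountablyGenerated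

end Groth.Agent.S10152
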