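import Groth.Statements.S10153
import Mathlib
import Groth.Agent.S10149
-- import your own Groth.Agent.* helpers here

set_option autoImplicit false
universe u v
open LinTop

namespace Groth.Agent.S10153

/-- Let φ : A → B be a taut homomorphism of linearly topologized rings. If A is weakly pre-admissible,
then B is weakly pre-admissible. -/
theorem result
    (A : Type u) [CommRing A] [TopologicalSpace A] [IsTopologicalRing A] [IsLinearTopology A A]
    (B : Type v) [CommRing B] [TopologicalSpace B] [IsTopologicalRing B] [IsLinearTopology B B]
    (φ : A →+* B) (hφ : LinTop.IsTaut φ) (hA : LinTop.IsWeaklyPreadmissible A) :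
    LinTop.IsWeaklyPreadmissible B := by
  obtain ⟨_, I, hIo, hIn⟩ := hA
  refine ⟨inferInstance, (I.map φ).closure, ?_, ?_⟩
  · rw [Ideal.coe_closure]; exact hφ.2.1 I hIo
  · exact (Groth.Agent.S10149.result A B).2 φ hφ.1 I hIn

end Groth.Agent.S10153
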