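import Groth.Statements.S10154
import Mathlib
-- import your own Groth.Agent.* helpers here

set_option autoImplicit false
universe u v
open LinTop

namespace Groth.Agent.S10154

/-- Let φ : A → B be a taut homomorphism of linearly topologized rings. If A is pre-admissible, then B
is pre-admissible. -/
theorem result
    (A : Type u) [CommRing A] [TopologicalSpace A] [IsTopologicalRing A] [IsLinearTopology A A]
    (B : Type v) [CommRing B] [TopologicalSpace B] [IsTopologicalRing B] [IsLinearTopology B B]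
    (φ : A →+* B) (hφ : LinTop.IsTaut φ) (hA : LinTop.IsPreadmissible A) :
    LinTop.IsPreadmissible B := by
  obtain ⟨hc, h2, h3⟩ := hφ
  obtain ⟨_, I, hIo, hIn⟩ := hA
  refine ⟨inferInstance, (I.map φ).closure, by rw [Ideal.coe_closure]; exact h2 I hIo, ?_⟩
  intro U hU
  obtain ⟨I', hI', hI'U⟩ := h3 U hU
  obtain ⟨n, hn0, hn⟩ := hIn _ (hI'.mem_nhds I'.zero_mem)
  refine ⟨n, hn0, subset_trans ?_ hI'U⟩
  rw [← Ideal.coe_closure]
  have hVo : IsOpen (((I'.map φ).closure : Ideal B) : Set B) := by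
    rw [Ideal.coe_closure]; exact h2 I' hI'
  have h4 : (I.map φ).closure ≤ I.map φ ⊔ (I'.map φ).closure := by
    intro x hx
    have hnb : (fun y => x + y) '' (((I'.map φ).closure : Ideal B) : Set B) ∈ nhds x := by
      rw [← map_add_left_nhds_zero x]
      exact Filter.image_mem_map (hVo.mem_nhds (Ideal.zero_mem _))
    obtain ⟨t, ⟨v, hv, hvt⟩, ht⟩ := mem_closure_iff_nhds.mp hx _ hnb
    have hvt' : x + v = t := hvt
    have h5 : x = t + (-v) := by rw [← hvt']; simp
    rw [h5]
    exact Submodule.add_mem_sup ht (Ideal.neg_mem_iff _ |>.mpr hv)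
  have h6 : ∀ (K V : Ideal B) (m : ℕ), (K ⊔ V) ^ m ≤ K ^ m ⊔ V := by
    intro K V m
    induction m with
    | zero => simp
    | succ m ih =>
      rw [pow_succ, pow_succ]
      calc (K ⊔ V) ^ m * (K ⊔ V) ≤ (K ^ m ⊔ V) * (K ⊔ V) := Ideal.mul_mono_left ih
        _ ≤ K ^ m * K ⊔ V := by
          rw [Ideal.sup_mul, Ideal.mul_sup]
          have e0 : V ≤ K ^ m * K ⊔ V := le_sup_right
          have e1 : K ^ m * V ≤ V := Ideal.mul_le_right
          have e2 : V * (K ⊔ V) ≤ V := Ideal.mul_le_left
          exact sup_le (sup_le le_sup_left (e1.trans e0)) (e2.trans e0)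
  have h7 : (I.map φ) ^ n ≤ (I'.map φ).closure := by
    rw [← Ideal.map_pow]
    have h8 : (I ^ n).map φ ≤ I'.map φ := Ideal.map_mono (SetLike.coe_subset_coe.mp hn)
    exact le_trans h8 (fun y hy => subset_closure hy)
  exact le_trans (Ideal.pow_right_mono h4 n) (le_trans (h6 _ _ n) (sup_le h7 le_rfl))

end Groth.Agent.S10154
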