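import Groth.Statements.S10160
import Mathlib
-- import your own Groth.Agent.* helpers here

set_option autoImplicit false
universe u
open LinTop

namespace Groth.Agent.S10160

/-- A weakly adic topological ring is admissible and has a countable fundamental system of open ideals. -/
theorem result
    (A : Type u) [CommRing A] [UniformSpace A] [IsUniformAddGroup A] [IsTopologicalRing A] (hA : LinTop.IsWeaklyAdic A) :
    LinTop.IsAdmissible A ∧ (nhds (0 : A)).IsCountablyGenerated := by
  obtain ⟨⟨hlin, I, hIo, hIn⟩, hT2, hC⟩ := hA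
  have h6 : ∀ (K V : Ideal A) (m : ℕ), (K ⊔ V) ^ m ≤ K ^ m ⊔ V := by
    intro K V m
    induction m with
    | zero => simp
    | succ m ih =>
      rw [pow_succ, pow_succ]
      calc (K ⊔ V) ^ m * (K ⊔ V) ≤ (K ^ m ⊔ V) * (K ⊔ V) := Ideal.mul_mono_left ih
        _ ≤ K ^ m * K ⊔ V := by
          rw [Ideal.sup_mul, Ideal.mul_sup]
          have e0 : V ≤ K ^ m * K ⊔ V := le_sup_right
          have e1 : K ^ m * V ≤ V := Ideal.mul_le_right
          have e2 : V * (K ⊔ V) ≤ V := Ideal.mul_le_left
          exact sup_le (sup_le le_sup_left (e1.trans e0)) (e2.trans e0)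
  have h4 : ∀ (K V : Ideal A), IsOpen (V : Set A) → K.closure ≤ K ⊔ V := by
    intro K V hVo x hx
    have hnb : (fun y => x + y) '' (V : Set A) ∈ nhds x := by
      rw [← map_add_left_nhds_zero x]
      exact Filter.image_mem_map (hVo.mem_nhds (Ideal.zero_mem _))
    obtain ⟨t, ⟨v, hv, hvt⟩, ht⟩ := mem_closure_iff_nhds.mp hx _ hnb
    have hvt' : x + v = t := hvt
    have h5 : x = t + (-v) := by rw [← hvt']; simp
    rw [h5]
    exact Submodule.add_mem_sup ht (Ideal.neg_mem_iff _ |>.mpr hv)
  refine ⟨⟨⟨hlin, I.closure, ?_, ?_⟩, hT2, hC⟩, ?_⟩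
  · have h1 := hIo 1
    rw [pow_one] at h1
    rw [Ideal.coe_closure]; exact h1
  · intro U hU
    obtain ⟨n, hn⟩ := hIn U hU
    refine ⟨n + 1, Nat.succ_pos n, subset_trans ?_ hn⟩
    rw [← Ideal.coe_closure]
    have hVo : IsOpen (((I ^ n).closure : Ideal A) : Set A) := by
      rw [Ideal.coe_closure]; exact hIo n
    have e1 : I.closure ^ (n+1) ≤ (I ⊔ (I^n).closure) ^ (n+1) := Ideal.pow_right_mono (h4 _ _ hVo) _
    have e2 : I ^ (n+1) ≤ (I^n).closure :=
      le_trans (Ideal.pow_le_pow_right (Nat.le_succ n)) (fun y hy => subset_closure hy)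
    exact SetLike.coe_subset_coe.mpr (le_trans e1 (le_trans (h6 _ _ _) (sup_le e2 le_rfl)))
  · have hbasis : (nhds (0 : A)).HasBasis (fun _ : ℕ => True) (fun k => closure ((I ^ k : Ideal A) : Set A)) := by
      rw [Filter.hasBasis_iff]
      intro t
      constructor
      · intro ht
        obtain ⟨n, hn⟩ := hIn t ht
        exact ⟨n, trivial, hn⟩
      · rintro ⟨k, _, hk⟩
        exact Filter.mem_of_superset ((hIo k).mem_nhds (subset_closure (Ideal.zero_mem _))) hk
    exact hbasis.isCountablyGenerated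

end Groth.Agent.S10160
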