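import Groth.Statements.S10165
import Mathlib
-- import your own Groth.Agent.* helpers here

set_option autoImplicit false
universe u v
open LinTop

namespace Groth.Agent.S10165

/-- Let φ : A → B be a taut homomorphism of linearly topologized rings. If A is weakly pre-adic, then B
is weakly pre-adic. -/
theorem result
    (A : Type u) [CommRing A] [TopologicalSpace A] [IsTopologicalRing A] [IsLinearTopology A A]
    (B : Type v) [CommRing B] [TopologicalSpace B] [IsTopologicalRing B] [IsLinearTopology B B]
    (φ : A →+* B) (hφ : LinTop.IsTaut φ) (hA : LinTop.IsWeaklyPreadic A) :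
    LinTop.IsWeaklyPreadic B := by
  obtain ⟨hc, h2, h3⟩ := hφ
  obtain ⟨_, I, hIo, hIn⟩ := hA
  refine ⟨inferInstance, I.map φ, ?_, ?_⟩
  · intro n
    rw [← Ideal.map_pow]
    have hopen := h2 ((I ^ n).closure) (by rw [Ideal.coe_closure]; exact hIo n)
    have hle : ((I ^ n).closure).map φ ≤ ((I ^ n).map φ).closure := by
      rw [Ideal.map_le_iff_le_comap]
      intro a ha
      rw [Ideal.mem_comap]
      have h5 : φ a ∈ closure (φ '' ((I ^ n : Ideal A) : Set A)) :=
        image_closure_subset_closure_image hc ⟨a, ha, rfl⟩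
      exact closure_mono (by rintro _ ⟨b, hb, rfl⟩; exact Ideal.mem_map_of_mem φ hb) h5
    have hle2 : (((I ^ n).closure).map φ).closure ≤ ((I ^ n).map φ).closure := by
      intro x hx
      have h7 : closure ((((I ^ n).closure).map φ : Ideal B) : Set B) ⊆ closure ((((I ^ n).map φ).closure : Ideal B) : Set B) := closure_mono hle
      rw [Ideal.coe_closure, closure_closure] at h7
      exact h7 hx
    have h6 := Submodule.isOpen_mono hle2 (by rw [Ideal.coe_closure]; exact hopen)
    rwa [Ideal.coe_closure] at h6
  · intro U hU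
    obtain ⟨I', hI', hI'U⟩ := h3 U hU
    obtain ⟨n, hn⟩ := hIn _ (hI'.mem_nhds I'.zero_mem)
    refine ⟨n, subset_trans ?_ hI'U⟩
    rw [← Ideal.map_pow]
    have hle : I ^ n ≤ I' := fun a ha => hn (subset_closure ha)
    have hsub : (((I ^ n).map φ : Ideal B) : Set B) ⊆ ((I'.map φ : Ideal B) : Set B) := Ideal.map_mono hle
    exact closure_mono hsub

end Groth.Agent.S10165
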