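import Groth.Statements.S10166
import Mathlib
-- import your own Groth.Agent.* helpers here

set_option autoImplicit false
universe u v
open LinTop

namespace Groth.Agent.S10166

/-- Let φ : A → B be a taut homomorphism of linearly topologized rings such that for every open ideal I
of A, with J the closure of φ(I)B, the induced map A/I → B/J is faithfully flat. If B has a
countable fundamental system of open ideals, then so does A. -/
theorem result
    (A : Type u) [CommRing A] [TopologicalSpace A] [IsTopologicalRing A] [IsLinearTopology A A]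
    (B : Type v) [CommRing B] [TopologicalSpace B] [IsTopologicalRing B] [IsLinearTopology B B]
    (φ : A →+* B) (hφ : LinTop.IsTautFFlat φ) (hB : (nhds (0 : B)).IsCountablyGenerated) :
    (nhds (0 : A)).IsCountablyGenerated := by
  obtain ⟨⟨hc, h2, h3⟩, hff⟩ := hφ
  obtain ⟨x, hx⟩ := (nhds (0 : B)).exists_antitone_basis
  have hch : ∀ k : ℕ, ∃ I : Ideal A, IsOpen (I : Set A) ∧ closure ((I.map φ : Ideal B) : Set B) ⊆ x k :=
    fun k => h3 (x k) (hx.1.mem_of_mem trivial)
  choose I hIo hIx using hch
  have hbasis : (nhds (0 : A)).HasBasis (fun _ : ℕ => True) (fun k => (I k : Set A)) := by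
    rw [Filter.hasBasis_iff]
    intro t
    constructor
    · intro ht
      obtain ⟨I', hI', hI't⟩ := (IsLinearTopology.hasBasis_open_ideal (R := A)).mem_iff.mp ht
      have hopen : IsOpen (((I'.map φ).closure : Ideal B) : Set B) := by
        rw [Ideal.coe_closure]; exact h2 I' hI'
      obtain ⟨k, _, hk⟩ := hx.1.mem_iff.mp (hopen.mem_nhds (Ideal.zero_mem _))
      refine ⟨k, trivial, subset_trans ?_ hI't⟩
      intro a ha
      have ha2 : φ a ∈ (I'.map φ).closure := hk (hIx k (subset_closure (Ideal.mem_map_of_mem φ ha)))
      have hinj : Function.Injective (LinTop.descentMap φ I') := (hff I' hI').injective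
      have h0 : LinTop.descentMap φ I' (Ideal.Quotient.mk I' a) = 0 := by
        unfold LinTop.descentMap
        rw [Ideal.quotientMap_mk, Ideal.Quotient.eq_zero_iff_mem]
        exact ha2
      have h1 : Ideal.Quotient.mk I' a = 0 := hinj (by rw [h0, map_zero])
      exact Ideal.Quotient.eq_zero_iff_mem.mp h1
    · rintro ⟨k, _, hk⟩
      exact Filter.mem_of_superset ((hIo k).mem_nhds (I k).zero_mem) hk
  exact hbasis.isCountablyGenerated

end Groth.Agent.S10166
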