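import Groth.Statements.S10167
import Mathlib
-- import your own Groth.Agent.* helpers here

set_option autoImplicit false
universe u v
open LinTop

namespace Groth.Agent.S10167

/-- Let φ : A → B be a taut homomorphism of linearly topologized rings such that for every open ideal I
of A the induced ring map A/I → B/J, where J denotes the closure of φ(I)B, is faithfully flat. If B
has a weak ideal of definition (B is weakly pre-admissible), then so does A. -/
theorem result
    (A : Type u) [CommRing A] [TopologicalSpace A] [IsTopologicalRing A] [IsLinearTopology A A]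
    (B : Type v) [CommRing B] [TopologicalSpace B] [IsTopologicalRing B] [IsLinearTopology B B]
    (φ : A →+* B) (hφ : LinTop.IsTautFFlat φ) (hB : LinTop.IsWeaklyPreadmissible B) :
    LinTop.IsWeaklyPreadmissible A := by
  obtain ⟨⟨hc, h2, h3⟩, hff⟩ := hφ
  obtain ⟨_, J, hJo, hJn⟩ := hB
  refine ⟨inferInstance, J.comap φ, hJo.preimage hc, ?_⟩
  intro f hf
  unfold IsTopologicallyNilpotent
  rw [(IsLinearTopology.hasBasis_open_ideal (R := A)).tendsto_right_iff]
  intro I hI
  have hopen : IsOpen (((I.map φ).closure : Ideal B) : Set B) := by
    rw [Ideal.coe_closure]; exact h2 I hI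
  have hnil : IsTopologicallyNilpotent (φ f) := hJn _ hf
  have hev := hnil.eventually (hopen.mem_nhds (Ideal.zero_mem _))
  filter_upwards [hev] with n hn
  have hinj : Function.Injective (LinTop.descentMap φ I) := (hff I hI).injective
  have h0 : LinTop.descentMap φ I (Ideal.Quotient.mk I (f ^ n)) = 0 := by
    unfold LinTop.descentMap
    rw [Ideal.quotientMap_mk, Ideal.Quotient.eq_zero_iff_mem, map_pow]
    exact hn
  have h1 : Ideal.Quotient.mk I (f ^ n) = 0 := hinj (by rw [h0, map_zero])
  exact Ideal.Quotient.eq_zero_iff_mem.mp h1

end Groth.Agent.S10167
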