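import Groth.Statements.S10168
import Mathlib
-- import your own Groth.Agent.* helpers here

set_option autoImplicit false
universe u v
open LinTop

namespace Groth.Agent.S10168

/-- Let φ : A → B be a taut homomorphism of linearly topologized rings such that for every open ideal I
of A, with J the closure of φ(I)B, the induced map A/I → B/J is faithfully flat. If B is
pre-admissible, then A is pre-admissible. -/
theorem result
    (A : Type u) [CommRing A] [TopologicalSpace A] [IsTopologicalRing A] [IsLinearTopology A A]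
    (B : Type v) [CommRing B] [TopologicalSpace B] [IsTopologicalRing B] [IsLinearTopology B B]
    (φ : A →+* B) (hφ : LinTop.IsTautFFlat φ) (hB : LinTop.IsPreadmissible B) :
    LinTop.IsPreadmissible A := by
  obtain ⟨⟨hc, h2, h3⟩, hff⟩ := hφ
  obtain ⟨_, J, hJo, hJn⟩ := hB
  refine ⟨inferInstance, J.comap φ, hJo.preimage hc, ?_⟩
  intro U hU
  obtain ⟨I, hI, hIU⟩ := (IsLinearTopology.hasBasis_open_ideal (R := A)).mem_iff.mp hU
  have hopen : IsOpen (((I.map φ).closure : Ideal B) : Set B) := by
    rw [Ideal.coe_closure]; exact h2 I hI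
  obtain ⟨n, hn0, hn⟩ := hJn _ (hopen.mem_nhds (Ideal.zero_mem _))
  refine ⟨n, hn0, subset_trans ?_ hIU⟩
  intro x hx
  have hx1 : φ x ∈ J ^ n := by
    have h4 : ((J.comap φ) ^ n).map φ ≤ J ^ n := by
      rw [Ideal.map_pow]
      exact Ideal.pow_right_mono Ideal.map_comap_le n
    exact h4 (Ideal.mem_map_of_mem φ hx)
  have hx2 : φ x ∈ (I.map φ).closure := hn hx1
  have hinj : Function.Injective (LinTop.descentMap φ I) := (hff I hI).injective
  have h0 : LinTop.descentMap φ I (Ideal.Quotient.mk I x) = 0 := by
    unfold LinTop.descentMap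
    rw [Ideal.quotientMap_mk, Ideal.Quotient.eq_zero_iff_mem]
    exact hx2
  have h1 : Ideal.Quotient.mk I x = 0 := hinj (by rw [h0, map_zero])
  exact Ideal.Quotient.eq_zero_iff_mem.mp h1

end Groth.Agent.S10168
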