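import Groth.Statements.S12078
import Mathlib.Algebra.BigOperators.Fin
import Mathlib.LinearAlgebra.Matrix.Notation

set_option autoImplicit false
universe u
open CAlg

namespace Groth.Agent.S12078

/-- An elementary divisor domain is Bézout. Here `R` is a domain such that for all `n, m ≥ 1` and every
`n × m` matrix `A` there are invertible matrices `U` (`n × n`) and `V` (`m × m`) with `U * A * V`
zero off the diagonal and with diagonal entries `f 0 ∣ f 1 ∣ f 2 ∣ …`; the conclusion is that every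
finitely generated ideal of `R` is principal. -/
theorem result (R : Type u) [CommRing R] [IsDomain R]
    (hR : ∀ n m : ℕ, 1 ≤ n → 1 ≤ m → ∀ A : Matrix (Fin n) (Fin m) R,
      ∃ (U : (Matrix (Fin n) (Fin n) R)ˣ) (V : (Matrix (Fin m) (Fin m) R)ˣ) (f : ℕ → R),
        (∀ k : ℕ, f k ∣ f (k + 1)) ∧
        ∀ (i : Fin n) (j : Fin m), ((U : Matrix (Fin n) (Fin n) R) * A * (V : Matrix (Fin m) (Fin m) R)) i j =
          if (i : ℕ) = (j : ℕ) then f i else 0) :
    IsBezout R := by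
  rw [IsBezout.iff_span_pair_isPrincipal]
  intro x y
  obtain ⟨U, V, f, -, h⟩ := hR 1 2 le_rfl (by norm_num) (Matrix.of ![![x, y]] : Matrix (Fin 1) (Fin 2) R)
  obtain ⟨D, hD⟩ : ∃ D : Matrix (Fin 1) (Fin 2) R, D = (U : Matrix (Fin 1) (Fin 1) R) * (Matrix.of ![![x, y]] : Matrix (Fin 1) (Fin 2) R) * (V : Matrix (Fin 2) (Fin 2) R) := ⟨_, rfl⟩
  rw [← hD] at h
  have h00 : D 0 0 = f 0 := by simpa using h 0 0
  have h01 : D 0 1 = 0 := by simpa using h 0 1
  have hAeq : (Matrix.of ![![x, y]] : Matrix (Fin 1) (Fin 2) R) = (↑U⁻¹ : Matrix (Fin 1) (Fin 1) R) * D * (↑V⁻¹ : Matrix (Fin 2) (Fin 2) R) := by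
    rw [hD]
    simp only [Matrix.mul_assoc]
    rw [Units.mul_inv, Matrix.mul_one, ← Matrix.mul_assoc, Units.inv_mul, Matrix.one_mul]
  have hx : x = (↑U⁻¹ : Matrix (Fin 1) (Fin 1) R) 0 0 * f 0 * (↑V⁻¹ : Matrix (Fin 2) (Fin 2) R) 0 0 := by
    have := congrFun (congrFun hAeq 0) 0
    simpa [Matrix.mul_apply, Fin.sum_univ_two, h00, h01] using this
  have hy : y = (↑U⁻¹ : Matrix (Fin 1) (Fin 1) R) 0 0 * f 0 * (↑V⁻¹ : Matrix (Fin 2) (Fin 2) R) 0 1 := by
    have := congrFun (congrFun hAeq 0) 1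
    simpa [Matrix.mul_apply, Fin.sum_univ_two, h00, h01] using this
  have hf : f 0 = ((U : Matrix (Fin 1) (Fin 1) R) 0 0 * (V : Matrix (Fin 2) (Fin 2) R) 0 0) * x + ((U : Matrix (Fin 1) (Fin 1) R) 0 0 * (V : Matrix (Fin 2) (Fin 2) R) 1 0) * y := by
    rw [← h00, hD]
    simp [Matrix.mul_apply, Fin.sum_univ_two]
    ring
  refine ⟨⟨f 0, ?_⟩⟩
  apply le_antisymm
  · rw [Ideal.span_le]
    intro z hz
    show z ∈ Ideal.span {f 0}
    rcases hz with hz | hz
    · rw [hz, hx]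
      exact Ideal.mul_mem_right _ _ (Ideal.mul_mem_left _ _ (Ideal.subset_span rfl))
    · rw [Set.mem_singleton_iff.mp hz, hy]
      exact Ideal.mul_mem_right _ _ (Ideal.mul_mem_left _ _ (Ideal.subset_span rfl))
  · change Ideal.span {f 0} ≤ _
    rw [Ideal.span_le, Set.singleton_subset_iff]
    exact Ideal.mem_span_pair.mpr ⟨_, _, hf.symm⟩

end Groth.Agent.S12078
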