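import Groth.Statements.S12219
-- import your own Groth.Agent.* helpers here

set_option autoImplicit false
universe v u
open CategoryTheory
open Cat

namespace Groth.Agent.S12219

/-- Let I be a category such that every pair of morphisms x → y and x → z with the same source can be
completed to a commutative square through some object w. Then the relation 'there is an object z
with morphisms x → z and y → z' is an equivalence relation on objects and coincides with being
joined by a zigzag of morphisms; consequently I is empty or the disjoint union of its (non-empty,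
connected) classes, each of which is a full subcategory with the same completion property. The row
states the identification of the two relations. -/
theorem result {I : Type u} [Category.{v} I]
    (h : ∀ ⦃x y z : I⦄ (f : x ⟶ y) (g : x ⟶ z), ∃ (w : I) (a : y ⟶ w) (b : z ⟶ w), f ≫ a = g ≫ b)
    (x y : I) :
    Zigzag x y ↔ ∃ z : I, Nonempty (x ⟶ z) ∧ Nonempty (y ⟶ z) := by
  constructor
  · intro hz
    induction hz with
    | refl => exact ⟨x, ⟨𝟙 x⟩, ⟨𝟙 x⟩⟩
    | tail _ hbc ih =>
      obtain ⟨z, ⟨f⟩, ⟨g⟩⟩ := ih
      rcases hbc with ⟨⟨e⟩⟩ | ⟨⟨e⟩⟩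
      · obtain ⟨w, a, b, _⟩ := h g e
        exact ⟨w, ⟨f ≫ a⟩, ⟨b⟩⟩
      · exact ⟨z, ⟨f⟩, ⟨e ≫ g⟩⟩
  · rintro ⟨z, ⟨f⟩, ⟨g⟩⟩
    exact (Zigzag.of_hom f).trans (Zigzag.of_inv g)

end Groth.Agent.S12219
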