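import Groth.Statements.S12442
-- import your own Groth.Agent.* helpers here

set_option autoImplicit false
universe u
open Mor

namespace Groth.Agent.S12442

open AlgebraicGeometry CategoryTheory in
/-- Let f : X → Y and g : Y → S be morphisms of schemes. If the composite X → S is locally of finite
presentation and g is locally of finite type, then f is locally of finite presentation. -/
theorem result {X Y S : Scheme.{u}} (f : X ⟶ Y) (g : Y ⟶ S)
    [LocallyOfFinitePresentation (f ≫ g)] [LocallyOfFiniteType g] :
    LocallyOfFinitePresentation f := by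
  rw [HasRingHomProperty.iff_exists_appLE (P := @LocallyOfFinitePresentation)
    (RingHom.StableUnderComposition.stableUnderCompositionWithLocalizationAway
      RingHom.finitePresentation_stableUnderComposition RingHom.finitePresentation_holdsForLocalizationAway).1]
  intro x
  obtain ⟨W, hW, hxW, -⟩ := exists_isAffineOpen_mem_and_subset (x := g (f x)) (U := ⊤) trivial
  obtain ⟨U, hU, hxU, hUW⟩ := exists_isAffineOpen_mem_and_subset (x := f x) (U := g ⁻¹ᵁ W) hxW
  obtain ⟨V, hV, hxV, hVU⟩ := exists_isAffineOpen_mem_and_subset (x := x) (U := f ⁻¹ᵁ U) hxU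
  refine ⟨⟨U, hU⟩, ⟨V, hV⟩, hxV, hVU, ?_⟩
  have h1 := HasRingHomProperty.appLE (P := @LocallyOfFinitePresentation) (f ≫ g) inferInstance ⟨W, hW⟩ ⟨V, hV⟩
    (hVU.trans ((TopologicalSpace.Opens.map f.base).map (homOfLE hUW)).le)
  have h2 := HasRingHomProperty.appLE (P := @LocallyOfFiniteType) g inferInstance ⟨W, hW⟩ ⟨U, hU⟩ hUW
  rw [← Scheme.Hom.appLE_comp_appLE f g W U V hUW hVU] at h1
  exact RingHom.FinitePresentation.of_comp_finiteType _ h1 h2

end Groth.Agent.S12442
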