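import Groth.Statements.S12931
import Mathlib.Algebra.BigOperators.Pi
import Mathlib.Algebra.BigOperators.Ring.Finset
import Mathlib.Data.Fintype.BigOperators

set_option autoImplicit false
universe u v w
open HopfRep

namespace Groth.Agent.S12931

/-- Let `R` be a commutative ring, `Γ` a finite set and `T` a commutative `R`-algebra which is
connected: nonzero, with no idempotents other than `0` and `1`. Then `γ ↦ (evaluation at γ : (Γ → R)
→ R → T)` is a bijection from `Γ` onto the `R`-algebra maps `(Γ → R) → T`: every such map sends
exactly one of the indicator functions to `1` and the others to `0`. (Only the bijection of sets is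
stated; when `Γ` is a group, the compatibility with the group structures on both sides is not.) -/
theorem result
    (R : Type u) [CommRing R] (Γ : Type v) [Finite Γ]
    (T : Type w) [CommRing T] [Algebra R T] [Nontrivial T]
    (hT : ∀ e : T, IsIdempotentElem e → e = 0 ∨ e = 1) :
    Function.Bijective (fun γ : Γ => (Algebra.ofId R T).comp (Pi.evalAlgHom R (fun _ : Γ => R) γ)) := by
  classical
  cases nonempty_fintype Γ
  constructor
  · intro γ γ' h
    by_contra hne
    have h1 := congrArg (fun φ : (Γ → R) →ₐ[R] T => φ (Pi.single γ 1)) h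
    have h2 : (Pi.single γ (1 : R) : Γ → R) γ' = 0 := by
      rw [Pi.single_apply, if_neg (fun h => hne h.symm)]
    have h3 : algebraMap R T ((Pi.single γ (1 : R) : Γ → R) γ) = algebraMap R T ((Pi.single γ (1 : R) : Γ → R) γ') := h1
    rw [h2, Pi.single_eq_same, map_one, map_zero] at h3
    exact one_ne_zero h3
  · intro φ
    have hidem : ∀ γ, IsIdempotentElem (φ (Pi.single γ (1 : R))) := by
      intro γ
      unfold IsIdempotentElem
      rw [← map_mul, ← Pi.single_mul, mul_one]
    have hsum : ∑ γ, φ (Pi.single γ (1 : R)) = 1 := by
      rw [← map_sum]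
      have : ∑ γ, (Pi.single γ (1 : R) : Γ → R) = 1 := by
        ext i
        simp [Finset.sum_apply, Pi.single_apply]
      rw [this, map_one]
    have hex : ∃ γ, φ (Pi.single γ (1 : R)) = 1 := by
      by_contra hcon
      rw [not_exists] at hcon
      have h0 : ∀ γ, φ (Pi.single γ (1 : R)) = 0 := fun γ => (hT _ (hidem γ)).resolve_right (hcon γ)
      simp [h0] at hsum
    obtain ⟨γ, hγ⟩ := hex
    refine ⟨γ, ?_⟩
    apply AlgHom.ext
    intro f
    show algebraMap R T (f γ) = φ f
    have h1 : φ f = φ f * φ (Pi.single γ (1 : R)) := by rw [hγ, mul_one]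
    rw [h1, ← map_mul]
    have h2 : f * Pi.single γ (1 : R) = (f γ) • (Pi.single γ (1 : R) : Γ → R) := by
      ext i
      by_cases h : i = γ
      · subst h; simp
      · simp [Pi.single_apply, h]
    rw [h2, map_smul, hγ, Algebra.smul_def, mul_one]

end Groth.Agent.S12931
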