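import Groth.Statements.S13151
import Mathlib.RingTheory.Localization.Integral
import Mathlib.Tactic.FieldSimp

set_option autoImplicit false
universe u
open CAlg

namespace Groth.Agent.S13151

/-- Let A → B be an injective ring homomorphism of integral domains which is integral, with A integrally
closed, and let π be an element of A. Then the contraction to A of the ideal πB is πA, i.e. an
element of A which is a multiple of π in B is already a multiple of π in A; in particular if B/πB is
an integral domain then A/πA is an integral domain. (The published statement is for an integral
dominant morphism of integral schemes flat over a discrete valuation ring, with normal target and π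
a uniformizer; flatness and the valuation ring play no role, so π is an arbitrary element here.) -/
theorem result {A B : Type u} [CommRing A] [CommRing B]
    [IsDomain A] [IsDomain B] [IsIntegrallyClosed A] [Algebra A B] [Algebra.IsIntegral A B]
    (hinj : Function.Injective (algebraMap A B)) (π : A) :
    (Ideal.span {algebraMap A B π}).comap (algebraMap A B) = Ideal.span {π} ∧
      (IsDomain (B ⧸ Ideal.span {algebraMap A B π}) → IsDomain (A ⧸ Ideal.span {π})) := by
  have part1 : (Ideal.span {algebraMap A B π}).comap (algebraMap A B) = Ideal.span {π} := by
    apply le_antisymm
    · intro a ha
      rw [Ideal.mem_comap, Ideal.mem_span_singleton'] at ha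
      obtain ⟨b, hb⟩ := ha
      by_cases hπ : π = 0
      · subst hπ
        have : a = 0 := hinj (by simpa using hb.symm)
        simp [this]
      · have hinjL : Function.Injective (algebraMap A (FractionRing B)) := by
          rw [IsScalarTower.algebraMap_eq A B (FractionRing B)]
          exact (IsFractionRing.injective B (FractionRing B)).comp hinj
        let g : FractionRing A →ₐ[A] FractionRing B :=
          IsFractionRing.liftAlgHom (g := Algebra.ofId A (FractionRing B)) hinjL
        have hg : Function.Injective g := g.toRingHom.injective
        have hπK : algebraMap A (FractionRing A) π ≠ 0 := by
          intro h0
          exact hπ (IsFractionRing.injective A (FractionRing A) (by simpa using h0))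
        have hπL : algebraMap A (FractionRing B) π ≠ 0 := by
          intro h0
          exact hπ (hinjL (by simpa using h0))
        have hx : g (algebraMap A (FractionRing A) a / algebraMap A (FractionRing A) π)
            = algebraMap B (FractionRing B) b := by
          rw [map_div₀, AlgHom.commutes, AlgHom.commutes, div_eq_iff hπL,
            IsScalarTower.algebraMap_apply A B (FractionRing B) a, ← hb, map_mul,
            ← IsScalarTower.algebraMap_apply A B (FractionRing B) π]
        have hint : IsIntegral A (algebraMap A (FractionRing A) a / algebraMap A (FractionRing A) π) := by
          rw [← isIntegral_algHom_iff g hg, hx]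
          exact (Algebra.IsIntegral.isIntegral b).algebraMap
        obtain ⟨c, hc⟩ := IsIntegrallyClosed.isIntegral_iff.mp hint
        rw [Ideal.mem_span_singleton']
        refine ⟨c, ?_⟩
        apply IsFractionRing.injective A (FractionRing A)
        rw [map_mul, hc]
        field_simp
    · rw [Ideal.span_le]
      intro x hx
      rw [Set.mem_singleton_iff] at hx
      subst hx
      exact Ideal.mem_span_singleton_self _
  refine ⟨part1, fun h => ?_⟩
  rw [Ideal.Quotient.isDomain_iff_prime] at h ⊢
  rw [← part1]
  exact Ideal.comap_isPrime _ _

end Groth.Agent.S13151
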