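import Groth.Statements.S13603
import Mathlib.Tactic.Ring
import Mathlib.Algebra.BigOperators.Group.Finset.Piecewise
import Mathlib.Data.Set.Finite.Basic

set_option autoImplicit false
universe u v
open CAlg

namespace Groth.Agent.S13603

/-- Let a group G act on a commutative ring B by ring automorphisms so that every element of B has a
finite orbit, and let S ⊆ B be a multiplicative set of G-fixed elements (so each g ∈ G induces an
endomorphism of the localization S⁻¹B; the hypothesis that g maps S into S is implied by the
previous one and is only carried to name that endomorphism). Then an element of S⁻¹B is fixed by all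
of G if and only if it is a fraction b/s with b fixed by G and s ∈ S: the canonical map S⁻¹(B^G) →
(S⁻¹B)^G is onto. -/
theorem result {B : Type u} [CommRing B]
    {G : Type v} [Group G] [MulSemiringAction G B] (hfin : ∀ b : B, (MulAction.orbit G b).Finite)
    (S : Submonoid B) (hS : ∀ (g : G) (s : B), s ∈ S → g • s = s)
    (hS' : ∀ g : G, S ≤ S.comap (MulSemiringAction.toRingHom G B g)) (x : Localization S) :
    (∀ g : G, IsLocalization.map (Localization S) (MulSemiringAction.toRingHom G B g) (hS' g) x = x) ↔
      ∃ (b : B) (s : S), (∀ g : G, g • b = b) ∧ x = IsLocalization.mk' (Localization S) b s := by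
  have h2 : ∀ (g : G) (s : S), (⟨MulSemiringAction.toRingHom G B g s, hS' g s.2⟩ : S) = s :=
    fun g s => Subtype.ext (hS g s s.2)
  constructor
  · intro h
    obtain ⟨b, s, rfl⟩ := IsLocalization.exists_mk'_eq S x
    have hg : ∀ g : G, ∃ c : S, (c : B) * (s * (g • b)) = c * (s * b) := by
      intro g
      have := h g
      rw [IsLocalization.map_mk', h2, IsLocalization.eq] at this
      obtain ⟨c, hc⟩ := this
      exact ⟨c, hc⟩
    have hc : ∀ b' : B, ∃ c : S, b' ∈ MulAction.orbit G b → (c : B) * (s * b') = c * (s * b) := by
      intro b'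
      by_cases hb' : b' ∈ MulAction.orbit G b
      · obtain ⟨g, rfl⟩ := hb'
        obtain ⟨c, hc⟩ := hg g
        exact ⟨c, fun _ => hc⟩
      · exact ⟨1, fun h => absurd h hb'⟩
    choose c hc using hc
    let C : S := ∏ b' ∈ (hfin b).toFinset, c b'
    have hC : ∀ g : G, (C : B) * (s * (g • b)) = C * (s * b) := by
      intro g
      have hmem : g • b ∈ (hfin b).toFinset := by
        rw [Set.Finite.mem_toFinset]; exact ⟨g, rfl⟩
      obtain ⟨r, hr⟩ := Finset.dvd_prod_of_mem c hmem
      have hr' : (C : B) = c (g • b) * r := by
        have : C = c (g • b) * r := hr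
        rw [this]; rfl
      rw [hr']
      have := hc (g • b) ⟨g, rfl⟩
      calc (c (g • b) : B) * r * (s * (g • b)) = (r : B) * (c (g • b) * (s * (g • b))) := by ring
        _ = (r : B) * (c (g • b) * (s * b)) := by rw [this]
        _ = _ := by ring
    refine ⟨C * s * b, C * s * s, ?_, ?_⟩
    · intro g
      rw [smul_mul', smul_mul', hS g C C.2, hS g s s.2, mul_assoc, hC g, mul_assoc]
    · rw [IsLocalization.eq]
      refine ⟨1, ?_⟩
      simp only [Submonoid.coe_mul, Submonoid.coe_one]
      ring
  · rintro ⟨b, s, hb, rfl⟩ g
    have h1 : MulSemiringAction.toRingHom G B g b = b := hb g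
    rw [IsLocalization.map_mk', h1, h2]

end Groth.Agent.S13603
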