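import Groth.Statements.S13681
-- import your own Groth.Agent.* helpers here

set_option autoImplicit false
open BTGrp

namespace Groth.Agent.S13681

/-- Fix natural numbers r and M and consider the vectors d in N^r with every component less than M and
some component equal to zero. The map sending such a d to the vector with components (max_j d_j) -
d_i again has every component less than M and some component zero, and applying it twice gives back
d. -/
theorem result (r M : ℕ) (d : Fin r → ℕ)
    (hmin : ∃ i, d i = 0) (hmax : ∀ i, d i < M) :
    ((∃ i, Finset.univ.sup d - d i = 0) ∧ (∀ i, Finset.univ.sup d - d i < M)) ∧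
      (fun i => Finset.univ.sup (fun j => Finset.univ.sup d - d j) - (Finset.univ.sup d - d i)) = d := by
  obtain ⟨i0, hi0⟩ := hmin
  have hle : ∀ i, d i ≤ Finset.univ.sup d := fun i => Finset.le_sup (f := d) (Finset.mem_univ i)
  have hM : 0 < M := lt_of_le_of_lt (Nat.zero_le _) (hmax i0)
  have hsupM : Finset.univ.sup d < M := by
    rw [Finset.sup_lt_iff (by simpa using hM)]
    intro i _
    exact hmax i
  obtain ⟨i1, _, hi1⟩ := Finset.exists_mem_eq_sup (Finset.univ : Finset (Fin r)) ⟨i0, Finset.mem_univ i0⟩ d
  have hsup2 : Finset.univ.sup (fun j => Finset.univ.sup d - d j) = Finset.univ.sup d := by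
    apply le_antisymm
    · apply Finset.sup_le
      intro j _
      exact Nat.sub_le _ _
    · have := Finset.le_sup (f := fun j => Finset.univ.sup d - d j) (Finset.mem_univ i0)
      simpa [hi0] using this
  refine ⟨⟨⟨i1, ?_⟩, ?_⟩, ?_⟩
  · rw [hi1]; simp
  · intro i
    exact lt_of_le_of_lt (Nat.sub_le _ _) hsupM
  · funext i
    rw [hsup2]
    have := hle i
    omega

end Groth.Agent.S13681
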