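import Groth.Statements.S13772
import Mathlib
-- import your own Groth.Agent.* helpers here

set_option autoImplicit false
universe u v
open PLie

namespace Groth.Agent.S13772

/-- Let R be a commutative ring of prime characteristic p and L a Lie algebra over R with a p-mapping γ.
For a map g : L → L, there is a p-mapping γ' on L with γ' x = γ x + g x for every x if and only if g
is additive, g (c • x) = c ^ p • g x for all scalars c, and every value g x lies in the centre of L.
(Both parts of the published statement at once: the difference of two p-mappings is a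
Frobenius-semilinear map into the centre, and adding such a map to a p-mapping gives a p-mapping.) -/
theorem result (R : Type u) [CommRing R] (p : ℕ) [Fact p.Prime] [CharP R p]
    (L : Type v) [LieRing L] [LieAlgebra R L] (γ : PLie.PMap R p L) (g : L → L) :
    (∃ γ' : PLie.PMap R p L, ∀ x : L, γ' x = γ x + g x) ↔
      ((∀ x y : L, g (x + y) = g x + g y) ∧ (∀ (c : R) (x : L), g (c • x) = c ^ p • g x) ∧
        ∀ x : L, g x ∈ LieAlgebra.center R L) := by
  constructor
  · rintro ⟨γ', h⟩
    refine ⟨?_, ?_, ?_⟩
    · intro x y
      have h1 : γ' (x + y) = γ' x + γ' y - PLie.jacobson R p x y := γ'.map_add x y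
      have h2 : γ (x + y) = γ x + γ y - PLie.jacobson R p x y := γ.map_add x y
      have e1 := h (x + y)
      rw [h1, h2, h x, h y] at e1
      have : g (x + y) = (γ x + γ y - PLie.jacobson R p x y + g (x + y)) - (γ x + γ y - PLie.jacobson R p x y) := by abel
      rw [this, ← e1]; abel
    · intro c x
      have h1 : γ' (c • x) = c ^ p • γ' x := γ'.map_smul c x
      have h2 : γ (c • x) = c ^ p • γ x := γ.map_smul c x
      have e1 := h (c • x)
      rw [h1, h2, h x, smul_add] at e1
      exact (add_left_cancel e1).symm
    · intro x
      rw [LieModule.mem_maxTrivSubmodule]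
      intro y
      rw [← lie_skew, neg_eq_zero]
      have h1 : LieAlgebra.ad R L (γ' x) = LieAlgebra.ad R L x ^ p := γ'.ad_map x
      have h2 : LieAlgebra.ad R L (γ x) = LieAlgebra.ad R L x ^ p := γ.ad_map x
      have h3 : LieAlgebra.ad R L (γ' x) = LieAlgebra.ad R L (γ x) := h1.trans h2.symm
      rw [h x, map_add] at h3
      have h4 : LieAlgebra.ad R L (g x) = 0 := by simpa using h3
      have := LinearMap.congr_fun h4 y
      simpa using this
  · rintro ⟨hadd, hsmul, hcen⟩
    refine ⟨⟨fun x => γ x + g x, ?_, ?_, ?_⟩, fun x => rfl⟩
    · intro c x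
      show γ.toFun (c • x) + g (c • x) = c ^ p • (γ.toFun x + g x)
      rw [γ.map_smul, hsmul, smul_add]
    · intro x
      show LieAlgebra.ad R L (γ.toFun x + g x) = _
      rw [map_add, γ.ad_map]
      have : LieAlgebra.ad R L (g x) = 0 := by
        ext y
        have := (LieModule.mem_maxTrivSubmodule R L L (g x)).mp (hcen x) y
        rw [LieAlgebra.ad_apply, ← lie_skew, this, neg_zero]; rfl
      rw [this, add_zero]
    · intro x y
      show γ.toFun (x + y) + g (x + y) = γ.toFun x + g x + (γ.toFun y + g y) - _
      rw [γ.map_add, hadd]; abel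

end Groth.Agent.S13772
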