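import Groth.Statements.S13780
import Mathlib
-- import your own Groth.Agent.* helpers here

set_option autoImplicit false
universe u v w
open PLie

namespace Groth.Agent.S13780

/-- Let R be a commutative ring of prime characteristic p, L and L' Lie algebras over R with p-mappings
γ and γ', the centre of L' being zero, and φ : L ≃ L' an isomorphism of Lie algebras over R. Then φ
(γ x) = γ' (φ x) for every x: φ is an isomorphism of p-Lie algebras. (The published statement is the
case L' = L of a centreless restrictable Lie algebra over a field with its unique p-mapping and a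
Lie algebra automorphism; this row allows two algebras and any commutative base ring of
characteristic p.) -/
theorem result (R : Type u) [CommRing R] (p : ℕ) [Fact p.Prime] [CharP R p]
    (L : Type v) [LieRing L] [LieAlgebra R L] (L' : Type w) [LieRing L'] [LieAlgebra R L']
    (γ : PLie.PMap R p L) (γ' : PLie.PMap R p L') (hZ : LieAlgebra.center R L' = ⊥) (φ : L ≃ₗ⁅R⁆ L') :
    PLie.IsPHom γ γ' φ.toLieHom := by
  intro x
  have hpow : ∀ (n : ℕ) (y : L), φ ((LieAlgebra.ad R L x ^ n) y) = (LieAlgebra.ad R L' (φ x) ^ n) (φ y) := by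
    intro n
    induction n with
    | zero => intro y; simp
    | succ n ih =>
      intro y
      rw [pow_succ', pow_succ', Module.End.mul_apply, Module.End.mul_apply, LieAlgebra.ad_apply,
        LieAlgebra.ad_apply, LieEquiv.map_lie, ih]
  have hmem : φ (γ x) - γ' (φ x) ∈ LieAlgebra.center R L' := by
    rw [LieModule.mem_maxTrivSubmodule]
    intro y'
    obtain ⟨y, rfl⟩ := φ.surjective y'
    rw [← lie_skew, neg_eq_zero, sub_lie]
    have h1 : ⁅γ x, y⁆ = (LieAlgebra.ad R L x ^ p) y := by
      rw [← γ.ad_map x]; rfl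
    have h2 : ⁅γ' (φ x), φ y⁆ = (LieAlgebra.ad R L' (φ x) ^ p) (φ y) := by
      rw [← γ'.ad_map (φ x)]; rfl
    have h3 : ⁅φ (γ x), φ y⁆ = φ ⁅γ x, y⁆ := (LieEquiv.map_lie φ _ _).symm
    change ⁅φ (γ x), φ y⁆ - ⁅γ' (φ x), φ y⁆ = 0
    rw [h3, h1, h2, hpow, sub_self]
  rw [hZ] at hmem
  exact sub_eq_zero.mp ((LieSubmodule.mem_bot _).mp hmem)

end Groth.Agent.S13780
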