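import Groth.Statements.S13789
import Mathlib
-- import your own Groth.Agent.* helpers here

set_option autoImplicit false
universe u
open CAlg

namespace Groth.Agent.S13789

/-- Let A be a commutative ring with total ring of fractions Q and let B be a ring with A ⊆ B ⊆ Q. Then
the inclusion A ⊆ B carries nonzerodivisors of A to nonzerodivisors of B, and every nonzerodivisor
of B has the form r/u with r and u nonzerodivisors of A. -/
theorem result {A Q : Type u} [CommRing A] [CommRing Q] [Algebra A Q] [IsFractionRing A Q] (B : Subalgebra A Q) :
    (∀ a : A, a ∈ nonZeroDivisors A → algebraMap A B a ∈ nonZeroDivisors B) ∧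
    (∀ b : B, b ∈ nonZeroDivisors B → ∃ r u : A, r ∈ nonZeroDivisors A ∧ u ∈ nonZeroDivisors A ∧
      (b : Q) * algebraMap A Q u = algebraMap A Q r) := by
  have hinj : Function.Injective (algebraMap A Q) := IsFractionRing.injective A Q
  constructor
  · intro a ha
    rw [mem_nonZeroDivisors_iff_right]
    intro b hb
    have hu : IsUnit (algebraMap A Q a) := IsLocalization.map_units Q (⟨a, ha⟩ : nonZeroDivisors A)
    have h1 : (b : Q) * algebraMap A Q a = 0 := by
      have := congrArg (Subtype.val) hb
      simpa using this
    exact Subtype.ext (by simpa using (hu.mul_left_eq_zero).1 h1)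
  · intro b hb
    obtain ⟨⟨r, u⟩, hru⟩ := IsLocalization.surj (nonZeroDivisors A) (b : Q)
    refine ⟨r, u, ?_, u.2, hru⟩
    rw [mem_nonZeroDivisors_iff_right]
    intro c hc
    have hu : IsUnit (algebraMap A Q u) := IsLocalization.map_units Q u
    have h1 : algebraMap A Q c * (b : Q) * algebraMap A Q u = 0 := by
      rw [mul_assoc, hru, ← map_mul, hc, map_zero]
    have h2 : algebraMap A Q c * (b : Q) = 0 := (hu.mul_left_eq_zero).1 h1
    have h3 : algebraMap A B c * b = 0 := Subtype.ext (by simpa using h2)
    have h4 : algebraMap A B c = 0 := (mem_nonZeroDivisors_iff_right.1 hb) _ h3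
    have h5 : algebraMap A Q c = 0 := by
      have := congrArg Subtype.val h4
      simpa using this
    exact hinj (by rw [h5, map_zero])

end Groth.Agent.S13789
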