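import Groth.Statements.S13790
import Mathlib
import Groth.Agent.S13789
-- import your own Groth.Agent.* helpers here

set_option autoImplicit false
universe u
open CAlg

namespace Groth.Agent.S13790

/-- Let A be a commutative ring with total ring of fractions Q and let B be a ring with A ⊆ B ⊆ Q. Then
Q, with the inclusion B ⊆ Q, is the total ring of fractions of B. -/
theorem result {A Q : Type u} [CommRing A] [CommRing Q] [Algebra A Q] [IsFractionRing A Q] (B : Subalgebra A Q) :
    IsFractionRing B Q := by
  have hinj : Function.Injective (algebraMap A Q) := IsFractionRing.injective A Q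
  obtain ⟨hA, hB⟩ := Groth.Agent.S13789.result B
  refine (isLocalization_iff (nonZeroDivisors B) Q).2 ⟨?_, ?_, ?_⟩
  · rintro ⟨b, hb⟩
    obtain ⟨r, u, hr, hu, h⟩ := hB b hb
    have hru : IsUnit (algebraMap A Q r) := IsLocalization.map_units Q (⟨r, hr⟩ : nonZeroDivisors A)
    rw [← h] at hru
    exact isUnit_of_mul_isUnit_left hru
  · intro z
    obtain ⟨⟨r, u⟩, hru⟩ := IsLocalization.surj (nonZeroDivisors A) z
    exact ⟨(algebraMap A B r, ⟨algebraMap A B u, hA u u.2⟩), hru⟩
  · intro x y hxy
    exact ⟨1, by rw [Subtype.ext hxy]⟩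

end Groth.Agent.S13790
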