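import Groth.Statements.S14295
import Mathlib
-- import your own Groth.Agent.* helpers here

set_option autoImplicit false
universe u v
open PtDeg

namespace Groth.Agent.S14295

/-- Let A and G be abelian groups, written additively, and f : A → G a map which is pointed of degree 2,
that is f(x+y+z) + f(x) + f(y) + f(z) = f(x+y) + f(x+z) + f(y+z) for all x, y, z in A. Then for
every integer n and every x in A one has f(n·x) = (n(n+1)/2)·f(x) + (n(n−1)/2)·f(−x) (the two
coefficients are the integers n(n+1)/2 and n(n−1)/2). -/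
theorem result {A : Type u} {G : Type v} [AddCommGroup A] [AddCommGroup G]
    (f : A → G) (hf : ∀ x y z : A, f (x + y + z) + f x + f y + f z = f (x + y) + f (x + z) + f (y + z))
    (n : ℤ) (x : A) :
    f (n • x) = (n * (n + 1) / 2) • f x + (n * (n - 1) / 2) • f (-x) := by
  have h0 : f 0 = 0 := by
    have := hf 0 0 0
    simp only [add_zero] at this
    have h2 : f 0 + (f 0 + f 0 + f 0) = 0 + (f 0 + f 0 + f 0) := by
      rw [zero_add]
      calc f 0 + (f 0 + f 0 + f 0) = f 0 + f 0 + f 0 + f 0 := by abel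
        _ = _ := this
    exact add_right_cancel h2
  have hrec : ∀ (x : A) (m : ℤ), f ((m + 1 + 1) • x) = (2 : ℤ) • f ((m + 1) • x) + f x + f (-x) - f (m • x) := by
    intro x m
    have := hf ((m + 1) • x) x (-x)
    have e1 : (m + 1) • x + x + -x = (m + 1) • x := by abel
    have e2 : (m + 1) • x + x = (m + 1 + 1) • x := by rw [add_smul (m + 1) 1 x, one_smul]
    have e3 : (m + 1) • x + -x = m • x := by rw [add_smul, one_smul]; abel
    have e4 : x + -x = 0 := by abel
    rw [e1, e2, e3, e4, h0, add_zero] at this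
    rw [two_smul, eq_sub_iff_add_eq, ← this]
  have hT : ∀ m : ℤ, 2 * (m * (m + 1) / 2) = m * (m + 1) := by
    intro m
    exact Int.mul_ediv_cancel' (Int.even_mul_succ_self m).two_dvd
  have hT' : ∀ m : ℤ, 2 * (m * (m - 1) / 2) = m * (m - 1) := by
    intro m
    have := hT (m - 1)
    rw [sub_add_cancel, mul_comm (m - 1) m] at this
    exact this
  have fin : ∀ (T2 T1 T0 T2' T1' T0' : ℤ) (a b : G), T2 = 2 * T1 + 1 - T0 → T2' = 2 * T1' + 1 - T0' →
      (2 : ℤ) • (T1 • a + T1' • b) + a + b - (T0 • a + T0' • b) = T2 • a + T2' • b := by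
    intro T2 T1 T0 T2' T1' T0' a b h h'
    subst h h'
    module
  have key : ∀ (x : A) (m : ℕ), (f ((m : ℤ) • x) = ((m : ℤ) * ((m : ℤ) + 1) / 2) • f x + ((m : ℤ) * ((m : ℤ) - 1) / 2) • f (-x)) ∧
      (f (((m : ℤ) + 1) • x) = (((m : ℤ) + 1) * (((m : ℤ) + 1) + 1) / 2) • f x + (((m : ℤ) + 1) * (((m : ℤ) + 1) - 1) / 2) • f (-x)) := by
    intro x m
    induction m with
    | zero =>
      refine ⟨by simp [h0], by norm_num⟩
    | succ m ih =>
      obtain ⟨a1, a3⟩ := ih
      refine ⟨by push_cast; exact a3, ?_⟩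
      push_cast
      rw [hrec x (m : ℤ), a1, a3]
      apply fin
      · have t2 := hT ((m : ℤ) + 1 + 1)
        have t1 := hT ((m : ℤ) + 1)
        have t0 := hT (m : ℤ)
        linarith
      · have t2 := hT' ((m : ℤ) + 1 + 1)
        have t1 := hT' ((m : ℤ) + 1)
        have t0 := hT' (m : ℤ)
        linarith
  rcases Int.eq_nat_or_neg n with ⟨m, rfl | rfl⟩
  · exact (key x m).1
  · have := (key (-x) m).1
    rw [neg_neg, smul_neg, ← neg_smul] at this
    rw [this, add_comm]
    congr 2
    · congr 1; ring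
    · congr 1; ring

end Groth.Agent.S14295
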