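import Groth.Statements.S14294
import Mathlib
import Groth.Agent.S14295
-- import your own Groth.Agent.* helpers here

set_option autoImplicit false
universe u v
open PtDeg

namespace Groth.Agent.S14294

/-- Let A and G be abelian groups, written additively, and f : A → G a map which is pointed of degree 2,
that is f(x+y+z) + f(x) + f(y) + f(z) = f(x+y) + f(x+z) + f(y+z) for all x, y, z in A. If an integer
n satisfies n·x = 0 for every x in A, then 2n·f(x) = 0 for every x in A, and if moreover n is odd
then n·f(x) = 0 for every x in A. -/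
theorem result {A : Type u} {G : Type v} [AddCommGroup A] [AddCommGroup G]
    (f : A → G) (hf : ∀ x y z : A, f (x + y + z) + f x + f y + f z = f (x + y) + f (x + z) + f (y + z))
    (n : ℤ) (hn : ∀ x : A, n • x = 0) :
    (∀ x : A, (2 * n) • f x = 0) ∧ (Odd n → ∀ x : A, n • f x = 0) := by
  have hT : ∀ m : ℤ, 2 * (m * (m + 1) / 2) = m * (m + 1) := by
    intro m
    exact Int.mul_ediv_cancel' (Int.even_mul_succ_self m).two_dvd
  have hT' : ∀ m : ℤ, 2 * (m * (m - 1) / 2) = m * (m - 1) := by
    intro m
    have := hT (m - 1)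
    rw [sub_add_cancel, mul_comm (m - 1) m] at this
    exact this
  have F := Groth.Agent.S14295.result f hf
  have f0 : f 0 = 0 := by
    have := F 0 0
    simpa using this
  have fin : ∀ (T T' U U' n : ℤ) (a b : G), U = T + n + 1 → U' = T' + n → T = T' + n →
      T • a + T' • b = 0 → T • b + T' • a = 0 → U • a + U' • b = a →
      (2 * n) • a = 0 ∧ n • a + n • b = 0 := by
    intro T T' U U' n a b h1 h2 h3 e1 e2 e3
    subst h1 h2 h3
    constructor
    · have : (2 * n) • a = ((T' + n + n + 1) • a + (T' + n) • b) - a - ((T' + n) • b + T' • a) := by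
        module
      rw [this, e3, e2]; simp
    · have : n • a + n • b = ((T' + n + n + 1) • a + (T' + n) • b) - a - ((T' + n) • a + T' • b) := by
        module
      rw [this, e3, e1]; simp
  have main : ∀ x : A, (2 * n) • f x = 0 ∧ n • f x + n • f (-x) = 0 ∧
      (n * (n + 1) / 2) • f x + (n * (n - 1) / 2) • f (-x) = 0 := by
    intro x
    have E1 : (n * (n + 1) / 2) • f x + (n * (n - 1) / 2) • f (-x) = 0 := by
      rw [← F n x, hn x, f0]
    have E2 : (n * (n + 1) / 2) • f (-x) + (n * (n - 1) / 2) • f x = 0 := by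
      have := F n (-x)
      rw [neg_neg, hn (-x), f0] at this
      exact this.symm
    have E3 : ((n + 1) * (n + 1 + 1) / 2) • f x + ((n + 1) * (n + 1 - 1) / 2) • f (-x) = f x := by
      rw [← F (n + 1) x, add_smul, hn x, one_smul, zero_add]
    have t1 := hT n
    have t2 := hT' n
    have t3 := hT (n + 1)
    have t4 := hT' (n + 1)
    obtain ⟨r1, r2⟩ := fin _ _ _ _ n (f x) (f (-x)) (by linarith) (by linarith) (by linarith) E1 E2 E3
    exact ⟨r1, r2, E1⟩
  refine ⟨fun x => (main x).1, ?_⟩
  rintro ⟨j, hj⟩ x
  obtain ⟨_, r2, E1⟩ := main x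
  have t1 := hT n
  have t2 := hT' n
  have s1 : n * (n + 1) / 2 = n * (j + 1) := by
    have : n * (n + 1) = 2 * (n * (j + 1)) := by rw [hj]; ring
    linarith
  have s2 : n * (n - 1) / 2 = n * j := by
    have : n * (n - 1) = 2 * (n * j) := by rw [hj]; ring
    linarith
  rw [s1, s2] at E1
  have : n • f x = ((n * (j + 1)) • f x + (n * j) • f (-x)) - j • (n • f x + n • f (-x)) := by
    module
  rw [this, E1, r2]; simp

end Groth.Agent.S14294
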