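import Groth.Statements.S14296
import Mathlib
import Groth.Agent.S14295
-- import your own Groth.Agent.* helpers here

set_option autoImplicit false
universe u v
open PtDeg

namespace Groth.Agent.S14296

/-- Let G and H be abelian groups, written additively, n an integer such that 2n²·x = 0 for every x in
G, and d : G → H a quadratic map, meaning that d is pointed of degree 2 (d(x+y+z) + d(x) + d(y) +
d(z) = d(x+y) + d(x+z) + d(y+z) for all x, y, z) and even (d(−x) = d(x) for all x). Then d(2n·x) = 0
for every x in G. -/
theorem result {G : Type u} {H : Type v} [AddCommGroup G] [AddCommGroup H]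
    (n : ℤ) (hn : ∀ x : G, (2 * n ^ 2) • x = 0)
    (d : G → H) (hd : ∀ x y z : G, d (x + y + z) + d x + d y + d z = d (x + y) + d (x + z) + d (y + z))
    (heven : ∀ x : G, d (-x) = d x) (x : G) :
    d ((2 * n) • x) = 0 := by
  have hT : ∀ m : ℤ, 2 * (m * (m + 1) / 2) = m * (m + 1) := by
    intro m
    exact Int.mul_ediv_cancel' (Int.even_mul_succ_self m).two_dvd
  have hT' : ∀ m : ℤ, 2 * (m * (m - 1) / 2) = m * (m - 1) := by
    intro m
    have := hT (m - 1)
    rw [sub_add_cancel, mul_comm (m - 1) m] at this
    exact this
  have sq : ∀ (m : ℤ) (x : G), d (m • x) = (m * m) • d x := by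
    intro m x
    rw [Groth.Agent.S14295.result d hd m x, heven, ← add_smul]
    congr 1
    have t1 := hT m
    have t2 := hT' m
    linarith
  have d0 : d 0 = 0 := by
    have := sq 0 x
    simpa using this
  set k : ℤ := 2 * n ^ 2 with hk
  have E1 : (k * k) • d x = 0 := by rw [← sq, hn x, d0]
  have E2 : ((k + 1) * (k + 1)) • d x = d x := by
    rw [← sq, add_smul, hn x, one_smul, zero_add]
  rw [sq]
  have : ((2 * n) * (2 * n)) • d x = ((k + 1) * (k + 1)) • d x - (k * k) • d x - d x := by
    rw [hk]; module
  rw [this, E1, E2]; simp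

end Groth.Agent.S14296
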