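import Groth.Statements.S14349
import Mathlib
-- import your own Groth.Agent.* helpers here

set_option autoImplicit false
universe v u v' u'
open DeltaF

namespace Groth.Agent.S14349

open CategoryTheory CategoryTheory.Limits in
/-- In an abelian category with enough injectives, a cohomological delta-functor indexed by the natural
numbers is effaceable (every object admits a monomorphism killed by the functor in each positive
degree) if and only if each of its functors in positive degree sends every injective object to a
zero object. -/
theorem result {A : Type u} [Category.{v} A] [Abelian A]
    [EnoughInjectives A] {B : Type u'} [Category.{v'} B] [Abelian B]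
    (T : DeltaF.CohDeltaFunctor A B ℕ) :
    T.IsEffaceable ↔ ∀ (n : ℕ) (I : A), Injective I → IsZero ((T.F (n + 1)).obj I) := by
  constructor
  · intro h n I hI
    obtain ⟨Y, u, hu, h0⟩ := h n I
    rw [IsZero.iff_id_eq_zero, ← CategoryTheory.Functor.map_id, ← Injective.comp_factorThru (𝟙 I) u,
      CategoryTheory.Functor.map_comp, h0, zero_comp]
  · intro h n X
    exact ⟨Injective.under X, Injective.ι X, inferInstance, (h n _ inferInstance).eq_of_tgt _ _⟩

end Groth.Agent.S14349
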