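import Groth.Statements.S14442
import Mathlib
-- import your own Groth.Agent.* helpers here

set_option autoImplicit false
universe u
open GrNak

namespace Groth.Agent.S14442

/-- Let R be a commutative ℕ-graded ring with irrelevant ideal R_+ = ⊕_{i>0} R_i, M an ℕ-graded R-module
and N a graded submodule of M (closed under taking homogeneous components). If M = R_+ M + N then N
= M. (The published statement is for finitely generated ℤ-graded modules over a graded quotient of a
polynomial ring, whose degrees are then bounded below; stated here for non-negatively graded modules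
over any ℕ-graded commutative ring, where the same lowest-degree argument applies without finite
generation.) -/
theorem result {R : Type u} [CommRing R] {σ : Type u} [SetLike σ R] [AddSubmonoidClass σ R]
    (𝒜 : ℕ → σ) [GradedRing 𝒜]
    {M : Type u} [AddCommGroup M] [Module R M] {τ : Type u} [SetLike τ M] [AddSubmonoidClass τ M]
    (ℳ : ℕ → τ) [DirectSum.Decomposition ℳ] [SetLike.GradedSMul 𝒜 ℳ]
    (N : Submodule R M) (hN : ∀ x ∈ N, ∀ i : ℕ, (DirectSum.decompose ℳ x i : M) ∈ N)
    (h : (HomogeneousIdeal.irrelevant 𝒜).toIdeal • (⊤ : Submodule R M) ⊔ N = ⊤) :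
    N = ⊤ := by
  classical
  have hom : ∀ (n : ℕ) (x : M), x ∈ ℳ n → x ∈ N := by
    intro n
    induction n using Nat.strong_induction_on with
    | _ n ih =>
      intro x hx
      let P : M →+ M := (AddSubmonoidClass.subtype (ℳ n)).comp
        ((DFinsupp.evalAddMonoidHom n).comp (DirectSum.decomposeAddEquiv ℳ).toAddMonoidHom)
      have hP : ∀ y, P y = (DirectSum.decompose ℳ y n : M) := fun y => rfl
      have hy : ∀ y ∈ (HomogeneousIdeal.irrelevant 𝒜).toIdeal • (⊤ : Submodule R M), P y ∈ N := by
        intro y hy
        refine Submodule.smul_induction_on hy ?_ ?_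
        · intro a ha m _
          have ha0 : (DirectSum.decompose 𝒜 a 0 : R) = 0 := (HomogeneousIdeal.mem_irrelevant_iff 𝒜 a).1 ha
          have e : a • m = ∑ i ∈ (DirectSum.decompose 𝒜 a).support, ∑ j ∈ (DirectSum.decompose ℳ m).support,
              (DirectSum.decompose 𝒜 a i : R) • (DirectSum.decompose ℳ m j : M) := by
            conv_lhs => rw [← DirectSum.sum_support_decompose 𝒜 a, ← DirectSum.sum_support_decompose ℳ m]
            rw [Finset.sum_smul]
            simp only [Finset.smul_sum]
          rw [e, map_sum]
          refine Submodule.sum_mem _ fun i _ => ?_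
          rw [map_sum]
          refine Submodule.sum_mem _ fun j _ => ?_
          have hmem : (DirectSum.decompose 𝒜 a i : R) • (DirectSum.decompose ℳ m j : M) ∈ ℳ (i + j) :=
            SetLike.GradedSMul.smul_mem (A := 𝒜) (B := ℳ) (i := i) (j := j)
              (SetLike.coe_mem (DirectSum.decompose 𝒜 a i)) (SetLike.coe_mem (DirectSum.decompose ℳ m j))
          rw [hP]
          by_cases hij : i + j = n
          · rw [← hij, DirectSum.decompose_of_mem_same ℳ hmem]
            by_cases hi : i = 0
            · subst hi; rw [ha0, zero_smul]; exact N.zero_mem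
            · exact N.smul_mem _ (ih j (by omega) _ (SetLike.coe_mem _))
          · rw [DirectSum.decompose_of_mem_ne ℳ hmem hij]; exact N.zero_mem
        · intro y z hy hz; rw [map_add]; exact N.add_mem hy hz
      have hx' : x ∈ (HomogeneousIdeal.irrelevant 𝒜).toIdeal • (⊤ : Submodule R M) ⊔ N := by rw [h]; trivial
      obtain ⟨y, hy', z, hz, rfl⟩ := Submodule.mem_sup.1 hx'
      have e2 : y + z = P (y + z) := by rw [hP, DirectSum.decompose_of_mem_same ℳ hx]
      rw [e2, map_add]
      exact N.add_mem (hy y hy') (by rw [hP]; exact hN z hz n)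
  rw [eq_top_iff]
  intro x _
  rw [← DirectSum.sum_support_decompose ℳ x]
  exact Submodule.sum_mem _ fun i _ => hom i _ (SetLike.coe_mem _)

end Groth.Agent.S14442
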