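import Groth.Statements.S15495
import Mathlib
-- import your own Groth.Agent.* helpers here

set_option autoImplicit false
universe u
open CAlg

namespace Groth.Agent.S15495

/-- In an Artinian local ring R whose maximal ideal m contains the prime number p, the multiplicative
group 1 + m is annihilated under some power of p: there is n with (1 + x)^(p^n) = 1 for every x in
m. (The published text makes this assertion inside a proof, for Artinian local algebras over the
Witt ring of a perfect field of characteristic p; only p ∈ m and the nilpotence of m are used.) -/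
theorem result
    (R : Type u) [CommRing R] [IsLocalRing R] [IsArtinianRing R]
    (p : ℕ) (hp : p.Prime) (hpm : (p : R) ∈ IsLocalRing.maximalIdeal R) :
    ∃ n : ℕ, ∀ x ∈ IsLocalRing.maximalIdeal R, (1 + x) ^ (p ^ n) = 1 := by
  set m := IsLocalRing.maximalIdeal R with hm
  obtain ⟨N, hN⟩ : ∃ N : ℕ, m ^ N = ⊥ := by
    have := IsArtinianRing.isNilpotent_jacobson_bot (R := R)
    rw [IsLocalRing.jacobson_eq_maximalIdeal ⊥ bot_ne_top] at this
    exact this
  have key : ∀ k : ℕ, ∀ x ∈ m, (1 + x) ^ (p ^ k) - 1 ∈ m ^ (k + 1) := by
    intro k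
    induction k with
    | zero => intro x hx; simpa using hx
    | succ k ih =>
      intro x hx
      set y := (1 + x) ^ (p ^ k) - 1 with hy
      have hy' : y ∈ m ^ (k + 1) := ih x hx
      have h1 : (1 + x) ^ (p ^ (k + 1)) = (1 + y) ^ p := by
        rw [pow_succ, pow_mul, hy]; congr 1; ring
      rw [h1]
      obtain ⟨r, hr⟩ := exists_add_pow_prime_eq hp (1 : R) y
      rw [hr]
      have e1 : (1 : R) ^ p + y ^ p + (p : R) * 1 * y * r - 1 = y ^ p + ((p : R) * y) * r := by ring
      rw [e1]
      apply Ideal.add_mem
      · have h2 : y ^ p ∈ (m ^ (k + 1)) ^ p := Ideal.pow_mem_pow hy' p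
        rw [← pow_mul] at h2
        refine Ideal.pow_le_pow_right ?_ h2
        have := hp.two_le
        nlinarith
      · apply Ideal.mul_mem_right
        rw [pow_succ' m (k + 1)]
        exact Ideal.mul_mem_mul hpm hy'
  refine ⟨N, fun x hx => ?_⟩
  have := key N x hx
  rw [pow_succ, hN] at this
  simpa [sub_eq_zero] using this

end Groth.Agent.S15495
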