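import Groth.Statements.S15557
import Mathlib
-- import your own Groth.Agent.* helpers here

set_option autoImplicit false
universe v u
open CategoryTheory
open CohDer

namespace Groth.Agent.S15557

open CategoryTheory.Pretriangulated in
/-- Let T = (X, Y, Z) and T' = (X', Y', Z') be distinguished triangles in a pretriangulated category and
assume that every morphism X → Z' and every morphism X → Z'[-1] is zero. Then composing with the
first map X' → Y' of T' is a bijection Hom(X, X') → Hom(X, Y'), and composing with the second map Y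
→ Z of T is a bijection Hom(Z, Z') → Hom(Y, Z'). (The published lemma is for triangulated
categories; the octahedral axiom plays no role.) -/
theorem result {D : Type u} [Category.{v} D] [Preadditive D]
    [Limits.HasZeroObject D] [HasShift D ℤ] [∀ n : ℤ, (shiftFunctor D n).Additive] [Pretriangulated D]
    (T T' : Triangle D) (hT : T ∈ distinguishedTriangles) (hT' : T' ∈ distinguishedTriangles)
    (hXZ : ∀ u : T.obj₁ ⟶ T'.obj₃, u = 0)
    (hXZ' : ∀ u : T.obj₁ ⟶ (shiftFunctor D (-1 : ℤ)).obj T'.obj₃, u = 0) :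
    Function.Bijective (fun u : T.obj₁ ⟶ T'.obj₁ => u ≫ T'.mor₁) ∧
      Function.Bijective (fun w : T.obj₃ ⟶ T'.obj₃ => T.mor₂ ≫ w) := by
  refine ⟨⟨?_, ?_⟩, ⟨?_, ?_⟩⟩
  · intro u u' h
    have h0 : (u - u') ≫ T'.mor₁ = 0 := by
      rw [Preadditive.sub_comp]; exact sub_eq_zero.2 h
    obtain ⟨g, hg⟩ := Pretriangulated.Triangle.coyoneda_exact₂ T'.invRotate (Pretriangulated.inv_rot_of_distTriang _ hT') (u - u') h0
    have hg0 : g = 0 := hXZ' g
    subst hg0
    exact sub_eq_zero.1 (hg.trans Limits.zero_comp)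
  · intro v
    obtain ⟨g, hg⟩ := Pretriangulated.Triangle.coyoneda_exact₂ T' hT' v (hXZ _)
    exact ⟨g, hg.symm⟩
  · intro w w' h
    have h0 : T.mor₂ ≫ (w - w') = 0 := by
      rw [Preadditive.comp_sub]; exact sub_eq_zero.2 h
    obtain ⟨g, hg⟩ := Pretriangulated.Triangle.yoneda_exact₃ T hT (w - w') h0
    have hg0 : g = 0 := by
      have h1 : (shiftFunctorCompIsoId D (1 : ℤ) (-1) (by norm_num)).inv.app T.obj₁ ≫ (shiftFunctor D (-1 : ℤ)).map g = 0 := hXZ' _
      have h2 : (shiftFunctor D (-1 : ℤ)).map g = 0 := by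
        rw [← cancel_epi ((shiftFunctorCompIsoId D (1 : ℤ) (-1) (by norm_num)).inv.app T.obj₁), h1, Limits.comp_zero]
      exact (shiftFunctor D (-1 : ℤ)).map_injective (by rw [h2, Functor.map_zero])
    rw [hg0, Limits.comp_zero] at hg
    exact sub_eq_zero.1 hg
  · intro v
    obtain ⟨g, hg⟩ := Pretriangulated.Triangle.yoneda_exact₂ T hT v (hXZ _)
    exact ⟨g, hg.symm⟩

end Groth.Agent.S15557
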