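import Groth.Statements.S15771
import Mathlib
-- import your own Groth.Agent.* helpers here

set_option autoImplicit false
universe u
open TensorProduct
open CAlg

namespace Groth.Agent.S15771

/-- For a ring map B₀ → B with dense image into a topological ring B, a finitely generated B₀-module M₀
and any topological B-module structure on M = B ⊗_{B₀} M₀, the natural map M₀ → M has dense image. -/
theorem result (B₀ B : Type u) [CommRing B₀] [CommRing B] [Algebra B₀ B]
    [TopologicalSpace B] [IsTopologicalRing B] (hφ : DenseRange (algebraMap B₀ B))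
    (M₀ : Type u) [AddCommGroup M₀] [Module B₀ M₀] [Module.Finite B₀ M₀]
    [TopologicalSpace (B ⊗[B₀] M₀)] [IsTopologicalAddGroup (B ⊗[B₀] M₀)] [ContinuousSMul B (B ⊗[B₀] M₀)] :
    DenseRange (fun m : M₀ => (1 : B) ⊗ₜ[B₀] m) := by
  let S : AddSubgroup (B ⊗[B₀] M₀) :=
    (AddMonoidHom.range ((TensorProduct.mk B₀ B M₀ 1).toAddMonoidHom)).topologicalClosure
  have hcoe : (S : Set (B ⊗[B₀] M₀)) = closure (Set.range (fun m : M₀ => (1 : B) ⊗ₜ[B₀] m)) := rfl
  have hS : ∀ x, x ∈ S := by
    intro x
    induction x using TensorProduct.induction_on with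
    | zero => exact S.zero_mem
    | add x y hx hy => exact S.add_mem hx hy
    | tmul b m =>
      have hcont : Continuous (fun c : B => c • ((1 : B) ⊗ₜ[B₀] m)) := by fun_prop
      have hbm : b ⊗ₜ[B₀] m = b • ((1 : B) ⊗ₜ[B₀] m) := by simp [TensorProduct.smul_tmul']
      rw [hbm]
      have hb : b ∈ closure (Set.range (algebraMap B₀ B)) := hφ b
      have h1 := map_mem_closure (t := Set.range (fun m : M₀ => (1 : B) ⊗ₜ[B₀] m)) hcont hb (by
        rintro _ ⟨c, rfl⟩
        refine ⟨c • m, ?_⟩
        simp only [TensorProduct.smul_tmul', smul_eq_mul, mul_one]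
        rw [Algebra.algebraMap_eq_smul_one, TensorProduct.smul_tmul])
      exact h1
  intro x
  have := hS x
  exact this

end Groth.Agent.S15771
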