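import Groth.Statements.S15840
import Mathlib
-- import your own Groth.Agent.* helpers here

set_option autoImplicit false
universe u
open SprIso

namespace Groth.Agent.S15840

/-- For G = SL_n (n = r + 1) over a field of characteristic p > 0, write n = m p^e with m prime to p, so
that the identity component of the centre of G is μ_{p^e} embedded diagonally. The character of the
i-th exterior power of the standard representation takes the value C(n, i) α^i at a point α of
μ_{p^e}, and this is constant: for every commutative ring R of characteristic p and every α in R
with α^(p^e) = 1 one has C(n, i) α^i = C(n, i) in R, for all i. -/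
theorem result (p : ℕ) [Fact p.Prime] (R : Type u) [CommRing R]
    [CharP R p] (n : ℕ) (hn : 0 < n) (α : R) (hα : α ^ (p ^ padicValNat p n) = 1) (i : ℕ) :
    (n.choose i : R) * α ^ i = (n.choose i : R) := by
  by_cases hdiv : p ^ padicValNat p n ∣ i
  · obtain ⟨j, rfl⟩ := hdiv
    rw [pow_mul, hα, one_pow, mul_one]
  · have hp : p ∣ n.choose i := by
      by_contra hnd
      apply hdiv
      have hcop : Nat.Coprime (p ^ padicValNat p n) (n.choose i) :=
        Nat.Coprime.pow_left _ ((Nat.Prime.coprime_iff_not_dvd Fact.out).2 hnd)
      have h1 : p ^ padicValNat p n ∣ n := pow_padicValNat_dvd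
      have h2 : n ∣ n.choose i * i := by
        cases n with
        | zero => omega
        | succ m =>
          cases i with
          | zero => simp
          | succ k => exact ⟨m.choose k, (Nat.add_one_mul_choose_eq m k).symm⟩
      exact hcop.dvd_of_dvd_mul_left (h1.trans h2)
    have : (n.choose i : R) = 0 := (CharP.cast_eq_zero_iff R p _).2 hp
    rw [this, zero_mul]

end Groth.Agent.S15840
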