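import Groth.Statements.S15847
import Mathlib
-- import your own Groth.Agent.* helpers here

set_option autoImplicit false
open Surf

namespace Groth.Agent.S15847

/-- Let x, b, a_1, …, a_8 be integers with a_1^2 + ⋯ + a_8^2 = x + b^2 and -(a_1 + ⋯ + a_8) = x - 2 +
3b. If b = 1 or b = 2, then every a_i is 0 or -1, and the number of indices i with a_i = -1 is x +
b^2 (that is, x + 1 of them when b = 1 and x + 4 when b = 2; up to permutation these are all the
solutions). -/
theorem result (x b : ℤ) (a : Fin 8 → ℤ)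
    (h1 : ∑ i, a i ^ 2 = x + b ^ 2) (h2 : -(∑ i, a i) = x - 2 + 3 * b) (hb : b = 1 ∨ b = 2) :
    (∀ i, a i = 0 ∨ a i = -1) ∧ ((Finset.univ.filter (fun i => a i = -1)).card : ℤ) = x + b ^ 2 := by
  have hsum : ∑ i, (a i ^ 2 + a i) = 0 := by
    rw [Finset.sum_add_distrib, h1]
    rcases hb with rfl | rfl <;> linarith
  have hnn : ∀ i ∈ (Finset.univ : Finset (Fin 8)), 0 ≤ a i ^ 2 + a i := by
    intro i _
    rcases le_or_gt 0 (a i) with h | h
    · positivity
    · nlinarith
  have hz := (Finset.sum_eq_zero_iff_of_nonneg hnn).1 hsum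
  have hall : ∀ i, a i = 0 ∨ a i = -1 := by
    intro i
    have := hz i (Finset.mem_univ i)
    have h' : a i * (a i + 1) = 0 := by linarith [this, sq (a i)]
    rcases mul_eq_zero.1 h' with h | h
    · left; exact h
    · right; linarith
  refine ⟨hall, ?_⟩
  rw [← h1, Finset.card_filter]
  push_cast
  apply Finset.sum_congr rfl
  intro i _
  rcases hall i with h | h <;> simp [h]

end Groth.Agent.S15847
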