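import Groth.Statements.S16014
import Mathlib
-- import your own Groth.Agent.* helpers here

set_option autoImplicit false
universe u
open W4c3ghconstell

namespace Groth.Agent.S16014

/-- Let B = ⊕_{n ∈ ℤ} ⊕_τ B^n_τ be a bigraded finite-dimensional vector space, τ running over a finite
index set, with B^n = 0 for n < −N and for n > M (N, M integers); put d(n, τ) = dim B^n_τ. For
rational numbers φ_τ write φ(C) = Σ_τ φ_τ dim C_τ for a τ-graded piece C, and let B^{≥n} = ⊕_{m ≥ n}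
B^m, so that dim B^{≥n}_τ = Σ_{n ≤ m ≤ M} d(m, τ). Then Σ_{−N ≤ n ≤ M} n · φ(B^n) = Σ_{−N+1 ≤ n ≤ M}
φ(B^{≥n}) − N · φ(B). (Stated directly on the dimension function d.) -/
theorem result {τ : Type u} [Fintype τ] (d : ℤ → τ → ℕ) (φ : τ → ℚ) (N M : ℤ)
    (hN : ∀ n, n < -N → d n = 0) (hM : ∀ n, M < n → d n = 0) :
    ∑ n ∈ Finset.Icc (-N) M, (n : ℚ) * (∑ t, φ t * (d n t : ℚ)) =
      ∑ n ∈ Finset.Icc (-N + 1) M, (∑ t, φ t * (∑ m ∈ Finset.Icc n M, (d m t : ℚ))) -
        (N : ℚ) * (∑ t, φ t * (∑ m ∈ Finset.Icc (-N) M, (d m t : ℚ))) := by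
  obtain ⟨a, ha⟩ : ∃ a : ℤ → ℚ, ∀ n, a n = ∑ t, φ t * (d n t : ℚ) := ⟨_, fun _ => rfl⟩
  have hS : ∀ n : ℤ, (∑ t, φ t * (∑ m ∈ Finset.Icc n M, (d m t : ℚ))) = ∑ m ∈ Finset.Icc n M, a m := by
    intro n
    simp only [ha, Finset.mul_sum]
    exact Finset.sum_comm
  simp only [hS, ← ha]
  have hsplit : ∀ (g : ℤ → ℚ) (L : ℤ), L ≤ M → ∑ n ∈ Finset.Icc L M, g n = g L + ∑ n ∈ Finset.Icc (L + 1) M, g n := by
    intro g L hL
    have : Finset.Icc L M = insert L (Finset.Icc (L + 1) M) := by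
      ext x; simp only [Finset.mem_Icc, Finset.mem_insert]; omega
    rw [this, Finset.sum_insert (by simp)]
  have key : ∀ (k : ℕ) (L : ℤ), L + k = M + 1 →
      ∑ n ∈ Finset.Icc L M, (n : ℚ) * a n =
        ∑ n ∈ Finset.Icc (L + 1) M, (∑ m ∈ Finset.Icc n M, a m) + (L : ℚ) * ∑ m ∈ Finset.Icc L M, a m := by
    intro k
    induction k with
    | zero =>
      intro L hL
      have h1 : Finset.Icc L M = ∅ := Finset.Icc_eq_empty (by omega)
      have h2 : Finset.Icc (L + 1) M = ∅ := Finset.Icc_eq_empty (by omega)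
      simp [h1, h2]
    | succ k ih =>
      intro L hL
      have hLM : L ≤ M := by push_cast at hL; omega
      have ih' := ih (L + 1) (by push_cast at hL ⊢; omega)
      rw [hsplit _ L hLM, ih', hsplit a L hLM]
      rcases le_or_gt (L + 1) M with h | h
      · rw [hsplit (fun n => ∑ m ∈ Finset.Icc n M, a m) (L + 1) h]
        push_cast; ring
      · have h1 : Finset.Icc (L + 1) M = ∅ := Finset.Icc_eq_empty (by omega)
        have h2 : Finset.Icc (L + 1 + 1) M = ∅ := Finset.Icc_eq_empty (by omega)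
        simp [h1, h2]
  rcases le_or_gt (-N) (M + 1) with h | h
  · have := key (M + 1 - (-N)).toNat (-N) (by rw [Int.toNat_of_nonneg (by omega)]; ring)
    rw [this]; push_cast; ring
  · have h1 : Finset.Icc (-N) M = ∅ := Finset.Icc_eq_empty (by omega)
    have h2 : Finset.Icc (-N + 1) M = ∅ := Finset.Icc_eq_empty (by omega)
    simp [h1, h2]

end Groth.Agent.S16014
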