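import Groth.Statements.S16030
import Mathlib
-- import your own Groth.Agent.* helpers here

set_option autoImplicit false
universe u
open CAlg

namespace Groth.Agent.S16030

/-- For a finite set F of points of the spectrum of a commutative ring A and an open subset U containing
F, some basic open D(a) contains F and is contained in U. -/
theorem result
    (A : Type u) [CommRing A] (F : Set (PrimeSpectrum A)) (hF : F.Finite)
    (U : TopologicalSpace.Opens (PrimeSpectrum A)) (hFU : F ⊆ (U : Set (PrimeSpectrum A))) :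
    ∃ a : A, F ⊆ (PrimeSpectrum.basicOpen a : Set (PrimeSpectrum A)) ∧ PrimeSpectrum.basicOpen a ≤ U := by
  classical
  rcases F.eq_empty_or_nonempty with rfl | ⟨p0, hp0⟩
  · exact ⟨0, by simp, by simp⟩
  obtain ⟨I, hI⟩ : ∃ I : Ideal A, (U : Set (PrimeSpectrum A))ᶜ = PrimeSpectrum.zeroLocus (I : Set A) := by
    have hc : IsClosed (U : Set (PrimeSpectrum A))ᶜ := U.isOpen.isClosed_compl
    obtain ⟨I, hI⟩ := (PrimeSpectrum.isClosed_iff_zeroLocus_ideal _).1 hc
    exact ⟨I, hI⟩
  have hnot : ¬ ((I : Set A) ⊆ ⋃ p ∈ (↑hF.toFinset : Set (PrimeSpectrum A)), (p.asIdeal : Set A)) := by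
    intro h
    obtain ⟨p, hp, hle⟩ := (Ideal.subset_union_prime (s := hF.toFinset) (f := fun p : PrimeSpectrum A => p.asIdeal) (I := I)
      p0 p0 (fun p _ _ _ => p.isPrime)).1 h
    have hpF : p ∈ F := by simpa using hp
    have : p ∈ (U : Set (PrimeSpectrum A))ᶜ := by
      rw [hI]; exact hle
    exact this (hFU hpF)
  rw [Set.not_subset] at hnot
  obtain ⟨a, haI, ha⟩ := hnot
  refine ⟨a, ?_, ?_⟩
  · intro p hp
    simp only [Set.mem_iUnion, not_exists] at ha
    have := ha p (by simpa using hp)
    exact this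
  · intro p hp
    by_contra hpU
    have : p ∈ PrimeSpectrum.zeroLocus (I : Set A) := by rw [← hI]; exact hpU
    exact hp (this haI)

end Groth.Agent.S16030
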