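import Groth.Statements.S16371
import Mathlib
-- import your own Groth.Agent.* helpers here

set_option autoImplicit false
universe u v w
open FrobAlg

namespace Groth.Agent.S16371

/-- Let p be a prime, A a commutative ring and B, C commutative A-algebras with p² = 0 in B. If two
A-algebra maps g₁, g₂ : C → B agree modulo p, then they agree on every element of C which is
congruent modulo p to an element of the A-subalgebra generated by the p-th powers. (The source
states this for liftings over a flat ℤ/p²-thickening of two smooth schemes and the subsheaf of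
functions whose reduction lies in the image of the relative Frobenius; the smoothness and lifting
hypotheses are not needed for the identity.) -/
theorem result
    (p : ℕ) [Fact p.Prime] (A : Type u) [CommRing A] (B : Type v) [CommRing B] [Algebra A B]
    (C : Type w) [CommRing C] [Algebra A C] (hp : (p : B) ^ 2 = 0)
    (g₁ g₂ : C →ₐ[A] B) (hg : ∀ x : C, g₁ x - g₂ x ∈ Ideal.span ({(p : B)} : Set B))
    (x y : C) (hy : y ∈ Algebra.adjoin A (Set.range fun c : C => c ^ p))
    (hxy : x - y ∈ Ideal.span ({(p : C)} : Set C)) :
    g₁ x = g₂ x := by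
  have hpow : ∀ c : C, g₁ (c ^ p) = g₂ (c ^ p) := by
    intro c
    have h1 : (p : B) ∣ g₁ c - g₂ c := Ideal.mem_span_singleton.1 (hg c)
    have h2 := dvd_sub_pow_of_dvd_sub h1 1
    rw [pow_one, show 1 + 1 = 2 from rfl, hp, zero_dvd_iff, sub_eq_zero] at h2
    rw [map_pow, map_pow, h2]
  have hle : Algebra.adjoin A (Set.range fun c : C => c ^ p) ≤ AlgHom.equalizer g₁ g₂ := by
    apply Algebra.adjoin_le
    rintro _ ⟨c, rfl⟩
    exact hpow c
  have hy' : g₁ y = g₂ y := hle hy
  obtain ⟨c, hc⟩ := Ideal.mem_span_singleton.1 hxy
  obtain ⟨b, hb⟩ := Ideal.mem_span_singleton.1 (hg c)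
  have hx : x = y + (p : C) * c := by rw [← hc]; ring
  rw [hx, map_add, map_add, map_mul, map_mul, map_natCast, map_natCast, hy']
  congr 1
  rw [← sub_eq_zero, ← mul_sub, hb, ← mul_assoc, ← sq, hp, zero_mul]

end Groth.Agent.S16371
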