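import Groth.Statements.S16374
import Mathlib
-- import your own Groth.Agent.* helpers here

set_option autoImplicit false
universe u v w
open FrobAlg

namespace Groth.Agent.S16374

/-- Let p be a prime, A a commutative ring, B and C commutative A-algebras with p² = 0 in B, and g : C →
B an A-algebra map such that every g(c) is congruent modulo p to an element of the A-subalgebra of B
generated by the p-th powers (g lifts a relative Frobenius). Then d(g(x)) = 0 in the module of
Kähler differentials of B over A for every x ∈ C that is congruent modulo p to an element of the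
A-subalgebra of C generated by the p-th powers. (The source works with a lifting of the relative
Frobenius of a smooth scheme over a ℤ/p²-thickening and the subsheaf of functions whose reduction
comes from the Frobenius twist; smoothness is not needed for this vanishing.) -/
theorem result
    (p : ℕ) [Fact p.Prime] (A : Type u) [CommRing A] (B : Type v) [CommRing B] [Algebra A B]
    (C : Type w) [CommRing C] [Algebra A C] (hp : (p : B) ^ 2 = 0)
    (g : C →ₐ[A] B)
    (hg : ∀ c : C, ∃ u ∈ Algebra.adjoin A (Set.range fun b : B => b ^ p),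
      g c - u ∈ Ideal.span ({(p : B)} : Set B))
    (x y : C) (hy : y ∈ Algebra.adjoin A (Set.range fun c : C => c ^ p))
    (hxy : x - y ∈ Ideal.span ({(p : C)} : Set C)) :
    KaehlerDifferential.D A B (g x) = 0 := by
  have hp2 : ∀ ω : KaehlerDifferential A B, (p : B) • ((p : B) • ω) = 0 := by
    intro ω; rw [smul_smul, ← sq, hp, zero_smul]
  have h1 : ∀ u ∈ Algebra.adjoin A (Set.range fun b : B => b ^ p),
      ∃ ω, KaehlerDifferential.D A B u = (p : B) • ω := by
    intro u hu
    induction hu using Algebra.adjoin_induction with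
    | mem x hx =>
      obtain ⟨b, rfl⟩ := hx
      exact ⟨b ^ (p - 1) • KaehlerDifferential.D A B b, by
        simp only [Derivation.leibniz_pow]
        rw [← Nat.cast_smul_eq_nsmul B]⟩
    | algebraMap r => exact ⟨0, by simp⟩
    | add x y _ _ hx hy =>
      obtain ⟨a, ha⟩ := hx; obtain ⟨b, hb⟩ := hy
      exact ⟨a + b, by rw [map_add, ha, hb, smul_add]⟩
    | mul x y _ _ hx hy =>
      obtain ⟨a, ha⟩ := hx; obtain ⟨b, hb⟩ := hy
      exact ⟨x • b + y • a, by rw [Derivation.leibniz, ha, hb, smul_add, smul_comm x, smul_comm y]⟩
  have h2 : ∀ c : C, ∃ ω, KaehlerDifferential.D A B (g c) = (p : B) • ω := by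
    intro c
    obtain ⟨u, hu, hcu⟩ := hg c
    obtain ⟨b, hb⟩ := Ideal.mem_span_singleton.1 hcu
    obtain ⟨ω, hω⟩ := h1 u hu
    refine ⟨ω + KaehlerDifferential.D A B b, ?_⟩
    have : g c = u + (p : B) * b := by rw [← hb]; ring
    rw [this, map_add, hω, Derivation.leibniz, smul_add]
    simp
  have h3 : ∀ y ∈ Algebra.adjoin A (Set.range fun c : C => c ^ p),
      KaehlerDifferential.D A B (g y) = 0 := by
    intro y hy
    induction hy using Algebra.adjoin_induction with
    | mem x hx =>
      obtain ⟨c, rfl⟩ := hx
      obtain ⟨ω, hω⟩ := h2 c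
      rw [map_pow, Derivation.leibniz_pow, hω, ← Nat.cast_smul_eq_nsmul B, smul_comm _ (p : B) ω, hp2]
    | algebraMap r => simp
    | add x y _ _ hx hy => rw [map_add, map_add, hx, hy, add_zero]
    | mul x y _ _ hx hy => rw [map_mul, Derivation.leibniz, hx, hy]; simp
  obtain ⟨c, hc⟩ := Ideal.mem_span_singleton.1 hxy
  obtain ⟨ω, hω⟩ := h2 c
  have hx : x = y + (p : C) * c := by rw [← hc]; ring
  rw [hx, map_add, map_add, h3 y hy, map_mul, map_natCast, Derivation.leibniz, hω, hp2]
  simp

end Groth.Agent.S16374
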