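import Groth.Statements.S16413
import Mathlib
-- import your own Groth.Agent.* helpers here

set_option autoImplicit false
open Dieud

namespace Groth.Agent.S16413

/-- For integers i and j, the least value of max(−i−n, 0) + max(−j+n, 0) over the natural numbers n ≥ 0
is max(−i−j, −j, 0). (The displayed formula in the published statement writes the minimum over n >
0, while the function is defined on all natural numbers and the printed argument evaluates it at n =
j with j ≥ 0 allowed to vanish; over n > 0 the value would be 1 − j for i ≥ 0 ≥ j, so the minimum is
taken over n ≥ 0 here.) -/
theorem result (i j : ℤ) :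
    IsLeast (Set.range fun n : ℕ => max (-i - (n : ℤ)) 0 + max (-j + (n : ℤ)) 0)
      (max (max (-i - j) (-j)) 0) := by
  constructor
  · refine ⟨j.toNat, ?_⟩
    simp only
    rcases le_total 0 j with hj | hj
    · rw [Int.toNat_of_nonneg hj]; omega
    · rw [Int.toNat_of_nonpos hj]; push_cast; omega
  · rintro _ ⟨n, rfl⟩
    simp only
    omega

end Groth.Agent.S16413
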