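import Groth.Statements.S16414
import Mathlib
-- import your own Groth.Agent.* helpers here

set_option autoImplicit false
open Dieud

namespace Groth.Agent.S16414

/-- Let μ be a rational number with 0 < μ ≤ 1 and i an integer, and put f(i,j) = max(−i−j, −j, 0) for
integers j. Then min over all integers j of f(i,j) + jμ exists and equals max(−iμ, 0). -/
theorem result (μ : ℚ) (hμ0 : 0 < μ) (hμ1 : μ ≤ 1) (i : ℤ) :
    IsLeast (Set.range fun j : ℤ => ((max (max (-i - j) (-j)) 0 : ℤ) : ℚ) + (j : ℚ) * μ)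
      (max (-(i : ℚ) * μ) 0) := by
  rcases le_or_gt 0 i with hi | hi
  · have hiq : (0 : ℚ) ≤ i := by exact_mod_cast hi
    have hm : max (-(i : ℚ) * μ) 0 = 0 := max_eq_right (by nlinarith)
    rw [hm]
    constructor
    · refine ⟨0, ?_⟩
      have : max (max (-i - 0) (-0)) 0 = (0 : ℤ) := by omega
      simp only [this]; simp
    · rintro _ ⟨j, rfl⟩
      simp only
      have h1 : (0 : ℤ) ≤ max (max (-i - j) (-j)) 0 := by omega
      have h2 : -j ≤ max (max (-i - j) (-j)) 0 := by omega
      have h1q : (0 : ℚ) ≤ ((max (max (-i - j) (-j)) 0 : ℤ) : ℚ) := by exact_mod_cast h1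
      have h2q : -(j : ℚ) ≤ ((max (max (-i - j) (-j)) 0 : ℤ) : ℚ) := by exact_mod_cast h2
      rcases le_or_gt 0 (j : ℚ) with hj | hj
      · nlinarith
      · nlinarith
  · have hiq : (i : ℚ) < 0 := by exact_mod_cast hi
    have hm : max (-(i : ℚ) * μ) 0 = -(i : ℚ) * μ := max_eq_left (by nlinarith)
    rw [hm]
    constructor
    · refine ⟨-i, ?_⟩
      have : max (max (-i - -i) (- -i)) 0 = (0 : ℤ) := by omega
      simp only [this]; push_cast; ring
    · rintro _ ⟨j, rfl⟩
      simp only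
      have h1 : (0 : ℤ) ≤ max (max (-i - j) (-j)) 0 := by omega
      have h2 : -i - j ≤ max (max (-i - j) (-j)) 0 := by omega
      have h1q : (0 : ℚ) ≤ ((max (max (-i - j) (-j)) 0 : ℤ) : ℚ) := by exact_mod_cast h1
      have h2q : -(i : ℚ) - (j : ℚ) ≤ ((max (max (-i - j) (-j)) 0 : ℤ) : ℚ) := by exact_mod_cast h2
      rcases le_or_gt (-(i : ℚ)) (j : ℚ) with hj | hj
      · nlinarith
      · nlinarith

end Groth.Agent.S16414
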