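import Groth.Statements.S16415
import Mathlib
-- import your own Groth.Agent.* helpers here

set_option autoImplicit false
open Dieud

namespace Groth.Agent.S16415

/-- Let μ be a rational number with 0 < μ ≤ 1, N a natural number and i an integer. The minimum of m +
jμ over all pairs of integers (m, j) with m ≥ max(−i−j, −j, 0) and 2m + i + 2j ≥ N exists and equals
μ · max(⌈(N−i)/2⌉, −i, 0). (The published statement prints the value as max(⌈(N−i)/2⌉, −iμ, 0),
without the factor μ on the first term; the printed argument computes μ · max(⌈(N−i)/2⌉, −i, 0),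
attained at m = 0, and for N = 2, i = 0, μ = 1/2 the pair (m, j) = (0, 1) gives 1/2 < 1, so the
value with the factor μ is stated here.) -/
theorem result (μ : ℚ) (hμ0 : 0 < μ) (hμ1 : μ ≤ 1)
    (N : ℕ) (i : ℤ) :
    IsLeast {x : ℚ | ∃ m j : ℤ, max (max (-i - j) (-j)) 0 ≤ m ∧ (N : ℤ) ≤ 2 * m + i + 2 * j ∧
        x = (m : ℚ) + (j : ℚ) * μ}
      (((max (max ⌈((N : ℚ) - i) / 2⌉ (-i)) 0 : ℤ) : ℚ) * μ) := by
  obtain ⟨c, hc⟩ : ∃ c : ℤ, c = ⌈((N : ℚ) - i) / 2⌉ := ⟨_, rfl⟩
  rw [← hc]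
  have hc1 : ((N : ℚ) - i) / 2 ≤ c := by rw [hc]; exact Int.le_ceil _
  have hc1' : (N : ℤ) - i ≤ 2 * c := by
    have : ((N : ℚ) - i) ≤ 2 * c := by linarith
    exact_mod_cast this
  obtain ⟨K, hK⟩ : ∃ K : ℤ, K = max (max c (-i)) 0 := ⟨_, rfl⟩
  rw [← hK]
  constructor
  · refine ⟨0, K, by omega, by omega, by simp⟩
  · rintro _ ⟨m, j, h1, h2, rfl⟩
    have hs : c ≤ m + j := by
      rw [hc]
      apply Int.ceil_le.2
      have : ((N : ℤ) : ℚ) ≤ ((2 * m + i + 2 * j : ℤ) : ℚ) := by exact_mod_cast h2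
      push_cast at this ⊢
      linarith
    have hK' : K ≤ m + j := by omega
    have hm : 0 ≤ m := by omega
    have hKq : (K : ℚ) ≤ (m : ℚ) + j := by exact_mod_cast hK'
    have hmq : (0 : ℚ) ≤ m := by exact_mod_cast hm
    nlinarith [mul_nonneg hmq (sub_nonneg.2 hμ1), mul_le_mul_of_nonneg_right hKq hμ0.le]

end Groth.Agent.S16415
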