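import Groth.Statements.S17259
import Mathlib.Tactic
import Mathlib.RingTheory.Ideal.Maps

set_option autoImplicit false
open CAlg

namespace Groth.Agent.S17259

/-- Let A, B, C be rings, f : B → A and g : B → C ring homomorphisms, and φ : A → B a homomorphism of
additive groups such that the sequence A → B → C → 0 (maps φ, g) is exact and f ∘ φ is
multiplication by a central element a of A which is not a zero divisor. Then the projection p : A →
A/(a) composed with f factors through g as a ring homomorphism q : C → A/(a), the homomorphism (f,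
g) : B → A × C is injective, and its image is the fibre product of A and C over A/(a) along p and q;
thus (f, g) is a ring isomorphism from B onto that fibre product. (The two-sidedness of the ideal
generated by a, automatic for a central element, is carried as an instance hypothesis.) -/
theorem result {A B C : Type*} [Ring A] [Ring B] [Ring C]
    (f : B →+* A) (g : B →+* C) (φ : A →+ B) (a : A)
    (hc : ∀ x : A, Commute a x) (ha : a ∈ nonZeroDivisors A)
    (hex : Function.Exact φ g) (hg : Function.Surjective g)
    (hφ : ∀ x : A, f (φ x) = a * x)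
    [(Ideal.span ({a} : Set A)).IsTwoSided] :
    ∃ q : C →+* A ⧸ Ideal.span ({a} : Set A),
      q.comp g = (Ideal.Quotient.mk (Ideal.span ({a} : Set A))).comp f ∧
      Function.Injective (f.prod g) ∧
      (f.prod g).range = (Ideal.Quotient.mk (Ideal.span ({a} : Set A))).pullback q := by
  have hker : RingHom.ker g ≤ RingHom.ker ((Ideal.Quotient.mk (Ideal.span ({a} : Set A))).comp f) := by
    intro b hb
    rw [RingHom.mem_ker] at hb ⊢
    obtain ⟨x, rfl⟩ := (hex b).1 hb
    rw [RingHom.comp_apply, hφ, Ideal.Quotient.eq_zero_iff_mem, Ideal.mem_span_singleton']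
    exact ⟨x, (hc x).eq.symm⟩
  have hq : (g.liftOfRightInverse (Function.surjInv hg) (Function.rightInverse_surjInv hg) ⟨_, hker⟩).comp g = (Ideal.Quotient.mk (Ideal.span ({a} : Set A))).comp f :=
    g.liftOfRightInverse_comp _ (Function.rightInverse_surjInv hg) ⟨_, hker⟩
  refine ⟨g.liftOfRightInverse (Function.surjInv hg) (Function.rightInverse_surjInv hg) ⟨_, hker⟩, hq, ?_, ?_⟩
  · rw [injective_iff_map_eq_zero]
    intro b hb
    have h1 : f b = 0 := congrArg Prod.fst hb
    have h2 : g b = 0 := congrArg Prod.snd hb
    obtain ⟨x, rfl⟩ := (hex b).1 h2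
    rw [hφ] at h1
    have hx : x = 0 := (mem_nonZeroDivisors_iff.1 ha).1 x h1
    rw [hx, map_zero]
  · ext ⟨x, c⟩
    constructor
    · rintro ⟨b, hb⟩
      have h1 : f b = x := congrArg Prod.fst hb
      have h2 : g b = c := congrArg Prod.snd hb
      have h3 := RingHom.congr_fun hq b
      simp only [RingHom.comp_apply] at h3
      rw [h1, h2] at h3
      exact h3.symm
    · intro hxc
      have hxc' : Ideal.Quotient.mk (Ideal.span ({a} : Set A)) x = (g.liftOfRightInverse (Function.surjInv hg) (Function.rightInverse_surjInv hg) ⟨_, hker⟩) c := hxc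
      obtain ⟨b0, rfl⟩ := hg c
      have h3 := RingHom.congr_fun hq b0
      simp only [RingHom.comp_apply] at h3
      rw [h3, Ideal.Quotient.eq, Ideal.mem_span_singleton'] at hxc'
      obtain ⟨y, hy⟩ := hxc'
      refine ⟨b0 + φ y, ?_⟩
      apply Prod.ext
      · show f (b0 + φ y) = x
        rw [map_add, hφ, (hc y).eq, hy]; abel
      · show g (b0 + φ y) = g b0
        rw [map_add, hex.apply_apply_eq_zero, add_zero]

end Groth.Agent.S17259
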