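import Groth.Statements.S17260
import Mathlib.Tactic

set_option autoImplicit false
open CAlg

namespace Groth.Agent.S17260

/-- Let A₁ → A₁/I₁ → B ← A₂/I₂ ← A₂ be ring homomorphisms in which the outer maps are the quotient maps
by two-sided ideals I₁ and I₂. Then the product of the quotient maps carries the fibre product A₁
×_B A₂ (formed along the composite maps to B) onto the fibre product (A₁/I₁) ×_B (A₂/I₂), and an
element of A₁ ×_B A₂ is sent to zero exactly when its two components lie in I₁ and I₂ respectively;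
hence (A₁/I₁) ×_B (A₂/I₂) is identified with the quotient of A₁ ×_B A₂ by the ideal generated by I₁
and I₂. -/
theorem result {A₁ A₂ B : Type*} [Ring A₁] [Ring A₂] [Ring B]
    (I₁ : Ideal A₁) (I₂ : Ideal A₂) [I₁.IsTwoSided] [I₂.IsTwoSided]
    (u₁ : A₁ ⧸ I₁ →+* B) (u₂ : A₂ ⧸ I₂ →+* B) :
    Subring.map ((Ideal.Quotient.mk I₁).prodMap (Ideal.Quotient.mk I₂))
        ((u₁.comp (Ideal.Quotient.mk I₁)).pullback (u₂.comp (Ideal.Quotient.mk I₂))) = u₁.pullback u₂ ∧
      ∀ x ∈ (u₁.comp (Ideal.Quotient.mk I₁)).pullback (u₂.comp (Ideal.Quotient.mk I₂)),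
        ((Ideal.Quotient.mk I₁).prodMap (Ideal.Quotient.mk I₂)) x = 0 ↔ (x.1 ∈ I₁ ∧ x.2 ∈ I₂) := by
  constructor
  · ext ⟨y1, y2⟩
    constructor
    · rintro ⟨⟨x1, x2⟩, hx, hxy⟩
      have h1 : Ideal.Quotient.mk I₁ x1 = y1 := by simpa using congrArg Prod.fst hxy
      have h2 : Ideal.Quotient.mk I₂ x2 = y2 := by simpa using congrArg Prod.snd hxy
      have hx' : u₁ (Ideal.Quotient.mk I₁ x1) = u₂ (Ideal.Quotient.mk I₂ x2) := hx
      rw [h1, h2] at hx'
      exact hx'
    · intro hy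
      obtain ⟨x1, rfl⟩ := Ideal.Quotient.mk_surjective y1
      obtain ⟨x2, rfl⟩ := Ideal.Quotient.mk_surjective y2
      exact ⟨(x1, x2), hy, rfl⟩
  · rintro ⟨x1, x2⟩ _
    constructor
    · intro h
      have h1 : Ideal.Quotient.mk I₁ x1 = 0 := by simpa using congrArg Prod.fst h
      have h2 : Ideal.Quotient.mk I₂ x2 = 0 := by simpa using congrArg Prod.snd h
      exact ⟨Ideal.Quotient.eq_zero_iff_mem.1 h1, Ideal.Quotient.eq_zero_iff_mem.1 h2⟩
    · rintro ⟨h1, h2⟩
      have h1' : Ideal.Quotient.mk I₁ x1 = 0 := Ideal.Quotient.eq_zero_iff_mem.2 h1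
      have h2' : Ideal.Quotient.mk I₂ x2 = 0 := Ideal.Quotient.eq_zero_iff_mem.2 h2
      exact Prod.ext h1' h2'

end Groth.Agent.S17260
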