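import Groth.Statements.S17444
import Mathlib.Tactic
import Mathlib.Algebra.Ring.GeomSum
import Mathlib.Algebra.Polynomial.AlgebraMap
import Mathlib.Algebra.Polynomial.Roots
import Mathlib.Algebra.Module.LinearMap.End

set_option autoImplicit false
universe u v
open SSRed

namespace Groth.Agent.S17444

/-- Let K be a field of characteristic zero, V a K-vector space and g a K-linear endomorphism of V such
that g - 1 is nilpotent (a unipotent automorphism). Then for every integer n > 0 the endomorphisms
gⁿ - 1 and g - 1 have the same kernel: a vector fixed by gⁿ is fixed by g. (The published statement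
assumes V finite-dimensional; this row allows any V.) -/
theorem result (K : Type u) (V : Type v) [Field K] [CharZero K]
    [AddCommGroup V] [Module K V] (g : Module.End K V) (hg : IsNilpotent (g - 1)) (n : ℕ) (hn : 0 < n) :
    LinearMap.ker (g ^ n - 1) = LinearMap.ker (g - 1) := by
  classical
  have hgeom : (∑ i ∈ Finset.range n, g ^ i) * (g - 1) = g ^ n - 1 := geom_sum_mul g n
  have hc : (n:K) ≠ 0 := Nat.cast_ne_zero.2 hn.ne'
  have hroot : (∑ i ∈ Finset.range n, (Polynomial.X : Polynomial K) ^ i - Polynomial.C (n : K)).IsRoot 1 := by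
    simp [Polynomial.eval_finset_sum]
  obtain ⟨q, hq⟩ := Polynomial.dvd_iff_isRoot.2 hroot
  have h1 : Polynomial.aeval g (∑ i ∈ Finset.range n, (Polynomial.X : Polynomial K) ^ i - Polynomial.C (n : K)) = (∑ i ∈ Finset.range n, g ^ i) - (n : K) • (1 : Module.End K V) := by
    simp [Algebra.smul_def]
  have h2 : Polynomial.aeval g (∑ i ∈ Finset.range n, (Polynomial.X : Polynomial K) ^ i - Polynomial.C (n : K)) = (g - 1) * Polynomial.aeval g q := by
    rw [hq]; simp
  have h2' : Polynomial.aeval g (∑ i ∈ Finset.range n, (Polynomial.X : Polynomial K) ^ i - Polynomial.C (n : K)) = Polynomial.aeval g q * (g - 1) := by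
    rw [hq, mul_comm]; simp
  have hcomm : Commute (g - 1) (Polynomial.aeval g q) := by
    show (g - 1) * Polynomial.aeval g q = Polynomial.aeval g q * (g - 1)
    rw [← h2, h2']
  have hnil : IsNilpotent ((∑ i ∈ Finset.range n, g ^ i) - (n:K) • (1 : Module.End K V)) := by
    rw [← h1, h2]
    exact Commute.isNilpotent_mul_right hcomm hg
  have h3 : IsUnit ((n:K)⁻¹ • ((∑ i ∈ Finset.range n, g ^ i) - (n:K) • (1 : Module.End K V)) + 1) :=
    (hnil.smul _).isUnit_add_one
  have h4 : (n:K)⁻¹ • ((∑ i ∈ Finset.range n, g ^ i) - (n:K) • (1 : Module.End K V)) + 1 = (n:K)⁻¹ • (∑ i ∈ Finset.range n, g ^ i) := by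
    rw [smul_sub, smul_smul, inv_mul_cancel₀ hc, one_smul]; abel
  rw [h4] at h3
  have hinj := ((Module.End.isUnit_iff _).1 h3).1
  ext v
  simp only [LinearMap.mem_ker]
  rw [← hgeom]
  constructor
  · intro h
    apply hinj
    rw [map_zero, LinearMap.smul_apply]
    have h5 : (∑ i ∈ Finset.range n, g ^ i) ((g - 1) v) = 0 := h
    rw [h5, smul_zero]
  · intro h
    show (∑ i ∈ Finset.range n, g ^ i) ((g - 1) v) = 0
    rw [h, map_zero]

end Groth.Agent.S17444
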