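import Groth.Statements.S17463
import Mathlib.Tactic
import Groth.Agent.S17444

set_option autoImplicit false
universe u v w
open SSRed

namespace Groth.Agent.S17463

/-- Let K be a field of characteristic zero, V a K-vector space, G a group with a K-linear action ρ : G
→ GL(V) such that every ρ(g) is unipotent (ρ(g) - 1 is nilpotent), and H a subgroup of G of finite
index. Then the H-invariants equal the G-invariants: a vector fixed by every element of H is fixed
by every element of G. (In the source G and H are the absolute Galois groups of K and of a finite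
extension K', acting unipotently on the rational ℓ-adic Tate module of an abelian variety.) -/
theorem result (K : Type u) (V : Type v) (G : Type w) [Field K] [CharZero K]
    [AddCommGroup V] [Module K V] [Group G] (ρ : G →* (V ≃ₗ[K] V))
    (hunip : ∀ g : G, IsNilpotent (((ρ g : V ≃ₗ[K] V) : Module.End K V) - 1))
    (H : Subgroup G) [H.FiniteIndex] (v : V) (hv : ∀ h ∈ H, ρ h v = v) (g : G) :
    ρ g v = v := by
  obtain ⟨n, hn, _, hmem⟩ := Subgroup.exists_pow_mem_of_index_ne_zero (H := H) Subgroup.FiniteIndex.index_ne_zero g
  have h1 := hv _ hmem
  have h2 : v ∈ LinearMap.ker ((((ρ g : V ≃ₗ[K] V) : Module.End K V)) ^ n - 1) := by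
    rw [LinearMap.mem_ker, LinearMap.sub_apply, sub_eq_zero]
    have h3 : ∀ m : ℕ, ((((ρ g : V ≃ₗ[K] V) : Module.End K V)) ^ m) v = ρ (g ^ m) v := by
      intro m
      induction m with
      | zero => simp
      | succ m ih =>
        rw [pow_succ', pow_succ', map_mul, Module.End.mul_apply, ih]
        rfl
    rw [h3 n, h1]
    rfl
  rw [Groth.Agent.S17444.result K V _ (hunip g) n hn] at h2
  rw [LinearMap.mem_ker, LinearMap.sub_apply, sub_eq_zero] at h2
  exact h2

end Groth.Agent.S17463
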