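import Groth.Statements.S17715
import Mathlib.Tactic

set_option autoImplicit false
open MoretBailly

namespace Groth.Agent.S17715

/-- Write B(x) = x/(1 - e^(-x)) for the exponential generating series of the Bernoulli numbers (B'_1 =
1/2). For all natural numbers d and p the coefficient of x^3 in B(-dx)^(-1) B(-dpx) B(x)^4
e^((dp-d-3)x), i.e. the case n = 3, s = 1 of the Todd-class integrand, equals
-d(d+2)(p-1)(dp-d-2)/24 = -(d^3+2d^2) p^2/24 + (d^3+3d^2+2d) p/12 - (d^3+4d^2+4d)/24. (The published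
closed form has the same p^2 and p coefficients but constant term -(d^3+2d^2+2d)/24; direct
expansion gives the value stated here, which vanishes at p = 1.) -/
theorem result (d p : ℕ) :
    PowerSeries.coeff 3 ((PowerSeries.rescale (-(d : ℚ)) (bernoulli'PowerSeries ℚ))⁻¹ * PowerSeries.rescale (-((d : ℚ) * p)) (bernoulli'PowerSeries ℚ) * bernoulli'PowerSeries ℚ ^ (4) * PowerSeries.rescale ((d : ℚ) * p - d - 3) (PowerSeries.exp ℚ)) =
      -((d : ℚ) * (d + 2) * (p - 1) * (d * p - d - 2)) / 24 := by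
  have m0 : ∀ f g : PowerSeries ℚ, PowerSeries.coeff 0 (f * g) = PowerSeries.coeff 0 f * PowerSeries.coeff 0 g := by
    intro f g; simp [PowerSeries.coeff_mul]
  have m1 : ∀ f g : PowerSeries ℚ, PowerSeries.coeff 1 (f * g) = PowerSeries.coeff 0 f * PowerSeries.coeff 1 g + PowerSeries.coeff 1 f * PowerSeries.coeff 0 g := by
    intro f g
    rw [PowerSeries.coeff_mul, Finset.Nat.sum_antidiagonal_eq_sum_range_succ_mk]
    simp [Finset.sum_range_succ]
  have m2 : ∀ f g : PowerSeries ℚ, PowerSeries.coeff 2 (f * g) = PowerSeries.coeff 0 f * PowerSeries.coeff 2 g + PowerSeries.coeff 1 f * PowerSeries.coeff 1 g + PowerSeries.coeff 2 f * PowerSeries.coeff 0 g := by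
    intro f g
    rw [PowerSeries.coeff_mul, Finset.Nat.sum_antidiagonal_eq_sum_range_succ_mk]
    simp [Finset.sum_range_succ]
  have m3 : ∀ f g : PowerSeries ℚ, PowerSeries.coeff 3 (f * g) = PowerSeries.coeff 0 f * PowerSeries.coeff 3 g + PowerSeries.coeff 1 f * PowerSeries.coeff 2 g + PowerSeries.coeff 2 f * PowerSeries.coeff 1 g + PowerSeries.coeff 3 f * PowerSeries.coeff 0 g := by
    intro f g
    rw [PowerSeries.coeff_mul, Finset.Nat.sum_antidiagonal_eq_sum_range_succ_mk]
    simp [Finset.sum_range_succ]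
  have b0 : PowerSeries.coeff 0 (bernoulli'PowerSeries ℚ) = 1 := by
    rw [bernoulli'PowerSeries, PowerSeries.coeff_mk]; simp
  have b1 : PowerSeries.coeff 1 (bernoulli'PowerSeries ℚ) = 1 / 2 := by
    rw [bernoulli'PowerSeries, PowerSeries.coeff_mk]; simp
  have b2 : PowerSeries.coeff 2 (bernoulli'PowerSeries ℚ) = 1 / 12 := by
    rw [bernoulli'PowerSeries, PowerSeries.coeff_mk]; simp [Nat.factorial]; norm_num
  have b3 : PowerSeries.coeff 3 (bernoulli'PowerSeries ℚ) = 0 := by
    rw [bernoulli'PowerSeries, PowerSeries.coeff_mk]; simp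
  have r0 : ∀ c : ℚ, PowerSeries.coeff 0 (PowerSeries.rescale c (bernoulli'PowerSeries ℚ)) = 1 := by
    intro c; rw [PowerSeries.coeff_rescale, b0]; ring
  have r1 : ∀ c : ℚ, PowerSeries.coeff 1 (PowerSeries.rescale c (bernoulli'PowerSeries ℚ)) = c / 2 := by
    intro c; rw [PowerSeries.coeff_rescale, b1]; ring
  have r2 : ∀ c : ℚ, PowerSeries.coeff 2 (PowerSeries.rescale c (bernoulli'PowerSeries ℚ)) = c ^ 2 / 12 := by
    intro c; rw [PowerSeries.coeff_rescale, b2]; ring
  have r3 : ∀ c : ℚ, PowerSeries.coeff 3 (PowerSeries.rescale c (bernoulli'PowerSeries ℚ)) = 0 := by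
    intro c; rw [PowerSeries.coeff_rescale, b3]; ring
  have e0 : ∀ c : ℚ, PowerSeries.coeff 0 (PowerSeries.rescale c (PowerSeries.exp ℚ)) = 1 := by
    intro c; rw [PowerSeries.coeff_rescale, PowerSeries.coeff_exp]; simp
  have e1 : ∀ c : ℚ, PowerSeries.coeff 1 (PowerSeries.rescale c (PowerSeries.exp ℚ)) = c := by
    intro c; rw [PowerSeries.coeff_rescale, PowerSeries.coeff_exp]; simp
  have e2 : ∀ c : ℚ, PowerSeries.coeff 2 (PowerSeries.rescale c (PowerSeries.exp ℚ)) = c ^ 2 / 2 := by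
    intro c; rw [PowerSeries.coeff_rescale, PowerSeries.coeff_exp]; simp [Nat.factorial]; ring
  have e3 : ∀ c : ℚ, PowerSeries.coeff 3 (PowerSeries.rescale c (PowerSeries.exp ℚ)) = c ^ 3 / 6 := by
    intro c; rw [PowerSeries.coeff_rescale, PowerSeries.coeff_exp]; simp [Nat.factorial]; ring
  have hinv : ∀ c : ℚ, (PowerSeries.rescale c (bernoulli'PowerSeries ℚ)) * (PowerSeries.rescale c (bernoulli'PowerSeries ℚ))⁻¹ = 1 := by
    intro c
    apply PowerSeries.mul_inv_cancel
    rw [← PowerSeries.coeff_zero_eq_constantCoeff_apply, r0]; exact one_ne_zero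
  have i0 : ∀ c : ℚ, PowerSeries.coeff 0 ((PowerSeries.rescale c (bernoulli'PowerSeries ℚ))⁻¹) = 1 := by
    intro c
    have h2 := congrArg (PowerSeries.coeff 0) (hinv c)
    rw [m0, r0, PowerSeries.coeff_one] at h2
    simpa using h2
  have i1 : ∀ c : ℚ, PowerSeries.coeff 1 ((PowerSeries.rescale c (bernoulli'PowerSeries ℚ))⁻¹) = - c / 2 := by
    intro c
    have h2 := congrArg (PowerSeries.coeff 1) (hinv c)
    rw [m1, r0, r1, i0, PowerSeries.coeff_one] at h2
    norm_num at h2
    linarith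
  have i2 : ∀ c : ℚ, PowerSeries.coeff 2 ((PowerSeries.rescale c (bernoulli'PowerSeries ℚ))⁻¹) = c ^ 2 / 6 := by
    intro c
    have h2 := congrArg (PowerSeries.coeff 2) (hinv c)
    rw [m2, r0, r1, r2, i0, i1, PowerSeries.coeff_one] at h2
    norm_num at h2
    linarith
  have i3 : ∀ c : ℚ, PowerSeries.coeff 3 ((PowerSeries.rescale c (bernoulli'PowerSeries ℚ))⁻¹) = - c ^ 3 / 24 := by
    intro c
    have h2 := congrArg (PowerSeries.coeff 3) (hinv c)
    rw [m3, r0, r1, r2, r3, i0, i1, i2, PowerSeries.coeff_one] at h2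
    norm_num at h2
    linarith
  have h4 : bernoulli'PowerSeries ℚ ^ 4 = (bernoulli'PowerSeries ℚ * bernoulli'PowerSeries ℚ) * (bernoulli'PowerSeries ℚ * bernoulli'PowerSeries ℚ) := by ring
  rw [h4]
  simp only [m0, m1, m2, m3, b0, b1, b2, b3, r0, r1, r2, r3, e0, e1, e2, e3, i0, i1, i2, i3]
  ring

end Groth.Agent.S17715
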