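import Groth.Statements.S17717
import Mathlib.Tactic

set_option autoImplicit false
open MoretBailly

namespace Groth.Agent.S17717

/-- Write B(x) = x/(1 - e^(-x)) for the exponential generating series of the Bernoulli numbers (B'_1 =
1/2). For all natural numbers d, p and every integer s the coefficient of x in B(-dx)^(-1) B(-dpx)
B(x)^2 e^((dp-d-2+s)x), i.e. the case n = 1 of the Todd-class integrand, equals d(p-1)/2 + s - 1. -/
theorem result (d p : ℕ) (s : ℤ) :
    PowerSeries.coeff 1 ((PowerSeries.rescale (-(d : ℚ)) (bernoulli'PowerSeries ℚ))⁻¹ * PowerSeries.rescale (-((d : ℚ) * p)) (bernoulli'PowerSeries ℚ) * bernoulli'PowerSeries ℚ ^ (2) * PowerSeries.rescale ((d : ℚ) * p - d - 2 + s) (PowerSeries.exp ℚ)) =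
      (d : ℚ) * (p - 1) / 2 + s - 1 := by
  have hB0 : PowerSeries.constantCoeff (bernoulli'PowerSeries ℚ) = 1 := by
    rw [← PowerSeries.coeff_zero_eq_constantCoeff_apply]
    simp [bernoulli'PowerSeries]
  have hB1 : PowerSeries.coeff 1 (bernoulli'PowerSeries ℚ) = 1 / 2 := by
    simp [bernoulli'PowerSeries]
  have hr0 : ∀ c : ℚ, PowerSeries.constantCoeff (PowerSeries.rescale c (bernoulli'PowerSeries ℚ)) = 1 := by
    intro c
    rw [← PowerSeries.coeff_zero_eq_constantCoeff_apply, PowerSeries.coeff_rescale]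
    simp [hB0]
  have hr1 : ∀ c : ℚ, PowerSeries.coeff 1 (PowerSeries.rescale c (bernoulli'PowerSeries ℚ)) = c / 2 := by
    intro c
    rw [PowerSeries.coeff_rescale, hB1]; ring
  have he0 : ∀ c : ℚ, PowerSeries.constantCoeff (PowerSeries.rescale c (PowerSeries.exp ℚ)) = 1 := by
    intro c
    rw [← PowerSeries.coeff_zero_eq_constantCoeff_apply, PowerSeries.coeff_rescale]
    simp
  have he1 : ∀ c : ℚ, PowerSeries.coeff 1 (PowerSeries.rescale c (PowerSeries.exp ℚ)) = c := by
    intro c
    rw [PowerSeries.coeff_rescale]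
    simp [PowerSeries.coeff_exp]
  have hi0 : ∀ c : ℚ, PowerSeries.constantCoeff ((PowerSeries.rescale c (bernoulli'PowerSeries ℚ))⁻¹) = 1 := by
    intro c
    rw [PowerSeries.constantCoeff_inv, hr0]; simp
  have hi1 : ∀ c : ℚ, PowerSeries.coeff 1 ((PowerSeries.rescale c (bernoulli'PowerSeries ℚ))⁻¹) = - c / 2 := by
    intro c
    have h1 : (PowerSeries.rescale c (bernoulli'PowerSeries ℚ)) * (PowerSeries.rescale c (bernoulli'PowerSeries ℚ))⁻¹ = 1 :=
      PowerSeries.mul_inv_cancel _ (by rw [hr0]; exact one_ne_zero)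
    have h2 := congrArg (PowerSeries.coeff 1) h1
    rw [PowerSeries.coeff_one_mul, hr0, hi0, hr1] at h2
    simp at h2
    linarith
  rw [PowerSeries.coeff_one_mul, PowerSeries.coeff_one_mul, PowerSeries.coeff_one_mul, pow_two, PowerSeries.coeff_one_mul]
  simp only [map_mul, hB0, hB1, hr0, hr1, he0, he1, hi0, hi1]
  ring

end Groth.Agent.S17717
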