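import Groth.Statements.S17872
import Mathlib.Tactic
import Mathlib.LinearAlgebra.Dual.Lemmas
import Mathlib.Algebra.Polynomial.Roots

set_option autoImplicit false
universe u v
open GRRSing

namespace Groth.Agent.S17872

/-- Let H be a vector space over a field K and let b_0, …, b_l be elements of H. If the sum of the t ^ i
• b_i vanishes for infinitely many scalars t of K, then all the b_i are zero. -/
theorem result {K : Type u} {H : Type v} [Field K] [AddCommGroup H] [Module K H]
    (l : ℕ) (b : Fin (l + 1) → H)
    (h : Set.Infinite {t : K | ∑ i : Fin (l + 1), t ^ (i : ℕ) • b i = 0}) :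
    b = 0 := by
  funext i
  rw [Pi.zero_apply, ← Module.forall_dual_apply_eq_zero_iff K]
  intro φ
  let p : Polynomial K := ∑ i : Fin (l+1), Polynomial.C (φ (b i)) * Polynomial.X ^ (i:ℕ)
  have hp : p = 0 := by
    apply Polynomial.eq_zero_of_infinite_isRoot
    apply h.mono
    intro t ht
    simp only [Set.mem_setOf_eq] at ht ⊢
    have h1 := congrArg φ ht
    simp only [map_sum, map_smul, map_zero, smul_eq_mul] at h1
    simp only [Polynomial.IsRoot.def, p, Polynomial.eval_finset_sum, Polynomial.eval_mul, Polynomial.eval_C, Polynomial.eval_pow, Polynomial.eval_X]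
    rw [← h1]; apply Finset.sum_congr rfl; intros; ring
  have h2 := congrArg (fun q => Polynomial.coeff q (i:ℕ)) hp
  simp only [p, Polynomial.finset_sum_coeff, Polynomial.coeff_C_mul, Polynomial.coeff_X_pow, Polynomial.coeff_zero] at h2
  simpa [Fin.val_inj, Finset.sum_ite_eq] using h2

end Groth.Agent.S17872
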