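import Groth.Statements.S18049
import Mathlib.Tactic

set_option autoImplicit false
open STCI

namespace Groth.Agent.S18049

/-- For natural numbers 0 < k < N such that k does not divide N, ⌊N/k⌋ ≤ (N - k)/gcd(k, N); stated here
in the equivalent cleared form ⌊N/k⌋ · gcd(k, N) ≤ N - k. -/
theorem result (k N : ℕ) (hk : 0 < k) (hkN : k < N) (hndvd : ¬ k ∣ N) :
    N / k * Nat.gcd k N ≤ N - k := by
  set g := Nat.gcd k N with hg
  have hgk : g ∣ k := Nat.gcd_dvd_left k N
  have hgN : g ∣ N := Nat.gcd_dvd_right k N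
  have hgpos : 0 < g := Nat.gcd_pos_of_pos_left N hk
  have hdm := Nat.div_add_mod N k
  have hr : 0 < N % k := Nat.pos_of_ne_zero (fun h => hndvd (Nat.dvd_of_mod_eq_zero h))
  have hgr : g ∣ N % k := (Nat.dvd_mod_iff hgk).2 hgN
  have hgr' : g ≤ N % k := Nat.le_of_dvd hr hgr
  have hq : 1 ≤ N / k := Nat.div_pos (Nat.le_of_lt hkN) hk
  obtain ⟨a, ha⟩ := hgk
  have ha2 : 2 ≤ a := by
    rcases a with _ | _ | a
    · simp at ha; omega
    · exfalso; apply hndvd; rw [ha]; simpa using hgN
    · omega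
  have h2 : 2 * g ≤ k := by rw [ha]; nlinarith
  generalize N / k = q at *
  generalize N % k = r at *
  have h3 : q * g + k ≤ N := by
    nlinarith
  omega

end Groth.Agent.S18049
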