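import Groth.Statements.S18431
import Mathlib.Tactic

set_option autoImplicit false
universe u
open SpinCurv

namespace Groth.Agent.S18431

/-- Let R be a Noetherian local ring in which the natural number r is invertible and let ξ, ζ ∈ R
satisfy ξ^r = 1 and ζ^r = 1. Then either ξ = ζ, or ξ - ζ is a unit of R. (Consequently an element of
R annihilated by ξ - ζ is zero unless ξ = ζ. In the published setting R is moreover complete; the
step does not use completeness.) -/
theorem result (R : Type u) [CommRing R] [IsNoetherianRing R] [IsLocalRing R]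
    (r : ℕ) (hr : IsUnit (r : R)) (ξ ζ : R) (hξ : ξ ^ r = 1) (hζ : ζ ^ r = 1) :
    ξ = ζ ∨ IsUnit (ξ - ζ) := by
  by_cases h : IsUnit (ξ - ζ)
  · exact Or.inr h
  left
  have hgeom := Commute.geom_sum₂_mul (Commute.all ξ ζ) r
  rw [hξ, hζ, sub_self] at hgeom
  have hm : ξ - ζ ∈ IsLocalRing.maximalIdeal R := by
    rwa [IsLocalRing.mem_maximalIdeal, mem_nonunits_iff]
  have hsum : IsUnit (∑ i ∈ Finset.range r, ξ ^ i * ζ ^ (r - 1 - i)) := by
    rw [← isUnit_map_iff (IsLocalRing.residue R)]
    have hres : IsLocalRing.residue R ξ = IsLocalRing.residue R ζ := by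
      rw [← sub_eq_zero, ← map_sub, IsLocalRing.residue_eq_zero_iff]; exact hm
    simp only [map_sum, map_mul, map_pow, hres]
    have h1 : ∀ i ∈ Finset.range r, IsLocalRing.residue R ζ ^ i * IsLocalRing.residue R ζ ^ (r - 1 - i) = IsLocalRing.residue R ζ ^ (r-1) := by
      intro i hi
      rw [← pow_add]; congr 1; have := Finset.mem_range.1 hi; omega
    rw [Finset.sum_congr rfl h1]
    simp only [Finset.sum_const, Finset.card_range, nsmul_eq_mul]
    have hr0 : r ≠ 0 := by rintro rfl; simp at hr
    have hz : IsUnit ζ := IsUnit.of_pow_eq_one hζ hr0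
    have h2 := ((hr.map (IsLocalRing.residue R)).mul ((hz.map (IsLocalRing.residue R)).pow (r-1)))
    simpa using h2
  have h3 := (hsum.mul_right_eq_zero).1 hgeom
  exact sub_eq_zero.1 h3

end Groth.Agent.S18431
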