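import Groth.Statements.S18948
import Mathlib.Tactic.Group
import Mathlib.GroupTheory.GroupAction.ConjAct
import Mathlib.GroupTheory.Subgroup.Center

set_option autoImplicit false
universe u v
open CExt

namespace Groth.Agent.S18948

/-- Let f : E → G be a surjective homomorphism of groups whose kernel is central in E, and let x ∈ E.
Then f maps the conjugacy class of x bijectively onto the conjugacy class of f(x) if and only if
every element of G commuting with f(x) is the image of some element of E commuting with x. (In the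
source E → G is the central extension, with kernel the roots of unity, attached to a Brauer class of
the classifying stack of a finite tame étale group scheme, and a conjugacy class of E mapping
bijectively onto a given class of G is a marking; the equivalence is stated here for an arbitrary
central extension of abstract groups.) -/
theorem result {E : Type u} {G : Type v} [Group E] [Group G]
    (f : E →* G) (hf : Function.Surjective f) (hker : f.ker ≤ Subgroup.center E) (x : E) :
    Set.BijOn f (MulAction.orbit (ConjAct E) x) (MulAction.orbit (ConjAct G) (f x)) ↔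
      ∀ g : G, g * f x = f x * g → ∃ e : E, f e = g ∧ e * x = x * e := by
  have horbE : ∀ y : E, y ∈ MulAction.orbit (ConjAct E) x ↔ ∃ a : E, a * x * a⁻¹ = y := by
    intro y
    rw [MulAction.mem_orbit_iff]
    constructor
    · rintro ⟨c, rfl⟩; exact ⟨ConjAct.ofConjAct c, (ConjAct.smul_def c x).symm⟩
    · rintro ⟨a, rfl⟩; exact ⟨ConjAct.toConjAct a, by simp [ConjAct.smul_def]⟩
  have horbG : ∀ y : G, y ∈ MulAction.orbit (ConjAct G) (f x) ↔ ∃ a : G, a * f x * a⁻¹ = y := by
    intro y
    rw [MulAction.mem_orbit_iff]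
    constructor
    · rintro ⟨c, rfl⟩; exact ⟨ConjAct.ofConjAct c, (ConjAct.smul_def c (f x)).symm⟩
    · rintro ⟨a, rfl⟩; exact ⟨ConjAct.toConjAct a, by simp [ConjAct.smul_def]⟩
  constructor
  · intro hb g hg
    obtain ⟨e, rfl⟩ := hf g
    refine ⟨e, rfl, ?_⟩
    have h1 : e * x * e⁻¹ ∈ MulAction.orbit (ConjAct E) x := (horbE _).mpr ⟨e, rfl⟩
    have h2 : x ∈ MulAction.orbit (ConjAct E) x := MulAction.mem_orbit_self x
    have h3 : f (e * x * e⁻¹) = f x := by
      rw [map_mul, map_mul, map_inv, hg]; group
    have this := hb.injOn h1 h2 h3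
    calc e * x = e * x * e⁻¹ * e := by group
      _ = x * e := by rw [this]
  · intro h
    refine ⟨?_, ?_, ?_⟩
    · intro y hy
      obtain ⟨a, rfl⟩ := (horbE y).mp hy
      exact (horbG _).mpr ⟨f a, by simp⟩
    · intro y1 h1 y2 h2 h12
      obtain ⟨a, rfl⟩ := (horbE y1).mp h1
      obtain ⟨b, rfl⟩ := (horbE y2).mp h2
      have hc : f (b⁻¹ * a) * f x = f x * f (b⁻¹ * a) := by
        simp only [map_mul, map_inv] at h12 ⊢
        calc (f b)⁻¹ * f a * f x = (f b)⁻¹ * (f a * f x * (f a)⁻¹) * f a := by group
          _ = (f b)⁻¹ * (f b * f x * (f b)⁻¹) * f a := by rw [h12]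
          _ = _ := by group
      obtain ⟨e, he, hex⟩ := h _ hc
      have hk : e⁻¹ * (b⁻¹ * a) ∈ f.ker := by
        rw [MonoidHom.mem_ker, map_mul, map_inv, he]; group
      have hz := Subgroup.mem_center_iff.mp (hker hk) x
      have h5 : (b⁻¹ * a) * x = x * (b⁻¹ * a) := by
        calc (b⁻¹ * a) * x = e * ((e⁻¹ * (b⁻¹ * a)) * x) := by group
          _ = e * (x * (e⁻¹ * (b⁻¹ * a))) := by rw [← hz]
          _ = (e * x) * (e⁻¹ * (b⁻¹ * a)) := by group
          _ = (x * e) * (e⁻¹ * (b⁻¹ * a)) := by rw [hex]
          _ = _ := by group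
      calc a * x * a⁻¹ = b * ((b⁻¹ * a) * x) * a⁻¹ := by group
        _ = b * (x * (b⁻¹ * a)) * a⁻¹ := by rw [h5]
        _ = _ := by group
    · intro y hy
      obtain ⟨g, rfl⟩ := (horbG y).mp hy
      obtain ⟨a, rfl⟩ := hf g
      exact ⟨a * x * a⁻¹, (horbE _).mpr ⟨a, rfl⟩, by simp⟩

end Groth.Agent.S18948
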