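import Groth.Statements.S18949
import Mathlib.Tactic.Group
import Mathlib.Algebra.Group.Subgroup.Basic
import Mathlib.GroupTheory.Subgroup.Center

set_option autoImplicit false
universe u v
open CExt

namespace Groth.Agent.S18949

/-- Automorphisms over the base: let f : E → G be a surjective homomorphism of groups with central
kernel A. For every homomorphism χ : G → A the map e ↦ χ(f(e)) · e is an endomorphism of E over G
which is the identity on A; and every endomorphism α of E with f ∘ α = f and α equal to the identity
on A is of this form for exactly one χ. (In the source this identifies the automorphisms of a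
central extension fixing its kernel with Hom(G, A), for extensions of profinite étale group schemes
over a field; stated here for abstract groups.) -/
theorem result {E : Type u} {G : Type v} [Group E] [Group G]
    (f : E →* G) (hf : Function.Surjective f) (hker : f.ker ≤ Subgroup.center E) :
    (∀ χ : G →* f.ker, ∃ α : E →* E, f.comp α = f ∧ (∀ a ∈ f.ker, α a = a) ∧
        ∀ e : E, α e = (χ (f e) : E) * e) ∧
      ∀ α : E →* E, f.comp α = f → (∀ a ∈ f.ker, α a = a) →
        ∃! χ : G →* f.ker, ∀ e : E, α e = (χ (f e) : E) * e := by
  refine ⟨fun χ => ?_, fun α hα hαA => ?_⟩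
  · refine ⟨{ toFun := fun e => (χ (f e) : E) * e, map_one' := by simp, map_mul' := ?_ }, ?_, ?_, fun e => rfl⟩
    · intro x y
      have hc : (χ (f y) : E) ∈ Subgroup.center E := hker (χ (f y)).2
      have this := Subgroup.mem_center_iff.mp hc x
      simp only [map_mul, Subgroup.coe_mul]
      calc (χ (f x) : E) * (χ (f y) : E) * (x * y) = (χ (f x) : E) * ((χ (f y) : E) * x) * y := by group
        _ = (χ (f x) : E) * (x * (χ (f y) : E)) * y := by rw [← this]
        _ = _ := by group
    · ext e
      have : f (χ (f e) : E) = 1 := (χ (f e)).2
      simp [this]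
    · intro a ha
      have : f a = 1 := ha
      simp [this]
  · have hmem : ∀ e, α e * e⁻¹ ∈ f.ker := by
      intro e
      have : f (α e) = f e := DFunLike.congr_fun hα e
      rw [MonoidHom.mem_ker, map_mul, map_inv, this, mul_inv_cancel]
    let c : E →* f.ker :=
      { toFun := fun e => ⟨α e * e⁻¹, hmem e⟩
        map_one' := by ext; simp
        map_mul' := by
          intro x y
          apply Subtype.ext
          have hc := Subgroup.mem_center_iff.mp (hker (hmem y)) x⁻¹
          simp only [map_mul, Subgroup.coe_mul, mul_inv_rev]
          calc α x * α y * (y⁻¹ * x⁻¹) = α x * ((α y * y⁻¹) * x⁻¹) := by group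
            _ = α x * (x⁻¹ * (α y * y⁻¹)) := by rw [← hc]
            _ = _ := by group }
    have hck : f.ker ≤ c.ker := by
      intro a ha
      rw [MonoidHom.mem_ker]
      apply Subtype.ext
      simp [c, hαA a ha]
    refine ⟨f.liftOfSurjective hf ⟨c, hck⟩, ?_, ?_⟩
    · intro e
      rw [MonoidHom.liftOfRightInverse_comp_apply]
      simp [c]
    · intro χ' hχ'
      apply MonoidHom.ext
      intro g
      obtain ⟨e, rfl⟩ := hf g
      rw [MonoidHom.liftOfRightInverse_comp_apply]
      apply Subtype.ext
      have := hχ' e
      simp [c, this]

end Groth.Agent.S18949
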