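import Groth.Statements.S18950
-- import your own Groth.Agent.* helpers here

set_option autoImplicit false
universe u v
open CExt

namespace Groth.Agent.S18950

/-- Let f : E → G be a homomorphism of groups whose kernel is central in E, let α be an endomorphism of
E with f ∘ α = f which is the identity on the kernel, and let S ⊆ E be a subset fixed pointwise by α
such that f(S) generates G. Then α is the identity. (In the source S is the marking of a marked
central extension of finite tame étale group schemes and the hypothesis is that the marked conjugacy
classes generate G; the conclusion there is that a morphism of marked extensions inducing the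
identity on the kernel and on G is unique.) -/
theorem result {E : Type u} {G : Type v} [Group E] [Group G]
    (f : E →* G) (hker : f.ker ≤ Subgroup.center E) (α : E →* E) (hα : f.comp α = f)
    (hαA : ∀ a ∈ f.ker, α a = a) (S : Set E) (hS : Subgroup.closure (f '' S) = ⊤)
    (hαS : ∀ s ∈ S, α s = s) : α = MonoidHom.id E := by
  have hH : ∀ e : E, α e = e := by
    intro e
    have h1 : f e ∈ Subgroup.closure (f '' S) := by rw [hS]; trivial
    rw [← MonoidHom.map_closure] at h1
    obtain ⟨s, hs, hfs⟩ := h1
    have hs' : α s = s := by
      have : Subgroup.closure S ≤ α.eqLocus (MonoidHom.id E) := by
        rw [Subgroup.closure_le]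
        intro x hx
        exact hαS x hx
      exact this hs
    have hk : s⁻¹ * e ∈ f.ker := by
      rw [MonoidHom.mem_ker, map_mul, map_inv, hfs]; simp
    have := hαA _ hk
    rw [map_mul, map_inv, hs'] at this
    exact mul_left_cancel this
  ext e; exact hH e

end Groth.Agent.S18950
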