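import Groth.Statements.S4335
import Mathlib

set_option autoImplicit false
universe u
open LinTop

namespace Groth.Agent.S4335

/-- In a topological ring an open prime ideal contains every ideal of definition. (No preadmissibility
hypothesis on the ring is needed.) -/
theorem result
    (A : Type u) [CommRing A] [TopologicalSpace A] (p : Ideal A) [p.IsPrime]
    (hp : IsOpen (p : Set A)) (I : Ideal A) (hI : LinTop.IsIdealOfDefinition A I) :
    I ≤ p := by
  obtain ⟨n, hn, h⟩ := hI.2 p (hp.mem_nhds p.zero_mem)
  have h' : I ^ n ≤ p := h
  first
    | exact Ideal.IsPrime.le_of_pow_le h'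
    | exact (Ideal.IsPrime.pow_le_iff hn.ne').mp h'

end Groth.Agent.S4335
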