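import Groth.Statements.S4361
import Mathlib

set_option autoImplicit false
universe u
open FinCond

namespace Groth.Agent.S4361

theorem aux {Y : Type*} [TopologicalSpace Y]
    (hY : ∀ y : Y, ∃ U : Set Y, IsOpen U ∧ y ∈ U ∧ TopologicalSpace.NoetherianSpace U)
    {K S : Set Y} (hK : IsCompact K) (hS : S ⊆ K) : IsCompact S := by
  choose U hUo hyU hUn using hY
  obtain ⟨t, ht⟩ := hK.elim_finite_subcover U hUo (fun y _ => Set.mem_iUnion.mpr ⟨y, hyU y⟩)
  have : S = ⋃ i ∈ t, (S ∩ U i) := by
    ext y; constructor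
    · intro hy
      obtain ⟨i, hi, hyi⟩ := Set.mem_iUnion₂.mp (ht (hS hy))
      exact Set.mem_iUnion₂.mpr ⟨i, hi, hy, hyi⟩
    · intro hy; obtain ⟨i, hi, hy, _⟩ := Set.mem_iUnion₂.mp hy; exact hy
  rw [this]
  apply t.isCompact_biUnion
  intro i _
  have := hUn i
  have h1 : IsCompact ((Subtype.val : U i → Y) ⁻¹' S) := TopologicalSpace.NoetherianSpace.isCompact _
  have h2 := h1.image continuous_subtype_val
  rwa [Subtype.image_preimage_coe, Set.inter_comm] at h2

open AlgebraicGeometry in
open CategoryTheory in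
/-- Let f : X -> Y and g : Y -> Z be morphisms whose composite is quasi-compact, and suppose the
underlying space of X is locally Noetherian (every point has an open neighbourhood which is a
Noetherian topological space). Then f is quasi-compact. (The published statement also covers the
case g separated, which is the standard cancellation property; this row states only the case of a
locally Noetherian source.) -/
theorem result
    {X Y Z : Scheme.{u}} (f : X ⟶ Y) (g : Y ⟶ Z) [QuasiCompact (f ≫ g)]
    (hX : ∀ x : X, ∃ U : X.Opens, x ∈ U ∧ TopologicalSpace.NoetherianSpace U) :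
    QuasiCompact f := by
  constructor
  intro V hV hVc
  have hgV : IsCompact (g '' V) := hVc.image g.continuous
  have hZ : ∀ z : Z, ∃ W : Z.Opens, IsAffineOpen W ∧ z ∈ W := fun z => by
    obtain ⟨W, hW, hz, -⟩ := exists_isAffineOpen_mem_and_subset (X := Z) (x := z) (U := ⊤) trivial
    exact ⟨W, hW, hz⟩
  choose W hWa hzW using hZ
  obtain ⟨t, ht⟩ := hgV.elim_finite_subcover (fun z => (W z : Set Z)) (fun z => (W z).isOpen)
    (fun z _ => Set.mem_iUnion.mpr ⟨z, hzW z⟩)
  have hK : IsCompact ((f ≫ g) ⁻¹' (⋃ i ∈ t, (W i : Set Z))) := by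
    apply QuasiCompact.isCompact_preimage (f := f ≫ g)
    · exact isOpen_biUnion (fun i _ => (W i).isOpen)
    · exact t.isCompact_biUnion (fun i _ => (hWa i).isCompact)
  refine aux (fun x => ?_) hK ?_
  · obtain ⟨U, hx, hU⟩ := hX x
    exact ⟨U, U.isOpen, hx, hU⟩
  · intro x hx
    have : g (f x) ∈ ⋃ i ∈ t, (W i : Set Z) := ht ⟨f x, hx, rfl⟩
    simpa using this

end Groth.Agent.S4361
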