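import Groth.Statements.S4359
import Mathlib
import Groth.Agent.S4361

set_option autoImplicit false
universe u
open FinCond

namespace Groth.Agent.S4359

open AlgebraicGeometry in
open CategoryTheory in
/-- Let S be a locally Noetherian scheme, p : X -> S a morphism of finite type (locally of finite type
and quasi-compact) and q : Y -> S any morphism. Then every morphism f : X -> Y with f followed by q
equal to p is of finite type, that is, locally of finite type and quasi-compact. -/
theorem result
    {X Y S : Scheme.{u}} [IsLocallyNoetherian S] (p : X ⟶ S) (q : Y ⟶ S)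
    [LocallyOfFiniteType p] [QuasiCompact p] (f : X ⟶ Y) (hf : f ≫ q = p) :
    LocallyOfFiniteType f ∧ QuasiCompact f := by
  subst hf
  have hXn : IsLocallyNoetherian X := LocallyOfFiniteType.isLocallyNoetherian (f ≫ q)
  refine ⟨locallyOfFiniteType_of_comp f q, Groth.Agent.S4361.result f q (fun x => ?_)⟩
  obtain ⟨W, hW, hx, -⟩ := exists_isAffineOpen_mem_and_subset (X := X) (x := x) (U := ⊤) trivial
  have : IsNoetherianRing Γ(X, W) := hXn.component_noetherian ⟨W, hW⟩
  exact ⟨W, hx, noetherianSpace_of_isAffineOpen W hW⟩

end Groth.Agent.S4359
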