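import Groth.Statements.S4360
import Mathlib

set_option autoImplicit false
universe u
open FinCond

namespace Groth.Agent.S4360

theorem aux {Y : Type*} [TopologicalSpace Y]
    (hY : ∀ y : Y, ∃ U : Set Y, IsOpen U ∧ y ∈ U ∧ TopologicalSpace.NoetherianSpace U)
    {K S : Set Y} (hK : IsCompact K) (hS : S ⊆ K) : IsCompact S := by
  choose U hUo hyU hUn using hY
  obtain ⟨t, ht⟩ := hK.elim_finite_subcover U hUo (fun y _ => Set.mem_iUnion.mpr ⟨y, hyU y⟩)
  have : S = ⋃ i ∈ t, (S ∩ U i) := by
    ext y; constructor
    · intro hy
      obtain ⟨i, hi, hyi⟩ := Set.mem_iUnion₂.mp (ht (hS hy))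
      exact Set.mem_iUnion₂.mpr ⟨i, hi, hy, hyi⟩
    · intro hy; obtain ⟨i, hi, hy, _⟩ := Set.mem_iUnion₂.mp hy; exact hy
  rw [this]
  apply t.isCompact_biUnion
  intro i _
  have := hUn i
  have h1 : IsCompact ((Subtype.val : U i → Y) ⁻¹' S) := TopologicalSpace.NoetherianSpace.isCompact _
  have h2 := h1.image continuous_subtype_val
  rwa [Subtype.image_preimage_coe, Set.inter_comm] at h2

open AlgebraicGeometry in
open CategoryTheory in
/-- The reference together with the reference. Let f : X -> Y be an immersion and suppose that the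
underlying space of Y is locally Noetherian, i.e. every point of Y has an open neighbourhood which
is a Noetherian topological space. Then f is quasi-compact (and hence of finite type, an immersion
being locally of finite type). -/
theorem result
    {X Y : Scheme.{u}} (f : X ⟶ Y) [IsImmersion f]
    (hY : ∀ y : Y, ∃ U : Y.Opens, y ∈ U ∧ TopologicalSpace.NoetherianSpace U) :
    QuasiCompact f := by
  constructor
  intro V hV hVc
  have hemb := f.isEmbedding
  rw [hemb.isCompact_iff, Set.image_preimage_eq_inter_range]
  refine aux (fun y => ?_) hVc Set.inter_subset_left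
  obtain ⟨U, hy, hU⟩ := hY y
  exact ⟨U, U.isOpen, hy, hU⟩

end Groth.Agent.S4360
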