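import Groth.Statements.S4675
import Mathlib

set_option autoImplicit false
universe u v
open FDesc

namespace Groth.Agent.S4675

/-- Let B be a ring, not necessarily commutative, and V, W two left B-modules which are isomorphic. For
a B-linear map u : V → W the following are equivalent: every B-linear map V → W can be written
uniquely as u ∘ c with c a B-linear endomorphism of V (that is, u is a basis of Hom_B(V, W) for its
right module structure over End_B(V)); u is bijective. -/
theorem result {B : Type u} [Ring B] {V W : Type v} [AddCommGroup V] [AddCommGroup W]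
    [Module B V] [Module B W] (e : V ≃ₗ[B] W) (u : V →ₗ[B] W) :
    (∀ v : V →ₗ[B] W, ∃! c : V →ₗ[B] V, v = u ∘ₗ c) ↔ Function.Bijective u := by
  constructor
  · intro h
    obtain ⟨c, hc, -⟩ := h e.toLinearMap
    have hsec : ∀ w, u (c (e.symm w)) = w := by
      intro w
      have := congrArg (fun φ : V →ₗ[B] W => φ (e.symm w)) hc
      simpa using this.symm
    obtain ⟨d, hd, huniq⟩ := h u
    have h1 : (LinearMap.id : V →ₗ[B] V) = d := huniq _ (by ext; simp)
    have h2 : (c ∘ₗ e.symm.toLinearMap ∘ₗ u) = d := huniq _ (by ext x; simp [hsec])
    constructor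
    · intro x y hxy
      have hx : ∀ z, c (e.symm (u z)) = z := by
        intro z
        have := congrArg (fun φ : V →ₗ[B] V => φ z) (h2.trans h1.symm)
        simpa using this
      rw [← hx x, ← hx y, hxy]
    · intro w; exact ⟨_, hsec w⟩
  · intro hu v
    let ue := LinearEquiv.ofBijective u hu
    refine ⟨ue.symm.toLinearMap ∘ₗ v, ?_, ?_⟩
    · ext x
      exact (ue.apply_symm_apply (v x)).symm
    · intro c hc
      ext x
      have : v x = ue (c x) := by rw [hc]; rfl
      simp [this]

end Groth.Agent.S4675
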