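import Groth.Statements.S4858
-- import your own Groth.Agent.* helpers here

set_option autoImplicit false
universe u
open EGA43

namespace Groth.Agent.S4858

/-- Conditions a), a′), c), c′) (very dense subsets): for a subset X₀ of a topological space X the
following are equivalent: every nonempty locally closed subset of X meets X₀; every closed subset Z
of X equals the closure of Z ∩ X₀; the map U ↦ U ∩ X₀ is injective on open subsets of X; the map F ↦
F ∩ X₀ is injective on closed subsets of X. -/
theorem result {X : Type u} [TopologicalSpace X] (X₀ : Set X) :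
    [∀ Z : Set X, IsLocallyClosed Z → Z.Nonempty → (Z ∩ X₀).Nonempty,
      ∀ Z : Set X, IsClosed Z → closure (Z ∩ X₀) = Z,
      ∀ U V : Set X, IsOpen U → IsOpen V → U ∩ X₀ = V ∩ X₀ → U = V,
      ∀ F F' : Set X, IsClosed F → IsClosed F' → F ∩ X₀ = F' ∩ X₀ → F = F'].TFAE := by
  tfae_have 1 → 2 := by
    intro h Z hZ
    apply Set.Subset.antisymm
    · exact hZ.closure_subset_iff.mpr Set.inter_subset_left
    · by_contra hne
      obtain ⟨x, hxZ, hx⟩ := Set.not_subset.mp hne
      have hlc : IsLocallyClosed (Z ∩ (closure (Z ∩ X₀))ᶜ) :=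
        hZ.isLocallyClosed.inter isClosed_closure.isOpen_compl.isLocallyClosed
      obtain ⟨y, ⟨hyZ, hy⟩, hy0⟩ := h _ hlc ⟨x, hxZ, hx⟩
      exact hy (subset_closure ⟨hyZ, hy0⟩)
  tfae_have 2 → 4 := by
    intro h F F' hF hF' e
    rw [← h F hF, ← h F' hF', e]
  tfae_have 4 → 3 := by
    intro h U V hU hV e
    have := h Uᶜ Vᶜ hU.isClosed_compl hV.isClosed_compl (by
      ext x
      have := Set.ext_iff.mp e x
      simp only [Set.mem_inter_iff, Set.mem_compl_iff] at *
      tauto)
    exact compl_injective this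
  tfae_have 3 → 1 := by
    intro h Z hZ hne
    obtain ⟨U, F, hU, hF, rfl⟩ := hZ
    by_contra hemp
    rw [Set.not_nonempty_iff_eq_empty] at hemp
    have e : (U ∩ Fᶜ) ∩ X₀ = U ∩ X₀ := by
      ext x
      have := Set.ext_iff.mp hemp x
      simp only [Set.mem_inter_iff, Set.mem_compl_iff, Set.mem_empty_iff_false] at *
      tauto
    have := h _ _ (hU.inter hF.isOpen_compl) hU e
    obtain ⟨x, hu, hf⟩ := hne
    have h2 := Set.ext_iff.mp this x
    simp only [Set.mem_inter_iff, Set.mem_compl_iff] at h2
    tauto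
  tfae_finish

end Groth.Agent.S4858
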