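import Groth.Statements.S4859
-- import your own Groth.Agent.* helpers here

set_option autoImplicit false
universe u
open EGA43

namespace Groth.Agent.S4859

/-- Conditions a), a′), b) (quasi-homeomorphisms): for a continuous map f : X₀ → X the following are
equivalent: taking preimages is a bijection from the open subsets of X onto the open subsets of X₀;
taking preimages is a bijection from the closed subsets of X onto the closed subsets of X₀; the
topology of X₀ is induced from X through f and the image f(X₀) is very dense in X, in the sense that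
two open subsets of X with the same trace on f(X₀) coincide. -/
theorem result {X₀ X : Type u} [TopologicalSpace X₀] [TopologicalSpace X]
    (f : X₀ → X) (hf : Continuous f) :
    [Function.Bijective (fun U : TopologicalSpace.Opens X =>
        (⟨f ⁻¹' (U : Set X), U.isOpen.preimage hf⟩ : TopologicalSpace.Opens X₀)),
      Function.Bijective (fun F : TopologicalSpace.Closeds X =>
        (⟨f ⁻¹' (F : Set X), F.isClosed.preimage hf⟩ : TopologicalSpace.Closeds X₀)),
      Topology.IsInducing f ∧
        ∀ U V : Set X, IsOpen U → IsOpen V → U ∩ Set.range f = V ∩ Set.range f → U = V].TFAE := by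
  have key : ∀ U V : Set X, f ⁻¹' U = f ⁻¹' V ↔ U ∩ Set.range f = V ∩ Set.range f := by
    intro U V
    constructor
    · intro h; ext x; constructor
      · rintro ⟨hx, y, rfl⟩; exact ⟨(Set.ext_iff.mp h y).mp hx, y, rfl⟩
      · rintro ⟨hx, y, rfl⟩; exact ⟨(Set.ext_iff.mp h y).mpr hx, y, rfl⟩
    · intro h; ext y
      have := Set.ext_iff.mp h (f y)
      simp only [Set.mem_inter_iff, Set.mem_range_self, and_true] at this
      exact this
  tfae_have 1 → 3 := by
    rintro ⟨hinj, hsurj⟩
    refine ⟨⟨?_⟩, ?_⟩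
    · apply le_antisymm
      · exact hf.le_induced
      · intro W hW
        obtain ⟨U, hU⟩ := hsurj ⟨W, hW⟩
        exact ⟨U, U.isOpen, congrArg (fun o : TopologicalSpace.Opens X₀ => (o : Set X₀)) hU⟩
    · intro U V hU hV e
      have := @hinj ⟨U, hU⟩ ⟨V, hV⟩ (TopologicalSpace.Opens.ext ((key U V).mpr e))
      exact congrArg (fun o : TopologicalSpace.Opens X => (o : Set X)) this
  tfae_have 3 → 1 := by
    rintro ⟨hind, h⟩
    constructor
    · intro U V e
      have e' : f ⁻¹' (U : Set X) = f ⁻¹' (V : Set X) := congrArg (fun o : TopologicalSpace.Opens X₀ => (o : Set X₀)) e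
      exact TopologicalSpace.Opens.ext (h _ _ U.isOpen V.isOpen ((key _ _).mp e'))
    · intro W
      obtain ⟨U, hU, hUW⟩ := hind.isOpen_iff.mp W.isOpen
      exact ⟨⟨U, hU⟩, TopologicalSpace.Opens.ext hUW⟩
  tfae_have 1 → 2 := by
    rintro ⟨hinj, hsurj⟩
    constructor
    · intro F F' e
      have e' : f ⁻¹' (F : Set X) = f ⁻¹' (F' : Set X) := congrArg (fun o : TopologicalSpace.Closeds X₀ => (o : Set X₀)) e
      have := @hinj ⟨(F : Set X)ᶜ, F.isClosed.isOpen_compl⟩ ⟨(F' : Set X)ᶜ, F'.isClosed.isOpen_compl⟩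
        (TopologicalSpace.Opens.ext (by simp only [TopologicalSpace.Opens.coe_mk, Set.preimage_compl, e']))
      have h2 : (F : Set X)ᶜ = (F' : Set X)ᶜ := congrArg (fun o : TopologicalSpace.Opens X => (o : Set X)) this
      exact TopologicalSpace.Closeds.ext (compl_injective h2)
    · intro G
      obtain ⟨U, hU⟩ := hsurj ⟨(G : Set X₀)ᶜ, G.isClosed.isOpen_compl⟩
      have hU' : f ⁻¹' (U : Set X) = (G : Set X₀)ᶜ := congrArg (fun o : TopologicalSpace.Opens X₀ => (o : Set X₀)) hU
      exact ⟨⟨(U : Set X)ᶜ, U.isOpen.isClosed_compl⟩, TopologicalSpace.Closeds.ext (by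
        simp only [TopologicalSpace.Closeds.coe_mk, Set.preimage_compl, hU', compl_compl])⟩
  tfae_have 2 → 1 := by
    rintro ⟨hinj, hsurj⟩
    constructor
    · intro F F' e
      have e' : f ⁻¹' (F : Set X) = f ⁻¹' (F' : Set X) := congrArg (fun o : TopologicalSpace.Opens X₀ => (o : Set X₀)) e
      have := @hinj ⟨(F : Set X)ᶜ, F.isOpen.isClosed_compl⟩ ⟨(F' : Set X)ᶜ, F'.isOpen.isClosed_compl⟩
        (TopologicalSpace.Closeds.ext (by simp only [TopologicalSpace.Closeds.coe_mk, Set.preimage_compl, e']))
      have h2 : (F : Set X)ᶜ = (F' : Set X)ᶜ := congrArg (fun o : TopologicalSpace.Closeds X => (o : Set X)) this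
      exact TopologicalSpace.Opens.ext (compl_injective h2)
    · intro G
      obtain ⟨U, hU⟩ := hsurj ⟨(G : Set X₀)ᶜ, G.isOpen.isClosed_compl⟩
      have hU' : f ⁻¹' (U : Set X) = (G : Set X₀)ᶜ := congrArg (fun o : TopologicalSpace.Closeds X₀ => (o : Set X₀)) hU
      exact ⟨⟨(U : Set X)ᶜ, U.isClosed.isOpen_compl⟩, TopologicalSpace.Opens.ext (by
        simp only [TopologicalSpace.Opens.coe_mk, Set.preimage_compl, hU', compl_compl])⟩
  tfae_finish

end Groth.Agent.S4859
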