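import Groth.Statements.S5069
import Mathlib

set_option autoImplicit false
universe u v
open Hensel

namespace Groth.Agent.S5069

/-- First assertion, phrased for the images of the inductive system: let B be a Noetherian commutative
ring and (C_i) a family of Artinian subrings of B, directed under inclusion, whose union is B. Then
B is an Artinian ring. -/
theorem result (B : Type u) [CommRing B] [IsNoetherianRing B]
    {ι : Type v} [Nonempty ι] (C : ι → Subring B) (hdir : Directed (fun a b => a ≤ b) C)
    (hart : ∀ i, IsArtinianRing ↥(C i)) (hcov : ∀ b : B, ∃ i, b ∈ C i) : IsArtinianRing B := by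
  rw [isArtinianRing_iff_isNoetherianRing_krullDimLE_zero]
  refine ⟨inferInstance, ?_⟩
  rw [Ring.krullDimLE_zero_iff]
  intro P hP
  rw [Ideal.Quotient.maximal_ideal_iff_isField_quotient]
  haveI : IsDomain (B ⧸ P) := Ideal.Quotient.isDomain P
  refine ⟨⟨0, 1, zero_ne_one⟩, mul_comm, ?_⟩
  intro a ha
  obtain ⟨b, rfl⟩ := Ideal.Quotient.mk_surjective a
  obtain ⟨i, hi⟩ := hcov b
  haveI := hart i
  -- the element b of the artinian ring C i : some power relation b^n = b^(n+1) c
  obtain ⟨n, c, hc⟩ := IsArtinian.exists_pow_succ_smul_dvd (⟨b, hi⟩ : C i) (1 : C i)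
  have hc' : b ^ n = b ^ (n + 1) * (c : B) := by
    have := congrArg (Subtype.val) hc
    simpa [mul_comm] using this.symm
  refine ⟨Ideal.Quotient.mk P c, ?_⟩
  have h3 : (Ideal.Quotient.mk P b) ^ n * 1 = (Ideal.Quotient.mk P b) ^ n * (Ideal.Quotient.mk P b * Ideal.Quotient.mk P c) := by
    have := congrArg (Ideal.Quotient.mk P) hc'
    simp only [map_pow, map_mul, pow_succ] at this
    rw [mul_one]
    exact this.trans (by ring)
  exact (mul_left_cancel₀ (pow_ne_zero n ha) h3).symm

end Groth.Agent.S5069
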