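import Groth.Statements.S5132
-- import your own Groth.Agent.* helpers here

set_option autoImplicit false
open CategoryTheory AlgebraicGeometry
universe u
open SGA1

namespace Groth.Agent.S5132

/-- Quasi-compactness of a morphism descends along a surjective and quasi-compact base change; flatness
of the base change is not needed for this property. -/
theorem result :
    MorphismProperty.DescendsAlong @QuasiCompact (@Surjective ⊓ @QuasiCompact : MorphismProperty Scheme.{u}) := by
  constructor
  intro A X Y Z fst snd f g h hf hfst
  have : Surjective f := hf.1
  have : QuasiCompact f := hf.2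
  have : QuasiCompact fst := hfst
  have h1 : QuasiCompact (snd ≫ g) := by rw [← h.w]; infer_instance
  have h2 : Surjective snd := MorphismProperty.of_isPullback (P := @Surjective) h hf.1
  constructor
  intro U hU hU'
  have h := QuasiCompact.isCompact_preimage (f := snd ≫ g) U hU hU'
  have : g ⁻¹' U = snd '' ((snd ≫ g) ⁻¹' U) := by
    ext y; constructor
    · intro hy; obtain ⟨x, rfl⟩ := snd.surjective y; exact ⟨x, by simpa using hy, rfl⟩
    · rintro ⟨x, hx, rfl⟩; simpa using hx
  rw [this]; exact h.image snd.continuous

end Groth.Agent.S5132
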