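import Groth.Statements.S6275
import Mathlib
-- import your own Groth.Agent.* helpers here

set_option autoImplicit false
universe u
open CAlg

namespace Groth.Agent.S6275

/-- Let R be a Noetherian ring and p ⊆ R a prime. Then there is f ∈ R, f ∉ p, such that R_f → R_p is
injective; equivalently every x ∈ R mapping to zero in R_p maps to zero in R_f. (The cases of a
domain and of a reduced ring with finitely many minimal primes are not included here.) -/
theorem result {R : Type u} [CommRing R] [IsNoetherianRing R] (p : Ideal R) [p.IsPrime] : ∃ f : R, f ∉ p ∧ ∀ x : R, algebraMap R (Localization.AtPrime p) x = 0 → algebraMap R (Localization.Away f) x = 0 := by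
  classical
  obtain ⟨s, hs⟩ := (IsNoetherian.noetherian
    (RingHom.ker (algebraMap R (Localization.AtPrime p))) : Submodule.FG _)
  have key : ∀ t : Finset R, (∀ x ∈ t, algebraMap R (Localization.AtPrime p) x = 0) →
      ∃ f : R, f ∉ p ∧ ∀ x ∈ t, f * x = 0 := by
    intro t
    induction t using Finset.induction_on with
    | empty =>
      intro _
      exact ⟨1, fun h => (Ideal.IsPrime.ne_top ‹_›) ((Ideal.eq_top_iff_one p).mpr h), by simp⟩
    | insert a t ha ih =>
      intro h
      obtain ⟨f, hf, hft⟩ := ih (fun x hx => h x (Finset.mem_insert_of_mem hx))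
      obtain ⟨m, hm⟩ := (IsLocalization.map_eq_zero_iff p.primeCompl
        (Localization.AtPrime p) a).mp (h a (Finset.mem_insert_self a t))
      refine ⟨m * f, fun hmem => ?_, ?_⟩
      · rcases (Ideal.IsPrime.mem_or_mem ‹_› hmem) with h1 | h1
        · exact m.2 h1
        · exact hf h1
      · intro x hx
        rcases Finset.mem_insert.mp hx with rfl | hx
        · rw [mul_right_comm, hm, zero_mul]
        · rw [mul_assoc, hft x hx, mul_zero]
  obtain ⟨f, hf, hfs⟩ := key s (fun x hx => by
    have : x ∈ RingHom.ker (algebraMap R (Localization.AtPrime p)) :=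
      hs ▸ Submodule.subset_span hx
    exact this)
  have hall : ∀ y ∈ Submodule.span R (s : Set R), f * y = 0 := by
    intro y hy
    induction hy using Submodule.span_induction with
    | mem y hy => exact hfs y hy
    | zero => simp
    | add a b _ _ ha hb => rw [mul_add, ha, hb, add_zero]
    | smul r a _ ha => rw [smul_eq_mul, mul_left_comm, ha, mul_zero]
  refine ⟨f, hf, fun x hx => ?_⟩
  have hxK : x ∈ Submodule.span R (s : Set R) := by rw [hs]; exact hx
  rw [IsLocalization.map_eq_zero_iff (Submonoid.powers f) (Localization.Away f) x]
  exact ⟨⟨f, Submonoid.mem_powers f⟩, hall x hxK⟩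

end Groth.Agent.S6275
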