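import Groth.Statements.S6277
import Mathlib
-- import your own Groth.Agent.* helpers here

set_option autoImplicit false
universe u
open CAlg

namespace Groth.Agent.S6277

/-- Any surjective ring endomorphism of a Noetherian ring is an isomorphism (bijective). -/
theorem result {R : Type u} [CommRing R] [IsNoetherianRing R] (f : R →+* R) (hf : Function.Surjective f) : Function.Bijective f := by
  refine ⟨?_, hf⟩
  have hmono : Monotone (fun n : ℕ => RingHom.ker (f ^ n)) := by
    apply monotone_nat_of_le_succ
    intro n x hx
    rw [RingHom.mem_ker] at hx ⊢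
    rw [pow_succ']
    show f ((f ^ n) x) = 0
    rw [hx, map_zero]
  obtain ⟨n, hn⟩ := monotone_stabilizes_iff_noetherian.mpr (inferInstance : IsNoetherian R R) ⟨_, hmono⟩
  have hsurj : ∀ k : ℕ, Function.Surjective (f ^ k) := by
    intro k
    induction k with
    | zero => intro x; exact ⟨x, rfl⟩
    | succ k ih =>
      intro x
      obtain ⟨y, rfl⟩ := hf x
      obtain ⟨z, rfl⟩ := ih y
      exact ⟨z, by rw [pow_succ']; rfl⟩
  rw [injective_iff_map_eq_zero]
  intro x hx
  obtain ⟨y, rfl⟩ := hsurj n x
  have h1 : y ∈ RingHom.ker (f ^ (n+1)) := by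
    rw [RingHom.mem_ker, pow_succ']
    exact hx
  have h2 : y ∈ RingHom.ker (f ^ n) := by
    have := hn (n+1) (Nat.le_succ n)
    simp only [OrderHom.coe_mk] at this
    rw [this]; exact h1
  exact h2

end Groth.Agent.S6277
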