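import Groth.Statements.S6288
import Mathlib
-- import your own Groth.Agent.* helpers here

set_option autoImplicit false
universe u
open CAlg

namespace Groth.Agent.S6288

/-- Let L/K be an algebraic extension of fields and B ⊆ L a valuation ring with fraction field L which
is not a field. Then A = K ∩ B is a valuation ring of K (automatic) which is again not a field, i.e.
A ≠ K. -/
theorem result (K L : Type u) [Field K] [Field L] [Algebra K L] [Algebra.IsAlgebraic K L] (B : ValuationSubring L) (hB : B ≠ ⊤) : B.comap (algebraMap K L) ≠ ⊤ := by
  intro htop
  apply hB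
  have hK : ∀ k : K, algebraMap K L k ∈ B := by
    intro k
    have h0 : k ∈ B.comap (algebraMap K L) := by rw [htop]; trivial
    exact h0
  rw [eq_top_iff]
  intro x _
  letI : Algebra K B := ((algebraMap K L).codRestrict B.toSubring hK).toAlgebra
  haveI : IsScalarTower K B L := IsScalarTower.of_algebraMap_eq (fun _ => rfl)
  have hx : IsIntegral K x := (Algebra.IsAlgebraic.isAlgebraic x).isIntegral
  have hx' : IsIntegral B x := hx.tower_top
  obtain ⟨y, hy⟩ := (IsIntegrallyClosed.isIntegral_iff (R := B) (K := L)).mp hx'
  rw [← hy]
  exact y.2

end Groth.Agent.S6288
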