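import Groth.Statements.S6306
import Mathlib
-- import your own Groth.Agent.* helpers here

set_option autoImplicit false
universe u
open CAlg

namespace Groth.Agent.S6306

/-- Let R be a nonzero ring such that every nonzero prime ideal of R contains a non-zerodivisor. Then R
is a domain. -/
theorem result (R : Type u) [CommRing R] [Nontrivial R] (h : ∀ p : Ideal R, p.IsPrime → p ≠ ⊥ → ∃ x ∈ p, x ∈ nonZeroDivisors R) : IsDomain R := by
  have hd : Disjoint ((⊥ : Ideal R) : Set R) (nonZeroDivisors R : Set R) := by
    rw [Set.disjoint_left]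
    intro x hx hx'
    have hx0 : x = 0 := by simpa using hx
    subst hx0
    exact zero_notMem_nonZeroDivisors hx'
  obtain ⟨p, hp, _, hpd⟩ := Ideal.exists_le_prime_disjoint (⊥ : Ideal R) (nonZeroDivisors R) hd
  have hpb : p = ⊥ := by
    by_contra hne
    obtain ⟨x, hxp, hx⟩ := h p hp hne
    exact (Set.disjoint_left.mp hpd) hxp hx
  subst hpb
  haveI : NoZeroDivisors R := ⟨fun {a b} hab => by
    have := hp.mem_or_mem (show a * b ∈ (⊥ : Ideal R) by simpa using hab)
    simpa using this⟩
  exact NoZeroDivisors.to_isDomain R

end Groth.Agent.S6306
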