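import Groth.Statements.S6307
import Mathlib
-- import your own Groth.Agent.* helpers here

set_option autoImplicit false
universe u
open CAlg

namespace Groth.Agent.S6307

/-- Let R be a ring, J ⊆ R a principal ideal and I ⊆ J an ideal. Then I = J · (I : J). -/
theorem result {R : Type u} [CommRing R] (I J : Ideal R) (hJ : J.IsPrincipal) (hIJ : I ≤ J) : I = J * I.colon J := by
  obtain ⟨a, rfl⟩ := hJ
  apply le_antisymm
  · intro x hx
    have hxa := hIJ hx
    rw [Submodule.mem_span_singleton] at hxa
    obtain ⟨y, rfl⟩ := hxa
    have hy : y ∈ I.colon (Submodule.span R {a} : Set R) := by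
      rw [Submodule.mem_colon_span_singleton]
      exact hx
    have e : y • a = a * y := by rw [smul_eq_mul, mul_comm]
    rw [e]
    exact Ideal.mul_mem_mul (Submodule.mem_span_singleton_self a) hy
  · rw [Ideal.mul_le]
    intro r hr s hs
    rw [Submodule.mem_colon] at hs
    have := hs r hr
    rwa [smul_eq_mul, mul_comm] at this

end Groth.Agent.S6307
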