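import Groth.Statements.S6372
import Mathlib
-- import your own Groth.Agent.* helpers here

set_option autoImplicit false
universe u
open CAlg

namespace Groth.Agent.S6372

/-- A faithfully flat epimorphism of rings is an isomorphism: if R → S is faithfully flat and an
epimorphism in the category of rings then it is bijective. -/
theorem result (R S : Type u) [CommRing R] [CommRing S] [Algebra R S]
    [Module.FaithfullyFlat R S] [Algebra.IsEpi R S] : Function.Bijective (algebraMap R S) := by
  have hmul := Algebra.IsEpi.injective_lift_mul (R := R) (A := S)
  have hcomp : ∀ x : TensorProduct R S R,
      TensorProduct.lift (LinearMap.mul R S) (LinearMap.lTensor S (Algebra.linearMap R S) x)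
        = TensorProduct.rid R S x := by
    intro x
    induction x using TensorProduct.induction_on with
    | zero => simp
    | tmul s r => simp [Algebra.smul_def, mul_comm]
    | add a b ha hb => simp only [map_add, ha, hb]
  have hinj : Function.Injective (LinearMap.lTensor S (Algebra.linearMap R S)) := by
    intro a b hab
    apply (TensorProduct.rid R S).injective
    rw [← hcomp, ← hcomp, hab]
  have hsurj : Function.Surjective (LinearMap.lTensor S (Algebra.linearMap R S)) := by
    intro y
    refine ⟨(TensorProduct.rid R S).symm (TensorProduct.lift (LinearMap.mul R S) y), hmul ?_⟩
    rw [hcomp]; simp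
  exact ⟨(Module.FaithfullyFlat.lTensor_injective_iff_injective R S (Algebra.linearMap R S)).mp hinj,
    (Module.FaithfullyFlat.lTensor_surjective_iff_surjective R S (Algebra.linearMap R S)).mp hsurj⟩

end Groth.Agent.S6372
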