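import Groth.Statements.S6373
import Mathlib
-- import your own Groth.Agent.* helpers here

set_option autoImplicit false
universe u
open CAlg

namespace Groth.Agent.S6373

/-- If k is a field and k → S is an epimorphism of rings, then S is the zero ring or k → S is an
isomorphism. -/
theorem result (k S : Type u) [Field k] [CommRing S] [Algebra k S] [Algebra.IsEpi k S] :
    Subsingleton S ∨ Function.Bijective (algebraMap k S) := by
  rcases subsingleton_or_nontrivial S with hS | hS
  · exact Or.inl hS
  · right
    refine ⟨(algebraMap k S).injective, fun s => ?_⟩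
    have h1 : ¬ ∀ φ : Module.Dual k S, φ (1 : S) = 0 := by
      rw [Module.forall_dual_apply_eq_zero_iff]
      exact one_ne_zero
    push_neg at h1
    obtain ⟨φ, hφ⟩ := h1
    have e := (Algebra.isEpi_iff_forall_one_tmul_eq k S).mp inferInstance s
    have e2 := congrArg (TensorProduct.lift ((LinearMap.lsmul k S).comp φ)) e
    simp only [TensorProduct.lift.tmul, LinearMap.comp_apply, LinearMap.lsmul_apply] at e2
    refine ⟨(φ 1)⁻¹ * φ s, ?_⟩
    rw [Algebra.algebraMap_eq_smul_one, mul_smul, ← e2, smul_smul, inv_mul_cancel₀ hφ, one_smul]

end Groth.Agent.S6373
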