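import Groth.Statements.S6855
import Mathlib
-- import your own Groth.Agent.* helpers here

set_option autoImplicit false
universe u
open CategoryTheory CategoryTheory.Limits TopologicalSpace
open ModSite

namespace Groth.Agent.S6855

/-- Let X be a topological space and O a sheaf of rings on X. Then the support of O, the set of points x
with nonzero stalk O_x, is closed in X. -/
theorem result {X : TopCat.{u}} (O : TopCat.Sheaf CommRingCat.{u} X) :
    IsClosed {x : X | Nontrivial (O.presheaf.stalk x)} := by
  rw [← isOpen_compl_iff, isOpen_iff_forall_mem_open]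
  intro x hx
  have hsub : Subsingleton (O.presheaf.stalk x) := not_nontrivial_iff_subsingleton.mp hx
  obtain ⟨W, hxW, iU, iV, hW⟩ := TopCat.Presheaf.germ_eq O.presheaf (U := ⊤) (V := ⊤) x trivial trivial
    (1 : O.presheaf.obj (Opposite.op ⊤)) 0 (Subsingleton.elim _ _)
  refine ⟨W, ?_, W.isOpen, hxW⟩
  intro y hy
  show ¬ Nontrivial (O.presheaf.stalk y)
  rw [not_nontrivial_iff_subsingleton]
  have h10 : (1 : O.presheaf.stalk y) = 0 := by
    have h1 := congrArg (O.presheaf.germ W y hy) hW
    simpa using h1
  exact subsingleton_of_zero_eq_one h10.symm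

end Groth.Agent.S6855
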