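import Groth.Statements.S6933
import Mathlib
-- import your own Groth.Agent.* helpers here

set_option autoImplicit false
universe u
open CategoryTheory
open InjHull

namespace Groth.Agent.S6933

/-- An abelian group `J` that is injective as an object of the category of abelian groups is divisible:
`n J = J` for every nonzero integer `n`. (The published statement is an equivalence; this row states
the implication from injective to divisible.) -/
theorem result (J : Type u) [AddCommGroup J] (hJ : Injective (AddCommGrpCat.of J))
    (n : ℤ) (hn : n ≠ 0) (x : J) : ∃ y : J, n • y = x := by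
  let Z := AddCommGrpCat.of (ULift.{u} ℤ)
  let f : Z ⟶ Z := AddCommGrpCat.ofHom (n • AddMonoidHom.id (ULift.{u} ℤ))
  let g : Z ⟶ AddCommGrpCat.of J :=
    AddCommGrpCat.ofHom ((zmultiplesHom J x).comp AddEquiv.ulift.toAddMonoidHom)
  haveI : Mono f := by
    rw [AddCommGrpCat.mono_iff_injective]
    intro a b hab
    have h1 : n • a = n • b := hab
    have h2 : n * a.down = n * b.down := by
      have h3 := congrArg ULift.down h1
      first
        | exact h3
        | (rw [ULift.smul_down, ULift.smul_down, smul_eq_mul, smul_eq_mul] at h3; exact h3)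
        | (simp only [ULift.smul_down, smul_eq_mul] at h3; exact h3)
    exact ULift.down_injective (mul_left_cancel₀ hn h2)
  have hfac := Injective.comp_factorThru g f
  refine ⟨(Injective.factorThru g f) ⟨1⟩, ?_⟩
  have h1 : (Injective.factorThru g f) (f ⟨1⟩) = g ⟨1⟩ := by
    rw [← ConcreteCategory.comp_apply, hfac]
  have h2 : f ⟨1⟩ = n • (⟨1⟩ : ULift.{u} ℤ) := rfl
  have h3 : g ⟨1⟩ = x := by
    show (1 : ℤ) • x = x
    exact one_zsmul x
  rw [h2] at h1
  rw [← h3, ← h1]
  exact (map_zsmul (Injective.factorThru g f).hom n _).symm

end Groth.Agent.S6933
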