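import Groth.Statements.S7144
import Mathlib
-- import your own Groth.Agent.* helpers here

set_option autoImplicit false
universe u
open CAlg

namespace Groth.Agent.S7144

/-- (1) ⇔ (2): let R be a nonzero ring. Then for all a, b in R one of a, b divides the other if and only
if R is local and every finitely generated ideal of R is principal. (The further equivalence with
the total ordering of the set of ideals by inclusion is standard and not restated here.) -/
theorem result (R : Type u) [CommRing R] [Nontrivial R] :
    PreValuationRing R ↔ IsLocalRing R ∧ IsBezout R := by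
  constructor
  · intro h
    refine ⟨inferInstance, ?_⟩
    rw [IsBezout.iff_span_pair_isPrincipal]
    intro x y
    rw [Ideal.span_insert]
    obtain ⟨c, hc | hc⟩ := PreValuationRing.cond x y
    · have hle : (Ideal.span {y} : Ideal R) ≤ Ideal.span {x} := by
        rw [Ideal.span_singleton_le_span_singleton]; exact ⟨c, hc.symm⟩
      rw [sup_eq_left.mpr hle]; exact ⟨⟨_, rfl⟩⟩
    · have hle : (Ideal.span {x} : Ideal R) ≤ Ideal.span {y} := by
        rw [Ideal.span_singleton_le_span_singleton]; exact ⟨c, hc.symm⟩
      rw [sup_eq_right.mpr hle]; exact ⟨⟨_, rfl⟩⟩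
  · rintro ⟨_, _⟩
    refine ⟨fun a b => ?_⟩
    obtain ⟨g, e : _ = Ideal.span _⟩ := IsBezout.span_pair_isPrincipal a b
    obtain ⟨a, rfl⟩ := Ideal.mem_span_singleton'.mp
      (show a ∈ Ideal.span {g} by rw [← e]; exact Ideal.subset_span (by simp))
    obtain ⟨b, rfl⟩ := Ideal.mem_span_singleton'.mp
      (show b ∈ Ideal.span {g} by rw [← e]; exact Ideal.subset_span (by simp))
    obtain ⟨x, y, e'⟩ := Ideal.mem_span_pair.mp
      (show g ∈ Ideal.span {a * g, b * g} by rw [e]; exact Ideal.subset_span (by simp))
    have key : (1 - (x * a + y * b)) * g = 0 := by linear_combination -e'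
    rcases IsLocalRing.isUnit_or_isUnit_one_sub_self (x * a + y * b) with hu | hu
    · rcases IsLocalRing.isUnit_or_isUnit_of_isUnit_add hu with h' | h'
      · obtain ⟨u, rfl⟩ := isUnit_of_mul_isUnit_right h'
        exact ⟨↑u⁻¹ * b, Or.inl (by
          calc (↑u * g) * (↑u⁻¹ * b) = (↑u * ↑u⁻¹) * (b * g) := by ring
            _ = b * g := by rw [Units.mul_inv, one_mul])⟩
      · obtain ⟨u, rfl⟩ := isUnit_of_mul_isUnit_right h'
        exact ⟨↑u⁻¹ * a, Or.inr (by
          calc (↑u * g) * (↑u⁻¹ * a) = (↑u * ↑u⁻¹) * (a * g) := by ring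
            _ = a * g := by rw [Units.mul_inv, one_mul])⟩
    · have hg : g = 0 := (hu.mul_right_eq_zero).mp key
      exact ⟨0, Or.inl (by simp [hg])⟩

end Groth.Agent.S7144
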