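import Groth.Statements.S7397
import Mathlib
-- import your own Groth.Agent.* helpers here

set_option autoImplicit false
universe u
open Mor

namespace Groth.Agent.S7397

/-- Let `A ⊆ B` be a ring extension and `b ∈ B`, `b ∉ A`, with `b^n, b^(n+1) ∈ A` for some `n ≥ 2`. Then
some `b' ∈ B` with `b' ∉ A` has `b'^2 ∈ A` and `b'^3 ∈ A`. -/
theorem result {B : Type u} [CommRing B] (A : Subring B) (b : B) (hb : b ∉ A)
    (n : ℕ) (hn : 2 ≤ n) (h1 : b ^ n ∈ A) (h2 : b ^ (n + 1) ∈ A) :
    ∃ b' : B, b' ∉ A ∧ b' ^ 2 ∈ A ∧ b' ^ 3 ∈ A := by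
  classical
  have big : ∀ j, n * n ≤ j → b ^ j ∈ A := by
    intro j hj
    have hnpos : 0 < n := by omega
    have hr : j % n < n := Nat.mod_lt _ hnpos
    have hq : n ≤ j / n := by
      rw [Nat.le_div_iff_mul_le hnpos]; exact hj
    obtain ⟨q, r, hqr⟩ : ∃ q r, j = q * n + r * (n + 1) := by
      have e := Nat.div_add_mod j n
      have hle : j % n ≤ j / n := by omega
      obtain ⟨d, hd⟩ := Nat.exists_eq_add_of_le hle
      rw [hd] at e
      exact ⟨d, j % n, by
        calc j = n * (j % n + d) + j % n := e.symm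
          _ = d * n + j % n * (n + 1) := by ring⟩
    rw [hqr, pow_add, mul_comm q n, mul_comm r (n + 1), pow_mul, pow_mul]
    exact A.mul_mem (A.pow_mem h1 _) (A.pow_mem h2 _)
  have hex : ∃ m, ∀ j, m ≤ j → b ^ j ∈ A := ⟨n * n, big⟩
  have hm := Nat.find_spec hex
  have hmin : ∀ k, k < Nat.find hex → ¬ (∀ j, k ≤ j → b ^ j ∈ A) :=
    fun k hk => Nat.find_min hex hk
  generalize Nat.find hex = m at hm hmin
  have hm2 : 2 ≤ m := by
    by_contra hlt
    have h3 : b ^ 1 ∈ A := hm 1 (by omega)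
    rw [pow_one] at h3
    exact hb h3
  refine ⟨b ^ (m - 1), ?_, ?_, ?_⟩
  · intro hmem
    apply hmin (m - 1) (by omega)
    intro j hj
    rcases Nat.eq_or_lt_of_le hj with h | h
    · rw [← h]; exact hmem
    · exact hm j (by omega)
  · rw [← pow_mul]; exact hm _ (by omega)
  · rw [← pow_mul]; exact hm _ (by omega)

end Groth.Agent.S7397
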