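import Groth.Statements.S7524
import Mathlib.Topology.Spectral.ConstructibleTopology
-- import your own Groth.Agent.* helpers here

set_option autoImplicit false
universe u
open SpecSp

namespace Groth.Agent.S7524

/-- A continuous map f : X → Y of spectral spaces is spectral if and only if it is continuous when X and
Y both carry their constructible topologies. -/
theorem result {X Y : Type u} [TopologicalSpace X] [TopologicalSpace Y]
    [SpectralSpace X] [SpectralSpace Y] (f : X → Y) (hf : Continuous f) :
    IsSpectralMap f ↔ @Continuous X Y (constructibleTopology X) (constructibleTopology Y) f := by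
  constructor
  · intro hsp
    refine continuous_generateFrom_iff.mpr ?_
    rintro s (⟨hso, hsc⟩ | ⟨hscl, hsc⟩)
    · exact (hsp.isCompact_preimage_of_isOpen hso hsc).isOpen_constructibleTopology_of_isOpen
        (hso.preimage hf)
    · refine IsCompact.isOpen_constructibleTopology_of_isClosed ?_ (hscl.preimage hf)
      rw [← Set.preimage_compl]
      exact hsp.isCompact_preimage_of_isOpen hscl.isOpen_compl hsc
  · intro hc
    refine ⟨hf, fun s hso hsc => ?_⟩
    have h1 : @IsOpen Y (constructibleTopology Y) sᶜ :=
      IsCompact.isOpen_constructibleTopology_of_isClosed (by simpa using hsc) hso.isClosed_compl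
    have h2' : @IsOpen X (constructibleTopology X) (f ⁻¹' sᶜ) :=
      @Continuous.isOpen_preimage X Y (constructibleTopology X) (constructibleTopology Y) f hc sᶜ h1
    have h2 : @IsClosed X (constructibleTopology X) (f ⁻¹' s) :=
      @IsClosed.mk X (constructibleTopology X) (f ⁻¹' s) h2'
    have h3 : IsClosed
        (WithTopology.ofTopology ⁻¹' (f ⁻¹' s) : Set (WithConstructibleTopology X)) := by
      rw [WithConstructibleTopology.isClosed_iff]; exact h2
    have h4 := h3.isCompact
    have hcont : Continuous (WithTopology.ofTopology : WithConstructibleTopology X → X) := by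
      rw [continuous_def]
      intro V hV
      rw [isOpen_iff_forall_mem_open]
      intro a ha
      have ha' : a.ofTopology ∈ V := ha
      obtain ⟨W, ⟨hWo, hWc⟩, haW, hWV⟩ :=
        (PrespectralSpace.isTopologicalBasis (X := X)).exists_subset_of_mem_open ha' hV
      refine ⟨WithTopology.ofTopology ⁻¹' W, fun z hz => hWV hz, ?_, haW⟩
      rw [WithConstructibleTopology.isOpen_iff]
      exact hWc.isOpen_constructibleTopology_of_isOpen hWo
    have h5 := h4.image hcont
    convert h5 using 1
    ext z
    constructor
    · intro hz; exact ⟨WithTopology.toTopology _ z, hz, rfl⟩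
    · rintro ⟨w, hw, rfl⟩; exact hw

end Groth.Agent.S7524
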