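import Groth.Statements.S7526
import Mathlib.Topology.Spectral.ConstructibleTopology
-- import your own Groth.Agent.* helpers here

set_option autoImplicit false
universe u
open SpecSp

namespace Groth.Agent.S7526

theorem aux1 {X : Type u} [TopologicalSpace X] [SpectralSpace X] (E : Set X)
    (hE : @IsClosed X (constructibleTopology X) E) (x : X) (hx : x ∈ closure E) :
    ∃ e ∈ E, e ⤳ x := by
  classical
  have hclopen : ∀ W : Set X, IsOpen W → IsCompact W →
      IsClopen (WithTopology.ofTopology ⁻¹' W : Set (WithConstructibleTopology X)) := by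
    intro W hVo hVc
    constructor
    · rw [← isOpen_compl_iff, WithConstructibleTopology.isOpen_iff]
      have : @IsOpen X (constructibleTopology X) Wᶜ :=
        IsCompact.isOpen_constructibleTopology_of_isClosed (by simpa using hVc) hVo.isClosed_compl
      exact this
    · rw [WithConstructibleTopology.isOpen_iff]
      exact hVc.isOpen_constructibleTopology_of_isOpen hVo
  have hEcl : IsClosed (WithTopology.ofTopology ⁻¹' E : Set (WithConstructibleTopology X)) := by
    rw [WithConstructibleTopology.isClosed_iff]; exact hE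
  let I := {W : Set X // IsOpen W ∧ IsCompact W ∧ x ∈ W}
  have hI : Nonempty I := ⟨⟨Set.univ, isOpen_univ, isCompact_univ, trivial⟩⟩
  have hcl : ∀ i : I, IsClosed
      (WithTopology.ofTopology ⁻¹' (E ∩ i.1) : Set (WithConstructibleTopology X)) :=
    fun i => hEcl.inter (hclopen i.1 i.2.1 i.2.2.1).isClosed
  have hdir' : Directed (· ⊇ ·) (fun i : I =>
      (WithTopology.ofTopology ⁻¹' (E ∩ i.1) : Set (WithConstructibleTopology X))) := by
    intro i j
    exact ⟨⟨i.1 ∩ j.1, i.2.1.inter j.2.1,
      QuasiSeparatedSpace.inter_isCompact _ _ i.2.1 i.2.2.1 j.2.1 j.2.2.1, i.2.2.2, j.2.2.2⟩,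
      fun z hz => ⟨hz.1, hz.2.1⟩, fun z hz => ⟨hz.1, hz.2.2⟩⟩
  have hnon : ∀ i : I,
      (WithTopology.ofTopology ⁻¹' (E ∩ i.1) : Set (WithConstructibleTopology X)).Nonempty := by
    intro i
    obtain ⟨z, hzW, hzE⟩ := mem_closure_iff.mp hx i.1 i.2.1 i.2.2.2
    exact ⟨WithTopology.toTopology _ z, hzE, hzW⟩
  obtain ⟨z, hz⟩ := IsCompact.nonempty_iInter_of_directed_nonempty_isCompact_isClosed _
    hdir' hnon (fun i => (hcl i).isCompact) hcl
  rw [Set.mem_iInter] at hz
  refine ⟨z.ofTopology, (hz (Classical.arbitrary I)).1, ?_⟩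
  rw [specializes_iff_forall_open]
  intro O hO hxO
  obtain ⟨W, ⟨hWo, hWc⟩, hxW, hWO⟩ :=
    (PrespectralSpace.isTopologicalBasis (X := X)).exists_subset_of_mem_open hxO hO
  exact hWO (hz ⟨W, hWo, hWc, hxW⟩).2


/-- Let X be a spectral space. If E ⊆ X is closed in the constructible topology then (1) every point of
the closure of E is a specialization of some point of E, and (2) E is closed as soon as it is also
stable under specialization. (3) Any E' ⊆ X that is stable under generalization and constructibly
open is open. -/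
theorem result {X : Type u} [TopologicalSpace X] [SpectralSpace X] :
    (∀ E : Set X, @IsClosed X (constructibleTopology X) E →
      (∀ x ∈ closure E, ∃ e ∈ E, e ⤳ x) ∧ (StableUnderSpecialization E → IsClosed E)) ∧
    (∀ E' : Set X, @IsOpen X (constructibleTopology X) E' → StableUnderGeneralization E' → IsOpen E') := by
  have h1 : ∀ E : Set X, @IsClosed X (constructibleTopology X) E →
      StableUnderSpecialization E → IsClosed E := by
    intro E hE hs
    rw [← closure_subset_iff_isClosed]
    intro x hx
    obtain ⟨e, he, hex⟩ := aux1 E hE x hx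
    exact hs hex he
  refine ⟨fun E hE => ⟨fun x hx => aux1 E hE x hx, h1 E hE⟩, fun E' hE' hg => ?_⟩
  have := h1 E'ᶜ ((@isClosed_compl_iff X (constructibleTopology X) E').mpr hE') hg.compl
  exact isClosed_compl_iff.mp this

end Groth.Agent.S7526
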