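import Groth.Statements.S7540
import Mathlib.Topology.Spectral.ConstructibleTopology
-- import your own Groth.Agent.* helpers here

set_option autoImplicit false
universe u
open SpecSp

namespace Groth.Agent.S7540

/-- Let X be a spectral space, I a nonempty index set and U_i ⊆ X quasi-compact opens such that for all
i, j some U_k lies in U_i ∩ U_j; put W = ⋂ U_i. Then every open subset of X containing W contains
some U_i. The published statement also asserts that W is spectral and is the limit of the U_i; this
row states the neighbourhood property. -/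
theorem result {X : Type u} [TopologicalSpace X] [SpectralSpace X]
    {I : Type u} [Nonempty I] (U : I → Set X) (hU : ∀ i, IsOpen (U i) ∧ IsCompact (U i))
    (hdir : ∀ i j, ∃ k, U k ⊆ U i ∩ U j) :
    ∀ V : Set X, IsOpen V → (⋂ i, U i) ⊆ V → ∃ i, U i ⊆ V := by
  intro V hV hsub
  by_contra hcon
  have hclopen : ∀ W : Set X, IsOpen W → IsCompact W →
      IsClopen (WithTopology.ofTopology ⁻¹' W : Set (WithConstructibleTopology X)) := by
    intro W hVo hVc
    constructor
    · rw [← isOpen_compl_iff, WithConstructibleTopology.isOpen_iff]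
      have : @IsOpen X (constructibleTopology X) Wᶜ :=
        IsCompact.isOpen_constructibleTopology_of_isClosed (by simpa using hVc) hVo.isClosed_compl
      exact this
    · rw [WithConstructibleTopology.isOpen_iff]
      exact hVc.isOpen_constructibleTopology_of_isOpen hVo
  have hVopen : IsOpen (WithTopology.ofTopology ⁻¹' V : Set (WithConstructibleTopology X)) := by
    rw [isOpen_iff_forall_mem_open]
    intro a ha
    have ha' : a.ofTopology ∈ V := ha
    obtain ⟨W, ⟨hWo, hWc⟩, haW, hWV⟩ :=
      (PrespectralSpace.isTopologicalBasis (X := X)).exists_subset_of_mem_open ha' hV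
    exact ⟨WithTopology.ofTopology ⁻¹' W, fun z hz => hWV hz, (hclopen W hWo hWc).isOpen, haW⟩
  have hcl : ∀ i, IsClosed
      (WithTopology.ofTopology ⁻¹' (U i \ V) : Set (WithConstructibleTopology X)) :=
    fun i => (hclopen (U i) (hU i).1 (hU i).2).isClosed.inter hVopen.isClosed_compl
  have hdir' : Directed (· ⊇ ·) (fun i =>
      (WithTopology.ofTopology ⁻¹' (U i \ V) : Set (WithConstructibleTopology X))) := by
    intro i j
    obtain ⟨k, hk⟩ := hdir i j
    exact ⟨k, fun z hz => ⟨(hk hz.1).1, hz.2⟩, fun z hz => ⟨(hk hz.1).2, hz.2⟩⟩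
  have hnon : ∀ i,
      (WithTopology.ofTopology ⁻¹' (U i \ V) : Set (WithConstructibleTopology X)).Nonempty := by
    intro i
    obtain ⟨z, hzU, hzV⟩ := Set.not_subset.mp (fun h => hcon ⟨i, h⟩)
    exact ⟨WithTopology.toTopology _ z, hzU, hzV⟩
  obtain ⟨z, hz⟩ := IsCompact.nonempty_iInter_of_directed_nonempty_isCompact_isClosed _
    hdir' hnon (fun i => (hcl i).isCompact) hcl
  rw [Set.mem_iInter] at hz
  have hzV : z.ofTopology ∈ V := hsub (Set.mem_iInter.mpr fun i => (hz i).1)
  exact (hz (Classical.arbitrary I)).2 hzV

end Groth.Agent.S7540
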