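import Groth.Statements.S7527
import Groth.Agent.S7540
-- import your own Groth.Agent.* helpers here

set_option autoImplicit false
universe u
open SpecSp

namespace Groth.Agent.S7527

/-- Let X be a spectral space and x, y ∈ X. Then either there is a third point specializing to both x
and y, or there are disjoint open neighbourhoods of x and of y. -/
theorem result {X : Type u} [TopologicalSpace X] [SpectralSpace X] (x y : X) :
    (∃ z : X, z ⤳ x ∧ z ⤳ y) ∨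
    (∃ U V : Set X, IsOpen U ∧ IsOpen V ∧ x ∈ U ∧ y ∈ V ∧ Disjoint U V) := by
  classical
  let I := {p : Set X × Set X //
    (IsOpen p.1 ∧ IsCompact p.1 ∧ x ∈ p.1) ∧ (IsOpen p.2 ∧ IsCompact p.2 ∧ y ∈ p.2)}
  have hI : Nonempty I := ⟨⟨(Set.univ, Set.univ), ⟨isOpen_univ, isCompact_univ, trivial⟩,
    ⟨isOpen_univ, isCompact_univ, trivial⟩⟩⟩
  have hU : ∀ i : I, IsOpen (i.1.1 ∩ i.1.2) ∧ IsCompact (i.1.1 ∩ i.1.2) := fun i =>
    ⟨i.2.1.1.inter i.2.2.1,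
      QuasiSeparatedSpace.inter_isCompact _ _ i.2.1.1 i.2.1.2.1 i.2.2.1 i.2.2.2.1⟩
  have hdir : ∀ i j : I, ∃ k : I, k.1.1 ∩ k.1.2 ⊆ (i.1.1 ∩ i.1.2) ∩ (j.1.1 ∩ j.1.2) := by
    intro i j
    refine ⟨⟨(i.1.1 ∩ j.1.1, i.1.2 ∩ j.1.2),
      ⟨i.2.1.1.inter j.2.1.1,
        QuasiSeparatedSpace.inter_isCompact _ _ i.2.1.1 i.2.1.2.1 j.2.1.1 j.2.1.2.1,
        i.2.1.2.2, j.2.1.2.2⟩,
      ⟨i.2.2.1.inter j.2.2.1,
        QuasiSeparatedSpace.inter_isCompact _ _ i.2.2.1 i.2.2.2.1 j.2.2.1 j.2.2.2.1,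
        i.2.2.2.2, j.2.2.2.2⟩⟩, ?_⟩
    rintro z ⟨⟨h1, h2⟩, h3, h4⟩
    exact ⟨⟨h1, h3⟩, h2, h4⟩
  by_cases hne : (⋂ i : I, i.1.1 ∩ i.1.2).Nonempty
  · left
    obtain ⟨z, hz⟩ := hne
    rw [Set.mem_iInter] at hz
    refine ⟨z, ?_, ?_⟩
    · rw [specializes_iff_forall_open]
      intro O hO hxO
      obtain ⟨W, ⟨hWo, hWc⟩, hxW, hWO⟩ :=
        (PrespectralSpace.isTopologicalBasis (X := X)).exists_subset_of_mem_open hxO hO
      exact hWO (hz ⟨(W, Set.univ), ⟨hWo, hWc, hxW⟩, ⟨isOpen_univ, isCompact_univ, trivial⟩⟩).1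
    · rw [specializes_iff_forall_open]
      intro O hO hxO
      obtain ⟨W, ⟨hWo, hWc⟩, hxW, hWO⟩ :=
        (PrespectralSpace.isTopologicalBasis (X := X)).exists_subset_of_mem_open hxO hO
      exact hWO (hz ⟨(Set.univ, W), ⟨isOpen_univ, isCompact_univ, trivial⟩, ⟨hWo, hWc, hxW⟩⟩).2
  · right
    rw [Set.not_nonempty_iff_eq_empty] at hne
    obtain ⟨i, hi⟩ := Groth.Agent.S7540.result (fun i : I => i.1.1 ∩ i.1.2) hU hdir ∅
      isOpen_empty hne.subset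
    exact ⟨i.1.1, i.1.2, i.2.1.1, i.2.2.1, i.2.1.2.2, i.2.2.2.2, Set.disjoint_iff.mpr hi⟩

end Groth.Agent.S7527
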