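import Groth.Statements.S7542
-- import your own Groth.Agent.* helpers here

set_option autoImplicit false
universe u
open ConstrTop

namespace Groth.Agent.S7542

/-- Let X be a topological space such that the quasi-compact opens form a basis for the topology, and
let T ⊆ X be retrocompact in X. Then for any constructible subset E ⊆ X, the intersection E ∩ T is
constructible in T (with the induced topology). -/
theorem result {X : Type u} [TopologicalSpace X] [PrespectralSpace X]
    (T : Set X) (hT : IsRetrocompact T) (E : Set X) (hE : Topology.IsConstructible E) :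
    Topology.IsConstructible ((Subtype.val : T → X) ⁻¹' E) := by
  have hsp : IsSpectralMap (Subtype.val : T → X) :=
    IsRetrocompact_iff_isSpectralMap_subtypeVal.mp hT
  refine hE.preimage continuous_subtype_val ?_
  intro U hUo hUr W hWc hWo
  obtain ⟨W', hW'o, rfl⟩ := isOpen_induced_iff.mp hWo
  obtain ⟨V, hVc, hVo, hKV, hVW⟩ := PrespectralSpace.exists_isCompact_and_isOpen_between
    (hWc.image continuous_subtype_val) hW'o (by
      rintro _ ⟨x, hx, rfl⟩
      exact hx)
  have heq : (Subtype.val : T → X) ⁻¹' W' = (Subtype.val : T → X) ⁻¹' V := by
    ext x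
    exact ⟨fun hx => hKV ⟨x, hx, rfl⟩, fun hx => hVW hx⟩
  rw [heq, ← Set.preimage_inter]
  exact hsp.isCompact_preimage_of_isOpen (hUo.inter hVo) (hUr hVc hVo)

end Groth.Agent.S7542
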