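import Groth.Statements.S7544
-- import your own Groth.Agent.* helpers here

set_option autoImplicit false
universe u
open ConstrTop

namespace Groth.Agent.S7544

/-- Let X be a quasi-compact topological space whose quasi-compact opens form a basis and are closed
under pairwise intersection. Take T ⊆ X to be locally closed, quasi-compact, and with retrocompact
complement. Then T is constructible in X. -/
theorem result {X : Type u} [TopologicalSpace X]
    [CompactSpace X] [PrespectralSpace X] [QuasiSeparatedSpace X]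
    (T : Set X) (hT : IsLocallyClosed T) (hTc : IsCompact T) (hTr : IsRetrocompact Tᶜ) :
    Topology.IsConstructible T := by
  obtain ⟨U, Z, hU, hZ, rfl⟩ := hT
  obtain ⟨V, hVc, hVo, hTV, hVU⟩ :=
    PrespectralSpace.exists_isCompact_and_isOpen_between hTc hU Set.inter_subset_left
  have h1 : IsOpen (V ∩ Zᶜ) := hVo.inter hZ.isOpen_compl
  have h2 : V ∩ Zᶜ = (U ∩ Z)ᶜ ∩ V := by
    ext x
    simp only [Set.mem_inter_iff, Set.mem_compl_iff, not_and]
    constructor
    · rintro ⟨hxV, hxZ⟩; exact ⟨fun _ => hxZ, hxV⟩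
    · rintro ⟨h, hxV⟩; exact ⟨hxV, h (hVU hxV)⟩
  have h3 : IsCompact (V ∩ Zᶜ) := h2 ▸ hTr hVc hVo
  have h4 : U ∩ Z = V \ (V ∩ Zᶜ) := by
    ext x
    constructor
    · intro hx; exact ⟨hTV hx, fun h => h.2 hx.2⟩
    · rintro ⟨hxV, h⟩
      exact ⟨hVU hxV, by_contra fun hz => h ⟨hxV, hz⟩⟩
  rw [h4]
  exact (hVc.isConstructible hVo).sdiff (h3.isConstructible h1)

end Groth.Agent.S7544
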