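import Groth.Statements.S7550
-- import your own Groth.Agent.* helpers here

set_option autoImplicit false
universe u
open PtTop

namespace Groth.Agent.S7550

/-- Let f : X → Y be a continuous and open map of topological spaces, with X Noetherian, every
irreducible closed subset of X having a generic point, and Y Kolmogorov. Then generalizations lift
along f. (Part (1), closed maps are specializing, is a library fact.) -/
theorem result {X Y : Type u} [TopologicalSpace X] [TopologicalSpace Y]
    [TopologicalSpace.NoetherianSpace X] [QuasiSober X] [T0Space Y]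
    (f : X → Y) (hf : Continuous f) (hfo : IsOpenMap f) :
    GeneralizingMap f := by
  intro x y' hy
  have hxA : x ∈ closure (f ⁻¹' {y'}) := by
    rw [mem_closure_iff]
    intro U hU hxU
    have h1 : f x ∈ f '' U := ⟨x, hxU, rfl⟩
    have h2 : y' ∈ f '' U := hy.mem_open (hfo U hU) h1
    obtain ⟨z, hzU, hz⟩ := h2
    exact ⟨z, hzU, hz⟩
  have hPtop : x ∈ closure (f ⁻¹' {y'} ∩ ((⊤ : TopologicalSpace.Closeds X) : Set X)) := by
    simpa using hxA
  obtain ⟨C, hC, hmin⟩ := (wellFounded_lt (α := TopologicalSpace.Closeds X)).has_min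
    {C | x ∈ closure (f ⁻¹' {y'} ∩ (C : Set X))} ⟨⊤, hPtop⟩
  have hC' : x ∈ closure (f ⁻¹' {y'} ∩ (C : Set X)) := hC
  have hmin' : ∀ D : TopologicalSpace.Closeds X, x ∈ closure (f ⁻¹' {y'} ∩ (D : Set X)) →
      D ≤ C → (C : Set X) ⊆ D := by
    intro D hD hle
    by_contra hne
    apply hmin D hD
    refine lt_of_le_of_ne hle ?_
    rintro rfl
    exact hne subset_rfl
  have hCsub : (C : Set X) ⊆ closure (f ⁻¹' {y'} ∩ (C : Set X)) := by
    refine hmin' ⟨closure (f ⁻¹' {y'} ∩ (C : Set X)), isClosed_closure⟩ ?_ ?_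
    · refine closure_mono ?_ hC'
      intro z hz
      exact ⟨hz.1, subset_closure hz⟩
    · exact closure_minimal Set.inter_subset_right C.isClosed
  have hxC : x ∈ (C : Set X) := closure_minimal Set.inter_subset_right C.isClosed hC'
  have hirr : IsIrreducible (C : Set X) := by
    refine ⟨⟨x, hxC⟩, ?_⟩
    rw [isPreirreducible_iff_isClosed_union_isClosed]
    intro Z1 Z2 hZ1 hZ2 hsub
    have hx' : x ∈ closure (f ⁻¹' {y'} ∩ ((C : Set X) ∩ Z1)) ∪
        closure (f ⁻¹' {y'} ∩ ((C : Set X) ∩ Z2)) := by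
      rw [← closure_union]
      refine closure_mono ?_ hC'
      rintro z ⟨hzA, hzC⟩
      rcases hsub hzC with h | h
      · exact Or.inl ⟨hzA, hzC, h⟩
      · exact Or.inr ⟨hzA, hzC, h⟩
    rcases hx' with h | h
    · left
      exact (hmin' ⟨(C : Set X) ∩ Z1, C.isClosed.inter hZ1⟩ h Set.inter_subset_left).trans
        Set.inter_subset_right
    · right
      exact (hmin' ⟨(C : Set X) ∩ Z2, C.isClosed.inter hZ2⟩ h Set.inter_subset_left).trans
        Set.inter_subset_right
  obtain ⟨ξ, hξ⟩ := QuasiSober.sober hirr C.isClosed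
  refine ⟨ξ, ?_, ?_⟩
  · show ξ ⤳ x
    rw [specializes_iff_mem_closure, hξ.def]; exact hxC
  · have hne : (f ⁻¹' {y'} ∩ (C : Set X)).Nonempty := by
      by_contra h
      rw [Set.not_nonempty_iff_eq_empty] at h
      rw [h, closure_empty] at hC'
      exact hC'
    obtain ⟨a, haA, haC⟩ := hne
    have h1 : ξ ⤳ a := by rw [specializes_iff_mem_closure, hξ.def]; exact haC
    have h2 : f ξ ⤳ y' := by
      have := h1.map hf
      rwa [show f a = y' from haA] at this
    have h3 : y' ⤳ f ξ := by
      rw [specializes_iff_mem_closure]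
      have hξC : ξ ∈ closure (f ⁻¹' {y'} ∩ (C : Set X)) := hCsub hξ.mem
      have := image_closure_subset_closure_image hf ⟨ξ, hξC, rfl⟩
      refine closure_mono ?_ this
      rintro _ ⟨z, ⟨hzA, _⟩, rfl⟩
      exact hzA
    exact (h2.antisymm h3).eq

end Groth.Agent.S7550
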