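import Groth.Statements.S7554
-- import your own Groth.Agent.* helpers here

set_option autoImplicit false
universe u
open PtTop

namespace Groth.Agent.S7554

/-- Let X be a topological space with an open covering X = ⋃ U_i and let T ⊆ X. If T ∩ U_i is nowhere
dense in U_i (with the induced topology) for every i, then T is nowhere dense in X. -/
theorem result {X : Type u} [TopologicalSpace X] {ι : Type u}
    (U : ι → Set X) (hU : ∀ i, IsOpen (U i)) (hcov : ⋃ i, U i = Set.univ) (T : Set X)
    (hT : ∀ i, IsNowhereDense ((Subtype.val : U i → X) ⁻¹' T)) :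
    IsNowhereDense T := by
  unfold IsNowhereDense at *
  by_contra hne
  obtain ⟨x, hx⟩ := Set.nonempty_iff_ne_empty.mpr hne
  have hxU : x ∈ ⋃ i, U i := hcov ▸ Set.mem_univ x
  obtain ⟨i, hi⟩ := Set.mem_iUnion.mp hxU
  have hoe : Topology.IsOpenEmbedding (Subtype.val : U i → X) := (hU i).isOpenEmbedding_subtypeVal
  have h1 := hoe.isOpenMap.preimage_closure_eq_closure_preimage hoe.continuous T
  have h2 := hoe.isOpenMap.preimage_interior_eq_interior_preimage hoe.continuous (closure T)
  have h3 := hT i
  rw [← h1, ← h2] at h3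
  have h4 : (⟨x, hi⟩ : U i) ∈ (Subtype.val : U i → X) ⁻¹' interior (closure T) := hx
  rw [h3] at h4
  exact h4

end Groth.Agent.S7554
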