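import Groth.Statements.S7563
-- import your own Groth.Agent.* helpers here

set_option autoImplicit false
universe u
open PtTop

namespace Groth.Agent.S7563

/-- Let X be a topological space and X = X_1 ∪ … ∪ X_n with each X_i irreducible and closed and no X_i
contained in the union of the others. Then the irreducible components of X are precisely the sets
X_1, …, X_n. -/
theorem result {X : Type u} [TopologicalSpace X]
    {n : ℕ} (Z : Fin n → Set X) (hZ : ∀ i, IsIrreducible (Z i) ∧ IsClosed (Z i))
    (hcov : ⋃ i, Z i = Set.univ) (hirr : ∀ i, ¬ Z i ⊆ ⋃ j ∈ ({i}ᶜ : Set (Fin n)), Z j) :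
    irreducibleComponents X = Set.range Z := by
  classical
  have key : ∀ T : Set X, IsIrreducible T → ∃ j, T ⊆ Z j := by
    intro T hT
    have := (isIrreducible_iff_sUnion_isClosed.mp hT) (Finset.univ.image Z) (by
      intro z hz
      simp only [Finset.mem_image, Finset.mem_univ, true_and] at hz
      obtain ⟨i, rfl⟩ := hz
      exact (hZ i).2) (by
      intro x _
      have hx : x ∈ ⋃ i, Z i := hcov ▸ Set.mem_univ x
      obtain ⟨i, hi⟩ := Set.mem_iUnion.mp hx
      exact ⟨Z i, by simp, hi⟩)
    obtain ⟨z, hz, hTz⟩ := this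
    simp only [Finset.mem_image, Finset.mem_univ, true_and] at hz
    obtain ⟨i, rfl⟩ := hz
    exact ⟨i, hTz⟩
  ext T
  constructor
  · intro hT
    obtain ⟨j, hj⟩ := key T hT.1
    exact ⟨j, Set.Subset.antisymm (hT.2 (hZ j).1 hj) hj⟩
  · rintro ⟨i, rfl⟩
    refine ⟨(hZ i).1, fun T hT hle => ?_⟩
    obtain ⟨j, hj⟩ := key T hT
    by_cases hji : j = i
    · subst hji; exact hj
    · exfalso
      apply hirr i
      intro x hx
      exact Set.mem_biUnion (show j ∈ ({i}ᶜ : Set (Fin n)) from hji) (hj (hle hx))

end Groth.Agent.S7563
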