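import Groth.Statements.S7579
-- import your own Groth.Agent.* helpers here

set_option autoImplicit false
universe u
open SpecSp

namespace Groth.Agent.S7579

/-- Let X be a spectral space. Then X with its constructible topology is Hausdorff and totally
disconnected. The published statement also asserts that the constructible topology is quasi-compact;
this row states the Hausdorff and totally disconnected parts. -/
theorem result (X : Type u) [TopologicalSpace X] [SpectralSpace X] :
    T2Space (WithConstructibleTopology X) ∧ TotallyDisconnectedSpace (WithConstructibleTopology X) := by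
  have hclopen : ∀ V : Set X, IsOpen V → IsCompact V →
      IsClopen (WithTopology.ofTopology ⁻¹' V : Set (WithConstructibleTopology X)) := by
    intro V hVo hVc
    constructor
    · rw [← isOpen_compl_iff, WithConstructibleTopology.isOpen_iff]
      have : @IsOpen X (constructibleTopology X) Vᶜ :=
        IsCompact.isOpen_constructibleTopology_of_isClosed (by simpa using hVc) hVo.isClosed_compl
      exact this
    · rw [WithConstructibleTopology.isOpen_iff]
      exact hVc.isOpen_constructibleTopology_of_isOpen hVo
  have hsep : ∀ a b : WithConstructibleTopology X, a ≠ b →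
      ∃ U : Set (WithConstructibleTopology X), IsClopen U ∧ a ∈ U ∧ b ∈ Uᶜ := by
    intro a b hab
    have hne : a.ofTopology ≠ b.ofTopology := fun h => hab (WithTopology.ext h)
    obtain ⟨U, hU, hx⟩ := exists_isOpen_xor_mem hne
    rcases hx with ⟨ha, hb⟩ | ⟨hb, ha⟩
    · obtain ⟨V, ⟨hVo, hVc⟩, haV, hVU⟩ :=
        PrespectralSpace.isTopologicalBasis.exists_subset_of_mem_open ha hU
      exact ⟨_, hclopen V hVo hVc, haV, fun h => hb (hVU h)⟩
    · obtain ⟨V, ⟨hVo, hVc⟩, hbV, hVU⟩ :=
        PrespectralSpace.isTopologicalBasis.exists_subset_of_mem_open hb hU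
      exact ⟨_, (hclopen V hVo hVc).compl, fun h => ha (hVU h), fun h => h hbV⟩
  have key : TotallySeparatedSpace (WithConstructibleTopology X) :=
    totallySeparatedSpace_iff_exists_isClopen.mpr hsep
  refine ⟨⟨fun a b hab => ?_⟩, inferInstance⟩
  obtain ⟨U, hU, ha, hb⟩ := hsep a b hab
  exact ⟨U, Uᶜ, hU.isOpen, hU.compl.isOpen, ha, hb, disjoint_compl_right⟩

end Groth.Agent.S7579
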