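import Groth.Statements.S7580
-- import your own Groth.Agent.* helpers here

set_option autoImplicit false
universe u
open PtTop

namespace Groth.Agent.S7580

/-- Let f : X → Y be a continuous map of topological spaces with f(X) dense in Y and Y Hausdorff. Then
the cardinality of Y is at most that of the double power set of X. -/
theorem result {X Y : Type u} [TopologicalSpace X] [TopologicalSpace Y] [T2Space Y]
    (f : X → Y) (hf : Continuous f) (hd : DenseRange f) :
    Cardinal.mk Y ≤ (2 : Cardinal.{u}) ^ ((2 : Cardinal.{u}) ^ Cardinal.mk X) := by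
  have hinj : Function.Injective (fun y : Y => {A : Set X | y ∈ closure (f '' A)}) := by
    intro y y' h
    by_contra hne
    obtain ⟨U, V, hU, hV, hyU, hyV, hUV⟩ := t2_separation hne
    have h1 : y ∈ closure (f '' (f ⁻¹' U)) := by
      rw [Set.image_preimage_eq_inter_range]
      exact (Dense.open_subset_closure_inter hd hU) hyU
    have h2 : f ⁻¹' U ∈ {A : Set X | y' ∈ closure (f '' A)} := by
      have h' : {A : Set X | y ∈ closure (f '' A)} = {A : Set X | y' ∈ closure (f '' A)} := h
      rw [← h']
      exact h1
    have h3 : y' ∈ closure (f '' (f ⁻¹' U)) := h2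
    rw [mem_closure_iff] at h3
    obtain ⟨z, hzV, x, hxU, rfl⟩ := h3 V hV hyV
    exact Set.disjoint_left.mp hUV hxU hzV
  have := Cardinal.mk_le_of_injective hinj
  simpa [Cardinal.mk_set] using this

end Groth.Agent.S7580
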