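import Groth.Statements.S7584
-- import your own Groth.Agent.* helpers here

set_option autoImplicit false
universe u
open PtTop

namespace Groth.Agent.S7584

/-- Let X be a quasi-compact topological space in which each connected component equals the intersection
of all clopen sets that contain it. Then π₀(X), the set of connected components with the quotient
topology, is Hausdorff. The published statement concludes that π₀(X) is profinite; this row records
the Hausdorff property, quasi-compactness and total disconnectedness of the quotient being
automatic. -/
theorem result (X : Type u) [TopologicalSpace X] [CompactSpace X]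
    (h : ∀ x : X, connectedComponent x = ⋂₀ {Z : Set X | IsClopen Z ∧ x ∈ Z}) :
    T2Space (ConnectedComponents X) := by
  refine ⟨?_⟩
  intro a b hab
  obtain ⟨x, rfl⟩ := ConnectedComponents.surjective_coe a
  obtain ⟨y, rfl⟩ := ConnectedComponents.surjective_coe b
  have hy : y ∉ connectedComponent x := by
    intro hy
    apply hab
    exact (ConnectedComponents.coe_eq_coe'.mpr hy).symm
  rw [h x] at hy
  simp only [Set.mem_sInter, Set.mem_setOf_eq, not_forall] at hy
  obtain ⟨Z, ⟨hZ, hxZ⟩, hyZ⟩ := hy
  have key : ∀ W : Set X, IsClopen W →
      IsOpen ((fun t : X => (t : ConnectedComponents X)) '' W) := by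
    intro W hW
    rw [← ConnectedComponents.isQuotientMap_coe.isOpen_preimage]
    have := connectedComponents_preimage_image W
    rw [hW.biUnion_connectedComponent_eq] at this
    rw [this]
    exact hW.isOpen
  refine ⟨_, _, key Z hZ, key Zᶜ hZ.compl, ⟨x, hxZ, rfl⟩, ⟨y, hyZ, rfl⟩, ?_⟩
  rw [Set.disjoint_left]
  rintro _ ⟨s, hs, rfl⟩ ⟨t, ht, hst⟩
  have h1 : t ∈ connectedComponent s := ConnectedComponents.coe_eq_coe'.mp hst
  exact ht (hZ.connectedComponent_subset hs h1)

end Groth.Agent.S7584
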