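import Groth.Statements.S8346
import Groth.Agent.S8344
-- import your own Groth.Agent.* helpers here

set_option autoImplicit false
universe u
open ConstrTop

namespace Groth.Agent.S8346

open TopologicalSpace in
/-- Let X be a topological space admitting a basis of open subsets which are retrocompact in X. Then
every locally constructible subset T of X is retrocompact in X. -/
theorem result {X : Type u} [TopologicalSpace X]
    {B : Set (Set X)} (hB : IsTopologicalBasis B) (hBr : ∀ U ∈ B, IsRetrocompact U) {T : Set X}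
    (hT : Topology.IsLocallyConstructible T) : IsRetrocompact T := by
  intro W hWc hWo
  have key : ∀ x ∈ W, ∃ V ∈ B, x ∈ V ∧ IsCompact (T ∩ (V ∩ W)) := by
    intro x hx
    obtain ⟨U, hUx, hUo, hUc⟩ := hT x
    obtain ⟨V, hVB, hxV, hVU⟩ := hB.exists_subset_of_mem_open (mem_of_mem_nhds hUx) hUo
    refine ⟨V, hVB, hxV, ?_⟩
    have hK : IsCompact (V ∩ W) := hBr V hVB hWc hWo
    have hKo : IsOpen (V ∩ W) := (hB.isOpen hVB).inter hWo
    have hr : IsRetrocompact (Subtype.val ⁻¹' T : Set U) := Groth.Agent.S8344.result hUc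
    have hK' : IsCompact (Subtype.val ⁻¹' (V ∩ W) : Set U) := by
      rw [Subtype.isCompact_iff, Subtype.image_preimage_coe]
      rwa [Set.inter_eq_right.mpr (Set.inter_subset_left.trans hVU)]
    have h1 := hr hK' (hKo.preimage continuous_subtype_val)
    have h2 := h1.image continuous_subtype_val
    rw [← Set.preimage_inter, Subtype.image_preimage_coe] at h2
    convert h2 using 1
    ext z
    constructor
    · intro hz; exact ⟨hVU hz.2.1, hz⟩
    · intro hz; exact hz.2
  choose! V hVB hxV hVc using key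
  obtain ⟨F, hF, hcov⟩ := hWc.elim_nhds_subcover V
    (fun x hx => (hB.isOpen (hVB x hx)).mem_nhds (hxV x hx))
  have heq : T ∩ W = ⋃ x ∈ F, T ∩ (V x ∩ W) := by
    ext z
    simp only [Set.mem_inter_iff, Set.mem_iUnion, exists_prop]
    constructor
    · rintro ⟨hzT, hzW⟩
      obtain ⟨x, hxF, hzx⟩ := Set.mem_iUnion₂.mp (hcov hzW)
      exact ⟨x, hxF, hzT, hzx, hzW⟩
    · rintro ⟨x, _, hzT, _, hzW⟩; exact ⟨hzT, hzW⟩
  rw [heq]
  exact F.isCompact_biUnion fun x hx => hVc x (hF x hx)

end Groth.Agent.S8346
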