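import Groth.Statements.S8926
-- import your own Groth.Agent.* helpers here

set_option autoImplicit false
universe u
open InjHull

namespace Groth.Agent.S8926

/-- Suppose R → S is an epimorphism of rings and E is an S-module whose underlying R-module (via
restriction of scalars) is injective; then E is injective as an S-module as well. -/
theorem result (R S : Type u) [CommRing R] [CommRing S] [Algebra R S] [Algebra.IsEpi R S] (E : Type u) [AddCommGroup E] [Module S E] [Module R E] [IsScalarTower R S E] [Module.Injective R E] : Module.Injective S E := by
  constructor
  intro X Y _ _ _ _ f hf g
  letI : Module R X := Module.compHom X (algebraMap R S)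
  letI : Module R Y := Module.compHom Y (algebraMap R S)
  haveI : IsScalarTower R S X := IsScalarTower.of_algebraMap_smul fun r x => rfl
  haveI : IsScalarTower R S Y := IsScalarTower.of_algebraMap_smul fun r x => rfl
  obtain ⟨h, hh⟩ := Module.Injective.out (f.restrictScalars R) hf (g.restrictScalars R)
  have key : ∀ (s : S) (y : Y), h (s • y) = s • h y := by
    intro s y
    have e : (1 : S) ⊗ₜ[R] (s • y) = s ⊗ₜ[R] y := by
      apply (TensorProduct.lid' R S Y).injective
      simp
    have := congrArg (h.liftBaseChange S) e
    simpa using this
  exact ⟨{ toFun := h, map_add' := h.map_add, map_smul' := key }, hh⟩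

end Groth.Agent.S8926
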