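import Groth.Statements.S8927
import Mathlib.RingTheory.Flat.TorsionFree
-- import your own Groth.Agent.* helpers here

set_option autoImplicit false
universe u
open Disc

namespace Groth.Agent.S8927

/-- For a map A → B of Noetherian rings such that the localization B_q is flat over A for every
associated prime q of B, every nonzerodivisor of A maps to a nonzerodivisor of B. -/
theorem result (A B : Type u) [CommRing A] [CommRing B] [IsNoetherianRing A] [IsNoetherianRing B] [Algebra A B] (h3 : ∀ (q : Ideal B) [q.IsPrime], IsAssociatedPrime q B → Module.Flat A (Localization.AtPrime q)) : nonZeroDivisors A ≤ (nonZeroDivisors B).comap (algebraMap A B) := by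
  intro a ha
  rw [Submonoid.mem_comap]
  by_contra hnz
  have hmem : algebraMap A B a ∈ ((nonZeroDivisors B : Set B))ᶜ := hnz
  rw [← biUnion_associatedPrimes_eq_compl_nonZeroDivisors] at hmem
  simp only [Set.mem_iUnion] at hmem
  obtain ⟨q, hq, haq⟩ := hmem
  have hq' : IsAssociatedPrime q B := hq
  have hqp : q.IsPrime := hq'.isPrime
  obtain ⟨_, b, hb⟩ := (isAssociatedPrime_iff).mp hq'
  have hfl := h3 q hq'
  have hreg : IsSMulRegular (Localization.AtPrime q) a :=
    Module.Flat.isSMulRegular_of_nonZeroDivisors ha
  have hab : algebraMap A B a * b = 0 := by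
    have : algebraMap A B a ∈ Submodule.colon (⊥ : Submodule B B) {b} := hb ▸ haq
    simpa [Submodule.mem_colon_singleton] using this
  have h0 : a • (algebraMap B (Localization.AtPrime q) b) = a • (0 : Localization.AtPrime q) := by
    rw [smul_zero, Algebra.smul_def, IsScalarTower.algebraMap_apply A B (Localization.AtPrime q),
      ← map_mul, hab, map_zero]
  have hb0 : algebraMap B (Localization.AtPrime q) b = 0 := hreg h0
  rw [IsLocalization.map_eq_zero_iff q.primeCompl] at hb0
  obtain ⟨⟨s, hsq⟩, hs⟩ := hb0
  apply hsq
  have hs' : s ∈ Submodule.colon (⊥ : Submodule B B) {b} := by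
    rw [Submodule.mem_colon_singleton]
    simpa using hs
  have hs'' : s ∈ q := by
    rw [hb]
    exact hs'
  exact hs''

end Groth.Agent.S8927
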