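import Groth.Statements.S9038
-- import your own Groth.Agent.* helpers here

set_option autoImplicit false
universe u
open Topology
open CohTop

namespace Groth.Agent.S9038

/-- In the category of Hausdorff locally quasi-compact spaces, call a family of continuous maps f_i :
X_i → X a qc covering when every point of X has a neighbourhood of the form ⋃_{i ∈ t} f_i(E_i) with
t a finite set of indices and E_i ⊆ X_i quasi-compact. If (f_i : X_i → X) is a qc covering and for
each i the family (g_{ij} : X_{ij} → X_i)_j is a qc covering, then the family of composites X_{ij} →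
X, indexed by the pairs (i, j), is a qc covering. -/
theorem result
    {B : Type u} [TopologicalSpace B] [T2Space B] [LocallyCompactSpace B]
    {ι : Type u} {X : ι → Type u} [∀ i, TopologicalSpace (X i)] [∀ i, T2Space (X i)]
    [∀ i, LocallyCompactSpace (X i)]
    (f : ∀ i, X i → B) (hf : ∀ i, Continuous (f i))
    (hcov : ∀ x : B, ∃ (t : Finset ι) (E : ∀ i, Set (X i)),
      (∀ i ∈ t, IsCompact (E i)) ∧ (⋃ i ∈ t, f i '' E i) ∈ 𝓝 x)
    {κ : ι → Type u} {Y : ∀ i, κ i → Type u} [∀ i j, TopologicalSpace (Y i j)] [∀ i j, T2Space (Y i j)]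
    [∀ i j, LocallyCompactSpace (Y i j)]
    (g : ∀ i j, Y i j → X i) (hg : ∀ i j, Continuous (g i j))
    (hcov' : ∀ (i : ι) (x : X i), ∃ (t : Finset (κ i)) (E : ∀ j, Set (Y i j)),
      (∀ j ∈ t, IsCompact (E j)) ∧ (⋃ j ∈ t, g i j '' E j) ∈ 𝓝 x) :
    ∀ x : B, ∃ (t : Finset (Σ i, κ i)) (E : ∀ p : (Σ i, κ i), Set (Y p.1 p.2)),
      (∀ p ∈ t, IsCompact (E p)) ∧ (⋃ p ∈ t, f p.1 '' (g p.1 p.2 '' E p)) ∈ 𝓝 x := by
  classical
  intro x
  obtain ⟨t, E, hE, hn⟩ := hcov x
  choose T E' hE' hn' using hcov'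
  have hF : ∀ i, ∃ F : Finset (X i), i ∈ t →
      E i ⊆ ⋃ e ∈ F, ⋃ j ∈ T i e, g i j '' E' i e j := by
    intro i
    by_cases hi : i ∈ t
    · obtain ⟨F, _, hF⟩ := (hE i hi).elim_nhds_subcover
        (fun e => ⋃ j ∈ T i e, g i j '' E' i e j) (fun e _ => hn' i e)
      exact ⟨F, fun _ => hF⟩
    · exact ⟨∅, fun h => absurd h hi⟩
  choose F hF using hF
  refine ⟨t.sigma (fun i => (F i).biUnion (T i)),
    fun p => ⋃ e ∈ (F p.1).filter (fun e => p.2 ∈ T p.1 e), E' p.1 e p.2, ?_, ?_⟩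
  · intro p _
    exact Finset.isCompact_biUnion _ (fun e he => hE' _ e _ (Finset.mem_filter.mp he).2)
  · refine Filter.mem_of_superset hn ?_
    intro b hb
    simp only [Set.mem_iUnion] at hb
    obtain ⟨i, hi, e0, he0, rfl⟩ := hb
    have := hF i hi he0
    simp only [Set.mem_iUnion] at this
    obtain ⟨e, heF, j, hj, y, hy, rfl⟩ := this
    simp only [Set.mem_iUnion]
    refine ⟨⟨i, j⟩, ?_, ?_⟩
    · simp only [Finset.mem_sigma, Finset.mem_biUnion]
      exact ⟨hi, e, heF, hj⟩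
    · refine ⟨g i j y, ⟨y, ?_, rfl⟩, rfl⟩
      simp only [Set.mem_iUnion]
      exact ⟨e, Finset.mem_filter.mpr ⟨heF, hj⟩, hy⟩

end Groth.Agent.S9038
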