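import Groth.Statements.S9040
-- import your own Groth.Agent.* helpers here

set_option autoImplicit false
universe u
open Topology
open CohTop

namespace Groth.Agent.S9040

/-- Let X be a Hausdorff locally quasi-compact space, Y a Hausdorff space and f : X → Y a proper
surjective continuous map. Then {f : X → Y} is a qc covering: every point of Y has a neighbourhood
f(E) with E ⊆ X quasi-compact. (The published statement also assumes Y locally quasi-compact, in
which case the claim is immediate from properness; the published proof does not use that assumption,
and the row is stated without it, so that it shows in particular that Y is locally quasi-compact.) -/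
theorem result
    {X Y : Type u} [TopologicalSpace X] [T2Space X] [LocallyCompactSpace X] [TopologicalSpace Y] [T2Space Y]
    (f : X → Y) (hf : IsProperMap f) (hsurj : Function.Surjective f) (y : Y) :
    ∃ E : Set X, IsCompact E ∧ f '' E ∈ 𝓝 y := by
  obtain ⟨K, hK, hKsub⟩ := exists_compact_superset
    (hf.isCompact_preimage isCompact_singleton : IsCompact (f ⁻¹' {y}))
  refine ⟨K, hK, ?_⟩
  have hcl : IsClosed (f '' (interior K)ᶜ) := hf.isClosedMap _ isOpen_interior.isClosed_compl
  refine Filter.mem_of_superset (hcl.isOpen_compl.mem_nhds ?_) ?_
  · rintro ⟨x, hx, hxy⟩
    exact hx (hKsub hxy)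
  · intro z hz
    obtain ⟨x, rfl⟩ := hsurj z
    exact ⟨x, interior_subset (by_contra fun hx => hz ⟨x, hx, rfl⟩), rfl⟩

end Groth.Agent.S9040
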