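import Groth.Statements.S9283
import Mathlib
-- import your own Groth.Agent.* helpers here

set_option autoImplicit false
universe u
open CAlg

namespace Groth.Agent.S9283

/-- Let R be an auto-associated ring, that is, a local ring whose maximal ideal is weakly associated to
R: some nonzero x ∈ R is killed by a power of every element of the maximal ideal. Then every proper
finitely generated ideal of R has a nonzero annihilator. -/
theorem result (R : Type u) [CommRing R] [IsLocalRing R]
    (h : ∃ x : R, x ≠ 0 ∧ ∀ f ∈ IsLocalRing.maximalIdeal R, ∃ n : ℕ, f ^ n * x = 0)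
    (I : Ideal R) (hI : I.FG) (hI' : I ≠ ⊤) : I.annihilator ≠ ⊥ := by
  classical
  obtain ⟨s, rfl⟩ := hI
  have hsm : ∀ f ∈ s, f ∈ IsLocalRing.maximalIdeal R := by
    intro f hf
    exact IsLocalRing.le_maximalIdeal hI' (Ideal.subset_span hf)
  have key : ∀ t : Finset R, (∀ f ∈ t, f ∈ IsLocalRing.maximalIdeal R) → ∃ y : R, y ≠ 0 ∧ (∀ f ∈ IsLocalRing.maximalIdeal R, ∃ n : ℕ, f ^ n * y = 0) ∧ ∀ f ∈ t, f * y = 0 := by
    intro t
    induction t using Finset.induction_on with
    | empty =>
      intro _
      obtain ⟨x, hx, hx'⟩ := h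
      exact ⟨x, hx, hx', by simp⟩
    | insert a t _ ih =>
      intro ht
      obtain ⟨y, hy, hy', hy''⟩ := ih (fun f hf => ht f (Finset.mem_insert_of_mem hf))
      have hex := hy' a (ht a (Finset.mem_insert_self a t))
      have hn0 : Nat.find hex ≠ 0 := by
        intro h0
        have h1 := Nat.find_spec hex
        rw [h0] at h1
        exact hy (by simpa using h1)
      refine ⟨a ^ (Nat.find hex - 1) * y, Nat.find_min hex (Nat.sub_one_lt hn0), ?_, ?_⟩
      · intro f hf
        obtain ⟨n, hn⟩ := hy' f hf
        exact ⟨n, by rw [mul_left_comm, hn, mul_zero]⟩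
      · intro f hf
        rcases Finset.mem_insert.mp hf with hfa | hf
        · rw [hfa, ← mul_assoc, ← pow_succ', Nat.sub_add_cancel (Nat.one_le_iff_ne_zero.mpr hn0)]
          exact Nat.find_spec hex
        · rw [mul_left_comm, hy'' f hf, mul_zero]
  obtain ⟨y, hy, _, hy''⟩ := key s hsm
  intro hbot
  apply hy
  have h5 : y ∈ (Ideal.span (s : Set R)).annihilator := by
    rw [Submodule.mem_annihilator_span]
    rintro ⟨f, hf⟩
    simp only [smul_eq_mul]
    rw [mul_comm]; exact hy'' f hf
  rw [hbot] at h5
  exact h5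

end Groth.Agent.S9283
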