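import Groth.Statements.S9300
import Mathlib
-- import your own Groth.Agent.* helpers here

set_option autoImplicit false
universe u
open CAlg

namespace Groth.Agent.S9300

/-- Let A and B be domains and A → B a ring map for which the generic point of Spec(A) has a unique
preimage in Spec(B). Then every nonzero ideal of B has nonzero preimage in A. -/
theorem result (A B : Type u) [CommRing A] [IsDomain A]
    [CommRing B] [IsDomain B] (φ : A →+* B)
    (h : ∃! q : PrimeSpectrum B, Ideal.comap φ q.asIdeal = ⊥) (J : Ideal B) (hJ : J ≠ ⊥) :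
    Ideal.comap φ J ≠ ⊥ := by
  intro hcon
  obtain ⟨q, hq, huniq⟩ := h
  have hinj : ∀ a, φ a = 0 → a = 0 := by
    intro a ha
    have h1 : a ∈ Ideal.comap φ q.asIdeal := by rw [Ideal.mem_comap, ha]; exact q.asIdeal.zero_mem
    rw [hq] at h1; exact h1
  have hbot : Ideal.comap φ (⊥ : Ideal B) = ⊥ := by
    rw [eq_bot_iff]; intro a ha
    exact hinj a ha
  have hdisj : Disjoint (J : Set B) ((Submonoid.map φ (nonZeroDivisors A) : Submonoid B) : Set B) := by
    rw [Set.disjoint_left]
    rintro _ hb ⟨a, ha, rfl⟩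
    have h1 : a ∈ Ideal.comap φ J := hb
    rw [hcon] at h1
    exact nonZeroDivisors.ne_zero ha h1
  obtain ⟨P, hP, hJP, hPd⟩ := Ideal.exists_le_prime_disjoint J _ hdisj
  have hPc : Ideal.comap φ P = ⊥ := by
    rw [eq_bot_iff]; intro a ha
    by_contra hne
    exact Set.disjoint_left.mp hPd ha ⟨a, mem_nonZeroDivisors_of_ne_zero hne, rfl⟩
  have e1 := huniq ⟨P, hP⟩ hPc
  have e2 := huniq ⟨⊥, Ideal.isPrime_bot⟩ hbot
  have h3 : P = ⊥ := by
    have h4 := e1.trans e2.symm
    exact congrArg PrimeSpectrum.asIdeal h4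
  exact hJ (eq_bot_iff.mpr (h3 ▸ hJP))

end Groth.Agent.S9300
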