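import Groth.Statements.S9582
import Mathlib
-- import your own Groth.Agent.* helpers here

set_option autoImplicit false
universe u
open CAlg

namespace Groth.Agent.S9582

/-- For a reduced ring R, the primes weakly associated to the R-module R (primes minimal over the
annihilator of some element) are exactly the minimal primes of R. -/
theorem result {R : Type u} [CommRing R] [IsReduced R] :
    FlatCA.weakAss R R = minimalPrimes R := by
  ext q
  constructor
  · rintro ⟨x, hq⟩
    have hqp' := hq.1.1
    have hann : ∀ r, r ∈ (Submodule.span R {x}).annihilator ↔ r * x = 0 := by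
      intro r; rw [Submodule.mem_annihilator_span_singleton, smul_eq_mul]
    have hS : Disjoint ((⊥ : Ideal R) : Set R) ((q.primeCompl ⊔ Submonoid.powers x : Submonoid R) : Set R) := by
      rw [Set.disjoint_left]
      intro a ha haS
      have ha0 : a = 0 := ha
      obtain ⟨s, hs, t, ⟨n, rfl⟩, hst⟩ := Submonoid.mem_sup.mp haS
      have h1 : s * x ^ n = 0 := by rw [← ha0]; exact hst
      have h2 : (s * x) ^ (n + 1) = s ^ n * x * (s * x ^ n) := by ring
      rw [h1, mul_zero] at h2
      have h3 : s * x = 0 := IsNilpotent.eq_zero ⟨n + 1, h2⟩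
      exact hs (hq.1.2 ((hann s).mpr h3))
    obtain ⟨p, hp, _, hdisj⟩ := Ideal.exists_le_prime_disjoint ⊥ _ hS
    have hpq : p ≤ q := by
      intro a ha; by_contra haq
      exact Set.disjoint_left.mp hdisj ha (Submonoid.mem_sup_left haq)
    have hxp : x ∉ p := fun hxp => Set.disjoint_left.mp hdisj hxp (Submonoid.mem_sup_right (Submonoid.mem_powers x))
    have hannp : (Submodule.span R {x}).annihilator ≤ p := by
      intro r hr; rw [hann] at hr
      exact (hp.mem_or_mem (hr ▸ p.zero_mem)).resolve_right hxp
    have hqp : q ≤ p := hq.2 ⟨hp, hannp⟩ hpq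
    have hxq : x ∉ q := fun h => hxp (hqp h)
    refine ⟨⟨hq.1.1, bot_le⟩, ?_⟩
    rintro p' ⟨hp', _⟩ hp'q
    apply hq.2 ⟨hp', ?_⟩ hp'q
    intro r hr; rw [hann] at hr
    exact (hp'.mem_or_mem (hr ▸ p'.zero_mem)).resolve_right (fun h => hxq (hp'q h))
  · intro hq
    refine ⟨1, ?_⟩
    have h1 : (Submodule.span R {(1:R)}).annihilator = ⊥ := by
      rw [eq_bot_iff]; intro r hr
      rw [Submodule.mem_annihilator_span_singleton] at hr
      simpa using hr
    rw [h1]; exact hq

end Groth.Agent.S9582
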