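import Groth.Statements.S9584
import Mathlib
-- import your own Groth.Agent.* helpers here

set_option autoImplicit false
universe u
open CAlg

namespace Groth.Agent.S9584

/-- For a ring R and an R-module M, M has no weakly associated prime (no prime minimal over the
annihilator of an element) if and only if M = 0. -/
theorem result {R : Type u} [CommRing R] (M : Type u) [AddCommGroup M] [Module R M] :
    FlatCA.weakAss R M = ∅ ↔ Subsingleton M := by
  constructor
  · intro h
    by_contra hM
    rw [not_subsingleton_iff_nontrivial] at hM
    obtain ⟨m, hm⟩ := exists_ne (0 : M)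
    have hne : (Submodule.span R {m}).annihilator ≠ ⊤ := by
      intro htop
      have h1 : (1 : R) ∈ (Submodule.span R {m}).annihilator := htop ▸ Submodule.mem_top
      rw [Submodule.mem_annihilator_span_singleton] at h1
      exact hm (by simpa using h1)
    obtain ⟨⟨p, hp⟩⟩ := Ideal.nonempty_minimalPrimes hne
    have h2 : p ∈ FlatCA.weakAss R M := ⟨m, hp⟩
    rw [h] at h2
    exact h2
  · intro h
    ext p
    simp only [Set.mem_empty_iff_false, iff_false]
    rintro ⟨m, hp⟩
    have h1 : (Submodule.span R {m}).annihilator = ⊤ := by
      rw [eq_top_iff]; intro r _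
      rw [Submodule.mem_annihilator_span_singleton]
      exact Subsingleton.elim _ _
    rw [h1] at hp
    exact hp.1.1.ne_top (top_le_iff.mp hp.1.2)

end Groth.Agent.S9584
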