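import Groth.Statements.S9585
import Mathlib
-- import your own Groth.Agent.* helpers here

set_option autoImplicit false
universe u
open CAlg

namespace Groth.Agent.S9585

/-- For a ring R and an R-module M, an element of R lies in some weakly associated prime of M exactly
when multiplication by it on M is not injective; in other words the union of the weakly associated
primes of M equals the set of zerodivisors on M. -/
theorem result {R : Type u} [CommRing R] (M : Type u) [AddCommGroup M] [Module R M] :
    ⋃ q ∈ FlatCA.weakAss R M, (q : Set R) = {f : R | ¬ IsSMulRegular M f} := by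
  ext f
  simp only [Set.mem_iUnion, Set.mem_setOf_eq, SetLike.mem_coe]
  constructor
  · rintro ⟨q, ⟨m, hq⟩, hf⟩ hreg
    obtain ⟨y, hy, hxy⟩ := Ideal.exists_mul_mem_of_mem_minimalPrimes hq hf
    rw [Submodule.mem_annihilator_span_singleton] at hy hxy
    apply hy
    apply hreg
    simp only [smul_zero]
    rw [← mul_smul]; exact hxy
  · intro hreg
    rw [isSMulRegular_iff_right_eq_zero_of_smul] at hreg
    simp only [not_forall] at hreg
    obtain ⟨m, hfm, hm⟩ := hreg
    have hne : (Submodule.span R {m}).annihilator ≠ ⊤ := by
      intro htop
      have h1 : (1 : R) ∈ (Submodule.span R {m}).annihilator := htop ▸ Submodule.mem_top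
      rw [Submodule.mem_annihilator_span_singleton] at h1
      exact hm (by simpa using h1)
    obtain ⟨⟨p, hp⟩⟩ := Ideal.nonempty_minimalPrimes hne
    exact ⟨p, ⟨m, hp⟩, hp.1.2 (by rw [Submodule.mem_annihilator_span_singleton]; exact hfm)⟩

end Groth.Agent.S9585
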