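import Groth.Statements.S9591
import Mathlib
-- import your own Groth.Agent.* helpers here

set_option autoImplicit false
universe u
open CAlg

namespace Groth.Agent.S9591

/-- For a ring R and an R-module M, the map from M to the product of the localizations M_p over all
primes p weakly associated to M is injective: an element vanishing in every such M_p is zero. -/
theorem result {R : Type u} [CommRing R] {M : Type u} [AddCommGroup M] [Module R M] (x : M) (hx : ∀ (p : Ideal R) [p.IsPrime], p ∈ FlatCA.weakAss R M → LocalizedModule.mkLinearMap p.primeCompl M x = 0) :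
    x = 0 := by
  by_contra hne
  have hne' : (Submodule.span R {x}).annihilator ≠ ⊤ := by
    intro htop
    have h1 : (1 : R) ∈ (Submodule.span R {x}).annihilator := htop ▸ Submodule.mem_top
    rw [Submodule.mem_annihilator_span_singleton] at h1
    exact hne (by simpa using h1)
  obtain ⟨⟨p, hp⟩⟩ := Ideal.nonempty_minimalPrimes hne'
  have := hp.1.1
  have h0 := hx p ⟨x, hp⟩
  obtain ⟨c, hc⟩ := (IsLocalizedModule.eq_zero_iff p.primeCompl (LocalizedModule.mkLinearMap p.primeCompl M)).mp h0
  exact c.2 (hp.1.2 (by rw [Submodule.mem_annihilator_span_singleton]; exact hc))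

end Groth.Agent.S9591
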