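import Groth.Statements.S9596
import Mathlib
-- import your own Groth.Agent.* helpers here

set_option autoImplicit false
universe u
open CAlg

namespace Groth.Agent.S9596

/-- For a Noetherian ring R and any R-module M, a prime which is minimal among the primes in the support
of M is an associated prime of M. -/
theorem result {R : Type u} [CommRing R] [IsNoetherianRing R] (M : Type u) [AddCommGroup M] [Module R M] (p : PrimeSpectrum R) (hp : Minimal (fun q : PrimeSpectrum R => q ∈ Module.support R M) p) :
    p.asIdeal ∈ associatedPrimes R M := by
  obtain ⟨hpS, hmin⟩ := hp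
  obtain ⟨m, hm⟩ := Module.mem_support_iff_exists_annihilator.mp hpS
  have hmem : p.asIdeal ∈ (Module.annihilator R (Submodule.span R {m})).minimalPrimes := by
    refine ⟨⟨p.isPrime, hm⟩, ?_⟩
    rintro q ⟨hq, hmq⟩ hqp
    have h1 : (⟨q, hq⟩ : PrimeSpectrum R) ∈ Module.support R M :=
      Module.mem_support_iff_exists_annihilator.mpr ⟨m, hmq⟩
    exact hmin h1 hqp
  have h1 := Module.associatedPrimes.minimalPrimes_annihilator_subset_associatedPrimes R (Submodule.span R {m}) hmem
  exact associatedPrimes.subset_of_injective (f := (Submodule.span R {m}).subtype) Subtype.val_injective h1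

end Groth.Agent.S9596
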