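import Groth.Statements.S9612
import Mathlib
-- import your own Groth.Agent.* helpers here

set_option autoImplicit false
universe u
open CAlg

namespace Groth.Agent.S9612

theorem int_jac : IsJacobsonRing ℤ := by
  rw [isJacobsonRing_iff_prime_eq]
  intro P hP
  by_cases h : P = ⊥
  · subst h
    rw [eq_bot_iff]
    intro x hx
    rw [Ideal.mem_jacobson_bot] at hx
    have := hx (3 * x)
    rw [Int.isUnit_iff] at this
    simp only [Ideal.mem_bot]
    rcases this with h | h
    · have : x * x = 0 := by linarith
      exact mul_self_eq_zero.mp this
    · exfalso; nlinarith [mul_self_nonneg x]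
  · have := hP.isMaximal h
    exact Ideal.jacobson_eq_self_of_isMaximal

/-- A finite type ℤ-algebra is a Jacobson ring. -/
theorem result {S : Type u} [CommRing S] [Algebra.FiniteType ℤ S] :
    IsJacobsonRing S := by
  have := int_jac
  exact isJacobsonRing_of_finiteType (A := ℤ)

end Groth.Agent.S9612
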