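import Groth.Statements.S9619
import Mathlib
-- import your own Groth.Agent.* helpers here

set_option autoImplicit false
universe u
open CAlg

namespace Groth.Agent.S9619

/-- For a ring R and two sets E, E' of idempotent elements of R with the same zero locus in Spec R, the
ideals generated by E and by E' are equal. -/
theorem result {R : Type u} [CommRing R] (E E' : Set R) (hE : ∀ e ∈ E, IsIdempotentElem e) (hE' : ∀ e ∈ E', IsIdempotentElem e) (h : PrimeSpectrum.zeroLocus E = PrimeSpectrum.zeroLocus E') :
    Ideal.span E = Ideal.span E' := by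
  have key : ∀ (E E' : Set R), (∀ e ∈ E, IsIdempotentElem e) → PrimeSpectrum.zeroLocus E = PrimeSpectrum.zeroLocus E' → Ideal.span E ≤ Ideal.span E' := by
    intro E E' hE h
    rw [Ideal.span_le]
    intro e he
    have h1 : e ∈ (Ideal.span E').radical := by
      rw [← PrimeSpectrum.vanishingIdeal_zeroLocus_eq_radical, PrimeSpectrum.zeroLocus_span, ← h, ← PrimeSpectrum.zeroLocus_span, PrimeSpectrum.vanishingIdeal_zeroLocus_eq_radical]
      exact Ideal.le_radical (Ideal.subset_span he)
    obtain ⟨n, hn⟩ := h1
    rcases Nat.eq_zero_or_pos n with rfl | hpos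
    · have h2 : (1:R) ∈ Ideal.span E' := by simpa using hn
      rw [(Ideal.eq_top_iff_one _).mpr h2]; trivial
    · obtain ⟨k, rfl⟩ := Nat.exists_eq_succ_of_ne_zero hpos.ne'
      rw [Nat.succ_eq_add_one, (hE e he).pow_succ_eq] at hn
      exact hn
  exact le_antisymm (key E E' hE h) (key E' E hE' h.symm)

end Groth.Agent.S9619
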