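import Groth.Statements.S9631
import Mathlib
-- import your own Groth.Agent.* helpers here

set_option autoImplicit false
universe u
open CAlg

namespace Groth.Agent.S9631

/-- For a ring map φ : R → S the following are equivalent: (1) the induced map Spec(S) → Spec(R) is
surjective; (2) every ideal I of R satisfies φ⁻¹(√(IS)) = √I; (3) every radical ideal I of R
satisfies φ⁻¹(IS) = I; (4) every prime ideal p of R satisfies φ⁻¹(pS) = p. -/
theorem result {R S : Type u} [CommRing R] [CommRing S] (φ : R →+* S) :
    [Function.Surjective (PrimeSpectrum.comap φ),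
      ∀ I : Ideal R, ((I.map φ).radical).comap φ = I.radical,
      ∀ I : Ideal R, I.IsRadical → (I.map φ).comap φ = I,
      ∀ p : Ideal R, p.IsPrime → (p.map φ).comap φ = p].TFAE := by
  tfae_have 1 → 2 := by
    intro h I
    apply le_antisymm
    · intro x hx
      rw [Ideal.radical_eq_sInf, Ideal.mem_sInf]
      rintro p ⟨hIp, hp⟩
      obtain ⟨q, hq⟩ := h ⟨p, hp⟩
      have hq' : q.asIdeal.comap φ = p := congrArg PrimeSpectrum.asIdeal hq
      rw [← hq', Ideal.mem_comap]
      have h1 : I.map φ ≤ q.asIdeal := by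
        rw [Ideal.map_le_iff_le_comap, hq']; exact hIp
      exact (q.isPrime.radical_le_iff.mpr h1) hx
    · rintro x ⟨n, hn⟩
      exact ⟨n, by rw [← map_pow]; exact Ideal.mem_map_of_mem φ hn⟩
  tfae_have 2 → 3 := by
    intro h I hI
    apply le_antisymm
    · intro x hx
      have h1 : x ∈ ((I.map φ).radical).comap φ := Ideal.le_radical hx
      rw [h I, hI.radical] at h1
      exact h1
    · exact Ideal.le_comap_map
  tfae_have 3 → 4 := fun h p hp => h p hp.isRadical
  tfae_have 4 → 1 := by
    intro h p
    obtain ⟨q, hq, hqp⟩ := (Ideal.comap_map_eq_self_iff_of_isPrime p.asIdeal).mp (h p.asIdeal p.isPrime)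
    exact ⟨⟨q, hq⟩, PrimeSpectrum.ext hqp⟩
  tfae_finish

end Groth.Agent.S9631
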