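import Groth.Statements.S9637
import Mathlib
-- import your own Groth.Agent.* helpers here

set_option autoImplicit false
universe u
open CAlg

namespace Groth.Agent.S9637

/-- Let R be a local Noetherian ring, I an ideal contained in its maximal ideal, and M a finite
R-module. Then I contains an M-regular element (one acting injectively on M) if and only if no
associated prime of M contains I. -/
theorem result {R : Type u} [CommRing R] [IsNoetherianRing R] [IsLocalRing R] (I : Ideal R) (hI : I ≤ IsLocalRing.maximalIdeal R) (M : Type u) [AddCommGroup M] [Module R M] [Module.Finite R M] :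
    (∃ x ∈ I, IsSMulRegular M x) ↔ ∀ q ∈ associatedPrimes R M, ¬ I ≤ q := by
  constructor
  · rintro ⟨x, hx, hreg⟩ q hq hIq
    have h1 : x ∈ ⋃ p ∈ associatedPrimes R M, (p : Set R) := by
      simp only [Set.mem_iUnion]
      exact ⟨q, hq, hIq hx⟩
    rw [biUnion_associatedPrimes_eq_compl_regular] at h1
    exact h1 hreg
  · intro h
    by_contra hcon
    have hsub : (I : Set R) ⊆ ⋃ p ∈ associatedPrimes R M, (p : Set R) := by
      rw [biUnion_associatedPrimes_eq_compl_regular]
      intro x hx hreg
      exact hcon ⟨x, hx, hreg⟩
    have hfin : (associatedPrimes R M).Finite := associatedPrimes.finite R M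
    rw [← hfin.coe_toFinset] at hsub
    rw [Ideal.subset_union_prime (f := fun p => p) ⊥ ⊥] at hsub
    · obtain ⟨q, hq, hle⟩ := hsub
      exact h q (by simpa using hq) hle
    · intro i hi _ _
      have : i ∈ associatedPrimes R M := by simpa using hi
      exact this.isPrime

end Groth.Agent.S9637
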